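import Mathlib
import Cfsg.Agent.H689.ClaLin
import Cfsg.Agent.S0292
import Cfsg.Agent.S0293
import Cfsg.Agent.S0294
import Cfsg.Agent.LieClassical.OmegaCenter

/-!
# Orthogonal groups are not rational
-/

set_option autoImplicit false
set_option linter.unusedSectionVars false

open Cfsg Matrix

namespace Cfsg.Agent.H689

universe u

open Cfsg.Agent.LieClassical.OmegaReindex Cfsg.Agent.LieClassical.OmegaCenter

theorem not_orat_omega {ι : Type} [Fintype ι] [DecidableEq ι] {F : Type} [Field F] [Finite F]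
    (Q : QuadraticForm F (ι → F)) (hQ : (QuadraticMap.polarBilin Q).Nondegenerate)
    (hn : 3 ≤ Fintype.card ι) (hs : ∃ u : ι → F, u ≠ 0 ∧ Q u = 0) {r : ℕ} (hr : r.Prime)
    (hrF : (r : F) ≠ 0) (hd : r ∣ Nat.card (POmega F ⇑Q)) (hl : Fintype.card ι + 1 < r) {n : ℕ}
    (hrn : r.Coprime n) : ¬ ORat n (POmega F ⇑Q) := by
  have hFr : Fact r.Prime := ⟨hr⟩
  refine not_orat_of_rep (L := Omega F ⇑Q) (F := F) (d := ι)
    ((isometryGroup F ⇑Q).subtype.comp (Omega F ⇑Q).subtype)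
    hr hrF (hd.trans (Subgroup.card_quotient_dvd_card _)) ?_ (Subgroup.center _) le_rfl ?_ hl hrn
  · have h1 : ((isometryGroup F ⇑Q).subtype.comp (Omega F ⇑Q).subtype).ker = ⊥ := by
      rw [MonoidHom.ker_eq_bot_iff]
      exact (isometryGroup F ⇑Q).subtype_injective.comp (Omega F ⇑Q).subtype_injective
    rw [h1, Subgroup.card_bot]
    exact fun h => hr.one_lt.ne' (Nat.dvd_one.1 h)
  · intro h
    obtain ⟨z, hz⟩ := exists_prime_orderOf_dvd_card' (G := Subgroup.center (Omega F ⇑Q)) r h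
    have h1 := (mem_center_omega_iff Q hQ hn hs (z : Omega F ⇑Q)).1 z.2
    have h2 : (z : Omega F ⇑Q) ^ 2 = 1 := by
      apply omega_ext
      have h3 : omegaMat ((z : Omega F ⇑Q) ^ 2) = omegaMat (z : Omega F ⇑Q) * omegaMat (z : Omega F ⇑Q) := by
        rw [pow_two]; rfl
      rw [h3]
      rcases h1 with h1 | h1
      · rw [h1]; exact mul_one _
      · rw [h1, neg_mul_neg]; exact mul_one _
    have h3 : orderOf (z : Omega F ⇑Q) = r := by rw [Subgroup.orderOf_coe]; exact hz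
    have h4 := orderOf_dvd_of_pow_eq_one h2
    rw [h3] at h4
    have := Nat.le_of_dvd (by omega) h4
    omega

/-- `PΩ (2m+1) q`, `q` odd, `m ≥ 3`. -/
theorem not_orat_oodd {F : Type} [Field F] [Fintype F] (p : ℕ) [CharP F p] {m : ℕ} (hm : 3 ≤ m)
    (ho : Odd (Fintype.card F)) : ¬ ORat p (POmega F (quadFormOdd m F)) := by
  obtain ⟨k, hk3, hkm, hok, hk2⟩ : ∃ k, 3 ≤ k ∧ k ≤ m ∧ Odd k ∧ m ≤ k + 1 := by
    rcases Nat.even_or_odd m with h | h
    · obtain ⟨j, hj⟩ := h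
      exact ⟨m - 1, by omega, by omega, ⟨j - 1, by omega⟩, by omega⟩
    · exact ⟨m, hm, le_rfl, h, by omega⟩
  have h2 : (2 : F) ≠ 0 := LieClassical.PomegaCard.odd_card_iff.1 ho
  have hq : 2 ≤ Fintype.card F := Fintype.one_lt_card
  obtain ⟨r, hr, hrl⟩ := exists_large hq hk3 hok (by
    rintro ⟨h3, h4⟩
    rw [h3] at ho
    revert ho; decide)
  obtain ⟨k', hk', hr, hd⟩ : ∃ k', 3 ≤ k' ∧ Ppd (Fintype.card F) k' r ∧ k' ∣ 2 * k := by
    rcases hr with hr | hr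
    · exact ⟨k, hk3, hr, Dvd.intro_left _ rfl⟩
    · exact ⟨2 * k, by omega, hr, dvd_rfl⟩
  have hcard : Fintype.card (Unit ⊕ (Fin m ⊕ Fin m)) = 2 * m + 1 := by
    simp
    ring
  have hdvd : r ∣ 2 * Nat.card (POmega F (quadFormOdd m F)) := by
    rw [S0292.result (F := F) rfl ho m hm]
    refine Dvd.dvd.mul_left ?_ _
    refine Dvd.dvd.trans ?_ (Finset.dvd_prod_of_mem _ (Finset.mem_range.2
      (show k - 1 < m by omega)))
    rw [Nat.sub_add_cancel (by omega)]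
    exact (hr.iff _).2 hd
  have hdvd' : r ∣ Nat.card (POmega F (quadFormOdd m F)) := by
    rcases hr.prime.dvd_mul.1 hdvd with h | h
    · have := Nat.le_of_dvd (by omega) h; omega
    · exact h
  rw [← LieClassical.QuadForms.coe_oddForm] at hdvd' ⊢
  refine not_orat_omega (LieClassical.QuadForms.oddForm m F) (S0292.oddForm_nondegenerate h2 m)
    (by omega) (S0292.exists_singular (by omega)) hr.prime (ne_zero_of_ppd hr) hdvd' ?_
    (coprime_of_ppd hr p)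
  rw [hcard]; omega

theorem exists_even_large {q m : ℕ} (hq : 2 ≤ q) (hm : 4 ≤ m) (h2 : ¬ (q = 2 ∧ m ≤ 5)) :
    ∃ r k, 3 ≤ k ∧ k ≤ m - 1 ∧ (∃ k', 3 ≤ k' ∧ Ppd q k' r ∧ k' ∣ 2 * k) ∧ 2 * m + 1 < r := by
  obtain ⟨k, hk3, hkm, hok, hk2⟩ : ∃ k, 3 ≤ k ∧ k ≤ m - 1 ∧ Odd k ∧ m ≤ k + 2 := by
    rcases Nat.even_or_odd m with h | h
    · obtain ⟨j, hj⟩ := h
      exact ⟨m - 1, by omega, by omega, ⟨j - 1, by omega⟩, by omega⟩
    · obtain ⟨j, hj⟩ := h
      exact ⟨m - 2, by omega, by omega, ⟨j - 1, by omega⟩, by omega⟩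
  obtain ⟨r, hr, hrl⟩ := exists_large hq hk3 hok (by
    rintro ⟨h3, h4⟩
    exact h2 ⟨h3, by omega⟩)
  refine ⟨r, k, hk3, hkm, ?_, by omega⟩
  rcases hr with hr | hr
  · exact ⟨k, hk3, hr, Dvd.intro_left _ rfl⟩
  · exact ⟨2 * k, by omega, hr, dvd_rfl⟩

/-- `PΩ⁺ (2m) q`, `m ≥ 4`, not `q = 2`, `m ≤ 5`. -/
theorem not_orat_oplus {F : Type} [Field F] [Fintype F] (p : ℕ) [CharP F p] {m : ℕ} (hm : 4 ≤ m)
    (h2 : ¬ (Fintype.card F = 2 ∧ m ≤ 5)) : ¬ ORat p (POmega F (quadFormPlus m F)) := by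
  have hq : 2 ≤ Fintype.card F := Fintype.one_lt_card
  obtain ⟨r, k, hk3, hkm, ⟨k', hk', hr, hd⟩, hrl⟩ := exists_even_large hq hm h2
  have hcard : Fintype.card (Fin m ⊕ Fin m) = 2 * m := by simp; ring
  have hdvd : r ∣ Nat.card (POmega F (quadFormPlus m F)) := by
    have h := S0293.result (F := F) rfl m hm
    have h1 : r ∣ Nat.gcd 4 (Fintype.card F ^ m - 1) * Nat.card (POmega F (quadFormPlus m F)) := by
      rw [h]
      refine Dvd.dvd.mul_left ?_ _
      refine Dvd.dvd.trans ?_ (Finset.dvd_prod_of_mem _ (Finset.mem_range.2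
        (show k - 1 < m - 1 by omega)))
      rw [Nat.sub_add_cancel (by omega)]
      exact (hr.iff _).2 hd
    refine (hr.prime.dvd_mul.1 h1).resolve_left fun h => ?_
    have := Nat.le_of_dvd (by omega) (h.trans (Nat.gcd_dvd_left _ _))
    omega
  rw [← coe_quadPlus]
  refine not_orat_omega (quadPlus m F) quadPlus_nondegenerate (by omega)
    (quadPlus_isotropic (by omega)) hr.prime (ne_zero_of_ppd hr) ?_ ?_ (coprime_of_ppd hr p)
  · rw [coe_quadPlus]; exact hdvd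
  · rw [hcard]; omega

/-- `PΩ⁻ (2m) q`, `m ≥ 4`, not `q = 2`, `m ≤ 5`. -/
theorem not_orat_ominus {F : Type} [Field F] [Fintype F] (p : ℕ) [CharP F p] {m : ℕ} (hm : 4 ≤ m)
    (h2 : ¬ (Fintype.card F = 2 ∧ m ≤ 5)) (a b : F)
    (hab : ∀ z₁ z₂ : F, z₁ ^ 2 + a * z₁ * z₂ + b * z₂ ^ 2 = 0 → z₁ = 0 ∧ z₂ = 0) :
    ¬ ORat p (POmega F (quadFormMinus (m - 1) F a b)) := by
  have hq : 2 ≤ Fintype.card F := Fintype.one_lt_card
  obtain ⟨r, k, hk3, hkm, ⟨k', hk', hr, hd⟩, hrl⟩ := exists_even_large hq hm h2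
  have hcard : Fintype.card ((Fin (m - 1) ⊕ Fin (m - 1)) ⊕ Fin 2) = 2 * m := by
    simp only [Fintype.card_sum, Fintype.card_fin]; omega
  have hdvd : r ∣ Nat.card (POmega F (quadFormMinus (m - 1) F a b)) := by
    have h := S0294.result (F := F) rfl m hm a b hab
    have h1 : r ∣ Nat.gcd 4 (Fintype.card F ^ m + 1) *
        Nat.card (POmega F (quadFormMinus (m - 1) F a b)) := by
      rw [h]
      refine Dvd.dvd.mul_left ?_ _
      refine Dvd.dvd.trans ?_ (Finset.dvd_prod_of_mem _ (Finset.mem_range.2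
        (show k - 1 < m - 1 by omega)))
      rw [Nat.sub_add_cancel (by omega)]
      exact (hr.iff _).2 hd
    refine (hr.prime.dvd_mul.1 h1).resolve_left fun h => ?_
    have := Nat.le_of_dvd (by omega) (h.trans (Nat.gcd_dvd_left _ _))
    omega
  rw [← coe_quadMinus]
  refine not_orat_omega (quadMinus (m - 1) F a b) (quadMinus_nondegenerate hab) (by omega)
    (quadMinus_isotropic (by omega) a b) hr.prime (ne_zero_of_ppd hr) ?_ ?_ (coprime_of_ppd hr p)
  · rw [coe_quadMinus]; exact hdvd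
  · rw [hcard]; omega

end Cfsg.Agent.H689
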