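import Mathlib
import Cfsg.Agent.H689.ClaOrth

/-!
# Classical groups over the field with two elements: the prime 17
-/

set_option autoImplicit false
set_option linter.unusedSectionVars false

open Cfsg Matrix

namespace Cfsg.Agent.H689

open Cfsg.Agent.LieClassical.OmegaReindex Cfsg.Agent.LieClassical.OmegaCenter

theorem ppd17 : Ppd 2 8 17 := by
  refine ⟨by norm_num, ?_, by norm_num, by norm_num⟩
  intro m
  rw [Lib.Zsigmondy.dvd_pow_sub_one_iff (by norm_num)]
  have : orderOf ((2 : ℕ) : ZMod 17) = 8 := by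
    have h1 : orderOf (2 : ZMod 17) = 2 ^ 3 := orderOf_eq_prime_pow (p := 2) (n := 2) (by decide)
      (by decide)
    exact_mod_cast h1
  rw [this]

/-- `Sp 8 2`. -/
theorem not_orat_psp_eight {F : Type} [Field F] [Fintype F] (p : ℕ) [CharP F p]
    (h2 : Fintype.card F = 2) : ¬ ORat p (PSp 4 F) := by
  classical
  have hr : Ppd (Fintype.card F) 8 17 := by rw [h2]; exact ppd17
  have hdvd' : 17 ∣ Nat.card (symplecticGroup (Fin 4) F) := by
    rw [S0245.result (F := F) rfl 4]
    refine Dvd.dvd.mul_left ?_ _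
    refine Dvd.dvd.trans ?_ (Finset.dvd_prod_of_mem _ (Finset.mem_range.2 (show 3 < 4 by omega)))
    exact (hr.iff _).2 (by norm_num)
  refine not_orat_of_rep (L := symplecticGroup (Fin 4) F) (d := Fin 4 ⊕ Fin 4)
    (F := F) ((Units.map ((symplecticGroup (Fin 4) F).subtype)).comp toUnits.toMonoidHom)
    hr.prime (ne_zero_of_ppd hr) hdvd' ?_ (Subgroup.center _) le_rfl ?_ ?_ (coprime_of_ppd hr p)
  · have h1 : ((Units.map ((symplecticGroup (Fin 4) F).subtype)).comp
        (toUnits (G := symplecticGroup (Fin 4) F)).toMonoidHom).ker = ⊥ := by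
      rw [MonoidHom.ker_eq_bot_iff]
      intro a b hab
      exact Subtype.ext (congrArg (fun u : GL (Fin 4 ⊕ Fin 4) F =>
        (u : Matrix (Fin 4 ⊕ Fin 4) (Fin 4 ⊕ Fin 4) F)) hab)
    rw [h1, Subgroup.card_bot]
    exact fun h => hr.prime.one_lt.ne' (Nat.dvd_one.1 h)
  · rw [S0246.result (F := F) rfl 4 (by omega)]
    exact fun h4 => hr.not_dvd_sub_one (by omega) (h4.trans (Nat.gcd_dvd_right _ _))
  · rw [Fintype.card_sum, Fintype.card_fin]
    omega

/-- `Ω⁺ 10 2`. -/
theorem not_orat_oplus_ten {F : Type} [Field F] [Fintype F] (p : ℕ) [CharP F p]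
    (h2 : Fintype.card F = 2) : ¬ ORat p (POmega F (quadFormPlus 5 F)) := by
  have hr : Ppd (Fintype.card F) 8 17 := by rw [h2]; exact ppd17
  have hcard : Fintype.card (Fin 5 ⊕ Fin 5) = 10 := by simp
  have hdvd : 17 ∣ Nat.card (POmega F (quadFormPlus 5 F)) := by
    have h := S0293.result (F := F) rfl 5 (by omega)
    have h1 : 17 ∣ Nat.gcd 4 (Fintype.card F ^ 5 - 1) * Nat.card (POmega F (quadFormPlus 5 F)) := by
      rw [h]
      refine Dvd.dvd.mul_left ?_ _
      refine Dvd.dvd.trans ?_ (Finset.dvd_prod_of_mem _ (Finset.mem_range.2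
        (show 3 < 5 - 1 by omega)))
      exact (hr.iff _).2 (by norm_num)
    refine (hr.prime.dvd_mul.1 h1).resolve_left fun h => ?_
    have := Nat.le_of_dvd (by omega) (h.trans (Nat.gcd_dvd_left _ _))
    omega
  rw [← coe_quadPlus]
  refine not_orat_omega (quadPlus 5 F) quadPlus_nondegenerate (by omega)
    (quadPlus_isotropic (by omega)) hr.prime (ne_zero_of_ppd hr) ?_ ?_ (coprime_of_ppd hr p)
  · rw [coe_quadPlus]; exact hdvd
  · rw [hcard]; omega

/-- `Ω⁻ 8 2` and `Ω⁻ 10 2`. -/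
theorem not_orat_ominus_two {F : Type} [Field F] [Fintype F] (p : ℕ) [CharP F p]
    (h2 : Fintype.card F = 2) {m : ℕ} (hm : m = 4 ∨ m = 5) (a b : F)
    (hab : ∀ z₁ z₂ : F, z₁ ^ 2 + a * z₁ * z₂ + b * z₂ ^ 2 = 0 → z₁ = 0 ∧ z₂ = 0) :
    ¬ ORat p (POmega F (quadFormMinus (m - 1) F a b)) := by
  have hr : Ppd (Fintype.card F) 8 17 := by rw [h2]; exact ppd17
  have hcard : Fintype.card ((Fin (m - 1) ⊕ Fin (m - 1)) ⊕ Fin 2) = 2 * m := by
    simp only [Fintype.card_sum, Fintype.card_fin]; omega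
  have hdvd : 17 ∣ Nat.card (POmega F (quadFormMinus (m - 1) F a b)) := by
    have h := S0294.result (F := F) rfl m (by omega) a b hab
    have h1 : 17 ∣ Nat.gcd 4 (Fintype.card F ^ m + 1) *
        Nat.card (POmega F (quadFormMinus (m - 1) F a b)) := by
      rw [h]
      rcases hm with rfl | rfl
      · refine Dvd.dvd.mul_right ?_ _
        refine Dvd.dvd.mul_left ?_ _
        rw [h2]; norm_num
      · refine Dvd.dvd.mul_left ?_ _
        refine Dvd.dvd.trans ?_ (Finset.dvd_prod_of_mem _ (Finset.mem_range.2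
          (show 3 < 5 - 1 by omega)))
        exact (hr.iff _).2 (by norm_num)
    refine (hr.prime.dvd_mul.1 h1).resolve_left fun h => ?_
    have := Nat.le_of_dvd (by omega) (h.trans (Nat.gcd_dvd_left _ _))
    omega
  rw [← coe_quadMinus]
  refine not_orat_omega (quadMinus (m - 1) F a b) (quadMinus_nondegenerate hab) (by omega)
    (quadMinus_isotropic (by omega) a b) hr.prime (ne_zero_of_ppd hr) ?_ ?_ (coprime_of_ppd hr p)
  · rw [coe_quadMinus]; exact hdvd
  · rw [hcard]; omega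

end Cfsg.Agent.H689
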