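import Mathlib
import Cfsg.Agent.H689.ClaLin
import Cfsg.Agent.ClassicalGeometry.PSL2Basic

/-!
# `PSL(2, q)` and `PSp(2m, q)`, `q` odd; `PSL(2, 2^f)`, `PSp(4, 2^f)`
-/

set_option autoImplicit false
set_option linter.unusedSectionVars false

open Cfsg Matrix

namespace Cfsg.Agent.H689

universe u

/-- An automorphism of a group induces one on the quotient by the center. -/
theorem exists_aut_quotient {L : Type*} [Group L] (α : L ≃* L) :
    ∃ β : (L ⧸ Subgroup.center L) ≃* (L ⧸ Subgroup.center L), ∀ x : L, β (x : L ⧸ Subgroup.center L) =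
      ((α x : L) : L ⧸ Subgroup.center L) := by
  refine ⟨QuotientGroup.congr (Subgroup.center L) (Subgroup.center L) α ?_, fun x => rfl⟩
  ext y
  constructor
  · rintro ⟨x, hx, rfl⟩
    rw [SetLike.mem_coe, Subgroup.mem_center_iff] at hx
    rw [Subgroup.mem_center_iff]
    intro g
    obtain ⟨g, rfl⟩ := α.surjective g
    exact (map_mul α g x).symm.trans ((congrArg α (hx g)).trans (map_mul α x g))
  · intro hy
    rw [Subgroup.mem_center_iff] at hy
    refine ⟨α.symm y, ?_, by simp⟩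
    rw [SetLike.mem_coe, Subgroup.mem_center_iff]
    intro g
    apply α.injective
    simpa using hy (α g)

/-- Nonconjugacy criterion via an automorphism. -/
theorem not_ratl_of_aut {L : Type*} [Group L] (α : L ≃* L) (x : L)
    (h : ∀ g : L, ∀ z ∈ Subgroup.center L, g * x * g⁻¹ * z ≠ α x) :
    ¬ Ratl (L ⧸ Subgroup.center L) := by
  intro hR
  obtain ⟨β, hβ⟩ := exists_aut_quotient α
  obtain ⟨g, hg⟩ := isConj_iff.1 (hR.aut β (x : L ⧸ Subgroup.center L))
  obtain ⟨g, rfl⟩ := QuotientGroup.mk_surjective g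
  rw [hβ] at hg
  have h1 : ((g * x * g⁻¹ : L) : L ⧸ Subgroup.center L) = ((α x : L) : L ⧸ Subgroup.center L) := hg
  rw [QuotientGroup.eq] at h1
  exact h g _ h1 (by group)

theorem exists_nonsquare_unit (F : Type*) [Field F] [Fintype F] (h2 : (2 : F) ≠ 0) :
    ∃ ν : F, ν ≠ 0 ∧ ∀ a : F, a * a ≠ ν := by
  have h : ringChar F ≠ 2 := by
    intro h
    apply h2
    have := ringChar.Nat.cast_ringChar (R := F)
    rw [h] at this
    exact_mod_cast this
  obtain ⟨ν, hν⟩ := FiniteField.exists_nonsquare h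
  refine ⟨ν, ?_, ?_⟩
  · rintro rfl
    exact hν (IsSquare.zero)
  · intro a ha
    exact hν ⟨a, ha.symm⟩

/-- Conjugation of `SL` by an element of `GL`. -/
def slAut {n : ℕ} {F : Type*} [Field F] (d : GL (Fin n) F) :
    SpecialLinearGroup (Fin n) F ≃* SpecialLinearGroup (Fin n) F where
  toFun x := ⟨(d : Matrix (Fin n) (Fin n) F) * x * ((d⁻¹ : GL (Fin n) F) : Matrix (Fin n) (Fin n) F), by
    rw [det_mul, det_mul, x.2, mul_one, ← det_mul, ← Units.val_mul, mul_inv_cancel, Units.val_one,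
      det_one]⟩
  invFun x := ⟨((d⁻¹ : GL (Fin n) F) : Matrix (Fin n) (Fin n) F) * x * (d : Matrix (Fin n) (Fin n) F), by
    rw [det_mul, det_mul, x.2, mul_one, ← det_mul, ← Units.val_mul, inv_mul_cancel, Units.val_one,
      det_one]⟩
  left_inv x := by
    apply Subtype.ext
    show ((d⁻¹ : GL (Fin n) F) : Matrix (Fin n) (Fin n) F) * ((d : Matrix (Fin n) (Fin n) F) *
      (x : Matrix (Fin n) (Fin n) F) * ((d⁻¹ : GL (Fin n) F) : Matrix (Fin n) (Fin n) F)) *
        (d : Matrix (Fin n) (Fin n) F) = x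
    have h1 : ((d⁻¹ : GL (Fin n) F) : Matrix (Fin n) (Fin n) F) * (d : Matrix (Fin n) (Fin n) F) = 1 := by
      rw [← Units.val_mul, inv_mul_cancel, Units.val_one]
    rw [show ((d⁻¹ : GL (Fin n) F) : Matrix (Fin n) (Fin n) F) * ((d : Matrix (Fin n) (Fin n) F) *
      (x : Matrix (Fin n) (Fin n) F) * ((d⁻¹ : GL (Fin n) F) : Matrix (Fin n) (Fin n) F)) *
        (d : Matrix (Fin n) (Fin n) F) = (((d⁻¹ : GL (Fin n) F) : Matrix (Fin n) (Fin n) F) *
          (d : Matrix (Fin n) (Fin n) F)) * x * (((d⁻¹ : GL (Fin n) F) : Matrix (Fin n) (Fin n) F) *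
          (d : Matrix (Fin n) (Fin n) F)) by simp only [mul_assoc], h1, one_mul, mul_one]
  right_inv x := by
    apply Subtype.ext
    show (d : Matrix (Fin n) (Fin n) F) * (((d⁻¹ : GL (Fin n) F) : Matrix (Fin n) (Fin n) F) *
      (x : Matrix (Fin n) (Fin n) F) * (d : Matrix (Fin n) (Fin n) F)) *
        ((d⁻¹ : GL (Fin n) F) : Matrix (Fin n) (Fin n) F) = x
    have h1 : (d : Matrix (Fin n) (Fin n) F) * ((d⁻¹ : GL (Fin n) F) : Matrix (Fin n) (Fin n) F) = 1 := by
      rw [← Units.val_mul, mul_inv_cancel, Units.val_one]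
    rw [show (d : Matrix (Fin n) (Fin n) F) * (((d⁻¹ : GL (Fin n) F) : Matrix (Fin n) (Fin n) F) *
      (x : Matrix (Fin n) (Fin n) F) * (d : Matrix (Fin n) (Fin n) F)) *
        ((d⁻¹ : GL (Fin n) F) : Matrix (Fin n) (Fin n) F) = ((d : Matrix (Fin n) (Fin n) F) *
          ((d⁻¹ : GL (Fin n) F) : Matrix (Fin n) (Fin n) F)) * x * ((d : Matrix (Fin n) (Fin n) F) *
          ((d⁻¹ : GL (Fin n) F) : Matrix (Fin n) (Fin n) F)) by simp only [mul_assoc], h1, one_mul,
      mul_one]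
  map_mul' x y := by
    apply Subtype.ext
    show (d : Matrix (Fin n) (Fin n) F) * ((x : Matrix (Fin n) (Fin n) F) * y) *
        ((d⁻¹ : GL (Fin n) F) : Matrix (Fin n) (Fin n) F) =
      ((d : Matrix (Fin n) (Fin n) F) * x * ((d⁻¹ : GL (Fin n) F) : Matrix (Fin n) (Fin n) F)) *
      ((d : Matrix (Fin n) (Fin n) F) * y * ((d⁻¹ : GL (Fin n) F) : Matrix (Fin n) (Fin n) F))
    have h1 : ((d⁻¹ : GL (Fin n) F) : Matrix (Fin n) (Fin n) F) * (d : Matrix (Fin n) (Fin n) F) = 1 := by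
      rw [← Units.val_mul, inv_mul_cancel, Units.val_one]
    rw [show ((d : Matrix (Fin n) (Fin n) F) * x * ((d⁻¹ : GL (Fin n) F) : Matrix (Fin n) (Fin n) F)) *
      ((d : Matrix (Fin n) (Fin n) F) * y * ((d⁻¹ : GL (Fin n) F) : Matrix (Fin n) (Fin n) F)) =
      (d : Matrix (Fin n) (Fin n) F) * x * (((d⁻¹ : GL (Fin n) F) : Matrix (Fin n) (Fin n) F) *
      (d : Matrix (Fin n) (Fin n) F)) * y * ((d⁻¹ : GL (Fin n) F) : Matrix (Fin n) (Fin n) F) by
        simp only [mul_assoc], h1, mul_one]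
    simp only [mul_assoc]

theorem coe_slAut {n : ℕ} {F : Type*} [Field F] (d : GL (Fin n) F) (x : SpecialLinearGroup (Fin n) F) :
    ((slAut d x : SpecialLinearGroup (Fin n) F) : Matrix (Fin n) (Fin n) F) =
      (d : Matrix (Fin n) (Fin n) F) * x * ((d⁻¹ : GL (Fin n) F) : Matrix (Fin n) (Fin n) F) := rfl

/-- `PSL 2 q`, `q` odd. -/
theorem not_ratl_psl_two {F : Type} [Field F] [Fintype F] (h2 : (2 : F) ≠ 0) :
    ¬ Ratl (ProjectiveSpecialLinearGroup (Fin 2) F) := by
  obtain ⟨ν, hν0, hν⟩ := exists_nonsquare_unit F h2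
  have hdet : det !![ν, 0; 0, 1] = ν := by rw [det_fin_two_of]; ring
  let d : GL (Fin 2) F := GeneralLinearGroup.mkOfDetNeZero !![ν, 0; 0, 1] (by rw [hdet]; exact hν0)
  let x : SpecialLinearGroup (Fin 2) F := ⟨!![1, 1; 0, 1], by rw [det_fin_two_of]; ring⟩
  refine not_ratl_of_aut (L := SpecialLinearGroup (Fin 2) F) (slAut d) x ?_
  intro g z hz hgz
  have e1 : (slAut d x : Matrix (Fin 2) (Fin 2) F) * (d : Matrix (Fin 2) (Fin 2) F) =
      (d : Matrix (Fin 2) (Fin 2) F) * x := by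
    rw [coe_slAut, mul_assoc, ← Units.val_mul, inv_mul_cancel, Units.val_one, mul_one]
  -- `z` is scalar
  rw [Matrix.SpecialLinearGroup.mem_center_iff] at hz
  obtain ⟨c, hc2, hcz⟩ := hz
  have hc : c ^ 2 = 1 := by simpa using hc2
  have e2 : (g : Matrix (Fin 2) (Fin 2) F) * x * z * d = (slAut d x : Matrix (Fin 2) (Fin 2) F) * g * d := by
    have h3 : g * x * z = slAut d x * g := by
      have hzc : z * g = g * z := by
        have : z ∈ Subgroup.center (SpecialLinearGroup (Fin 2) F) := by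
          rw [Matrix.SpecialLinearGroup.mem_center_iff]; exact ⟨c, hc2, hcz⟩
        exact ((Subgroup.mem_center_iff.1 this) g).symm
      rw [← hgz]
      calc g * x * z = g * x * (g⁻¹ * (g * z)) := by group
        _ = g * x * g⁻¹ * z * g := by rw [← hzc]; group
    have h4 : (g : Matrix (Fin 2) (Fin 2) F) * x * z = (slAut d x : Matrix (Fin 2) (Fin 2) F) * g :=
      congrArg Subtype.val h3
    rw [h4]
  have hx : (x : Matrix (Fin 2) (Fin 2) F) = !![1, 1; 0, 1] := rfl
  have hd : (d : Matrix (Fin 2) (Fin 2) F) = !![ν, 0; 0, 1] := rfl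
  have hdi : (slAut d x : Matrix (Fin 2) (Fin 2) F) = !![1, ν; 0, 1] := by
    have h5 : (slAut d x : Matrix (Fin 2) (Fin 2) F) * !![ν, 0; 0, 1] = !![1, ν; 0, 1] * !![ν, 0; 0, 1] := by
      rw [← hd, e1, hx, hd]
      ext i j
      fin_cases i <;> fin_cases j <;> simp [Matrix.mul_apply, Fin.sum_univ_two]
    have h6 : IsUnit (!![ν, 0; 0, 1] : Matrix (Fin 2) (Fin 2) F) := by
      rw [isUnit_iff_isUnit_det, hdet]; exact isUnit_iff_ne_zero.2 hν0
    exact h6.mul_right_cancel h5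
  have hz' : (z : Matrix (Fin 2) (Fin 2) F) = c • (1 : Matrix (Fin 2) (Fin 2) F) := by
    rw [← hcz]; ext i j; simp [Matrix.scalar_apply, Matrix.diagonal_apply, Matrix.one_apply]
  have e3 : (g : Matrix (Fin 2) (Fin 2) F) * !![1, 1; 0, 1] * (c • (1 : Matrix (Fin 2) (Fin 2) F)) =
      !![1, ν; 0, 1] * (g : Matrix (Fin 2) (Fin 2) F) := by
    have h6 : IsUnit (d : Matrix (Fin 2) (Fin 2) F) := Units.isUnit d
    have h7 := h6.mul_right_cancel e2
    rw [hx, hz', hdi] at h7
    exact h7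
  have hdg : (g : Matrix (Fin 2) (Fin 2) F) 0 0 * (g : Matrix (Fin 2) (Fin 2) F) 1 1 -
      (g : Matrix (Fin 2) (Fin 2) F) 0 1 * (g : Matrix (Fin 2) (Fin 2) F) 1 0 = 1 := by
    rw [← det_fin_two]; exact g.2
  have a00 := congrFun (congrFun e3 0) 0
  have a01 := congrFun (congrFun e3 0) 1
  have a10 := congrFun (congrFun e3 1) 0
  have a11 := congrFun (congrFun e3 1) 1
  simp [Matrix.mul_apply, Fin.sum_univ_two, Matrix.smul_apply] at a00 a01 a10 a11
  set a := (g : Matrix (Fin 2) (Fin 2) F) 0 0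
  set b := (g : Matrix (Fin 2) (Fin 2) F) 0 1
  set e := (g : Matrix (Fin 2) (Fin 2) F) 1 0
  set f := (g : Matrix (Fin 2) (Fin 2) F) 1 1
  have hc' : (c - 1) * (c + 1) = 0 := by linear_combination hc
  rcases mul_eq_zero.1 hc' with h1 | h1
  · have hc1 : c = 1 := by linear_combination h1
    subst hc1
    have he : ν * e = 0 := by linear_combination -a00
    have he0 : e = 0 := (mul_eq_zero.1 he).resolve_left hν0
    have haf : a * f = 1 := by rw [he0] at hdg; linear_combination hdg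
    have ha : a = ν * f := by linear_combination a01
    have hf0 : f ≠ 0 := by rintro hf; rw [hf, mul_zero] at haf; exact zero_ne_one haf
    apply hν f⁻¹
    have h5 : ν * (f * f) = 1 := by rw [ha] at haf; linear_combination haf
    field_simp
    linear_combination -h5
  · have hc1 : c = -1 := by linear_combination h1
    subst hc1
    have he : (2 : F) * e = 0 := by linear_combination -a10
    have he0 : e = 0 := (mul_eq_zero.1 he).resolve_left h2
    have hf : (2 : F) * f = 0 := by rw [he0] at a11; linear_combination -a11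
    have hf0 : f = 0 := (mul_eq_zero.1 hf).resolve_left h2
    rw [he0, hf0] at hdg
    simp at hdg

/-- `PSL 2 q`, `q = 2 ^ f ≥ 4`. -/
theorem not_orat_psl_two_even {F : Type} [Field F] [Fintype F] [CharP F 2]
    (h4 : 4 ≤ Fintype.card F) : ¬ ORat 2 (ProjectiveSpecialLinearGroup (Fin 2) F) := by
  classical
  obtain ⟨f, -, hf⟩ := FiniteField.card F 2
  set f : ℕ := (f : ℕ) with hfdef
  have hf2 : 2 ≤ f := by
    by_contra hlt
    have : f = 0 ∨ f = 1 := by omega
    rcases this with h | h <;> rw [h] at hf <;> rw [hf] at h4 <;> norm_num at h4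
  obtain ⟨r, hr, hr3, hdvd⟩ : ∃ r : ℕ, r.Prime ∧ 3 < r ∧ r ∣ Fintype.card F ^ 2 - 1 := by
    by_cases h3 : f = 3
    · refine ⟨7, by norm_num, by norm_num, ?_⟩
      rw [hf, h3]; norm_num
    · obtain ⟨r, hr⟩ := exists_ppd (q := 2) (k := 2 * f) le_rfl (by omega) (by omega)
      refine ⟨r, hr.prime, by have := hr.le (by omega); omega, ?_⟩
      rw [hf, ← pow_mul, mul_comm]
      exact (hr.iff _).2 dvd_rfl
  have h20 : (2 : F) = 0 := by exact_mod_cast CharP.cast_eq_zero F 2
  have hrF : (r : F) ≠ 0 := by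
    intro h0
    have := (CharP.cast_eq_zero_iff F 2 r).1 h0
    have := (Nat.prime_dvd_prime_iff_eq Nat.prime_two hr).1 this
    omega
  have hcop : r.Coprime 2 := by
    rw [Nat.coprime_primes hr Nat.prime_two]
    omega
  refine not_orat_of_rep (L := SpecialLinearGroup (Fin 2) F)
    (SpecialLinearGroup.toGL (n := Fin 2) (R := F)) hr hrF ?_ ?_ (Subgroup.center _) le_rfl ?_ ?_ hcop
  · rw [ClassicalGeometry.PSL2Basic.card_SL2]
    exact hdvd.mul_left _
  · have h1 : (SpecialLinearGroup.toGL (n := Fin 2) (R := F)).ker = ⊥ := by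
      rw [MonoidHom.ker_eq_bot_iff]
      exact SpecialLinearGroup.toGL_injective
    rw [h1, Subgroup.card_bot]
    exact fun h => hr.one_lt.ne' (Nat.dvd_one.1 h)
  · rw [ClassicalGeometry.PSL2Basic.card_center_SL2_even h20]
    exact fun h => hr.one_lt.ne' (Nat.dvd_one.1 h)
  · rw [Fintype.card_fin]
    omega

/-- `PSp 4 q`, `q = 2 ^ f ≥ 4`. -/
theorem not_orat_psp_two_even {F : Type} [Field F] [Fintype F] [CharP F 2]
    (h4 : 3 ≤ Fintype.card F) : ¬ ORat 2 (PSp 2 F) := by
  classical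
  obtain ⟨f, -, hf⟩ := FiniteField.card F 2
  set f : ℕ := (f : ℕ) with hfdef
  have hf2 : 2 ≤ f := by
    by_contra hlt
    have : f = 0 ∨ f = 1 := by omega
    rcases this with h | h <;> rw [h] at hf <;> rw [hf] at h4 <;> norm_num at h4
  obtain ⟨r, hr⟩ := exists_ppd (q := 2) (k := 4 * f) le_rfl (by omega) (by omega)
  have hrl := hr.le (by omega)
  have hrF : (r : F) ≠ 0 := by
    intro h0
    have := (CharP.cast_eq_zero_iff F 2 r).1 h0
    have := (Nat.prime_dvd_prime_iff_eq Nat.prime_two hr.prime).1 this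
    omega
  have hcop : r.Coprime 2 := by
    rw [Nat.coprime_primes hr.prime Nat.prime_two]
    omega
  refine not_orat_of_rep (L := symplecticGroup (Fin 2) F) (d := Fin 2 ⊕ Fin 2)
    (F := F) ((Units.map ((symplecticGroup (Fin 2) F).subtype)).comp toUnits.toMonoidHom)
    hr.prime hrF ?_ ?_ (Subgroup.center _) le_rfl ?_ ?_ hcop
  · rw [S0245.result (F := F) rfl 2]
    refine Dvd.dvd.mul_left ?_ _
    refine Dvd.dvd.trans ?_ (Finset.dvd_prod_of_mem _ (Finset.mem_range.2 (show 1 < 2 by omega)))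
    rw [hf, ← pow_mul, show f * (2 * (1 + 1)) = 4 * f by ring]
    exact (hr.iff _).2 dvd_rfl
  · have h1 : ((Units.map ((symplecticGroup (Fin 2) F).subtype)).comp
        (toUnits (G := symplecticGroup (Fin 2) F)).toMonoidHom).ker = ⊥ := by
      rw [MonoidHom.ker_eq_bot_iff]
      intro a b hab
      exact Subtype.ext (congrArg (fun u : GL (Fin 2 ⊕ Fin 2) F =>
        (u : Matrix (Fin 2 ⊕ Fin 2) (Fin 2 ⊕ Fin 2) F)) hab)
    rw [h1, Subgroup.card_bot]
    exact fun h => hr.prime.one_lt.ne' (Nat.dvd_one.1 h)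
  · rw [S0246.result (F := F) rfl 2 (by omega)]
    intro h
    have h1 := Nat.le_of_dvd (Nat.gcd_pos_of_pos_left _ (by omega)) h
    have h2 := Nat.gcd_le_left (Fintype.card F - 1) (show 0 < 2 by omega)
    omega
  · rw [Fintype.card_sum, Fintype.card_fin]
    omega

end Cfsg.Agent.H689
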