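import Mathlib
import Cfsg.Agent.H689.ClaTwo

/-!
# `PSp(2m, q)`, `q` odd
-/

set_option autoImplicit false
set_option linter.unusedSectionVars false

open Cfsg Matrix

namespace Cfsg.Agent.H689

universe u

section

variable {m : ℕ} {F : Type*} [Field F]

/-- the similitude -/
def simD (m : ℕ) (ν : F) : Matrix (Fin m ⊕ Fin m) (Fin m ⊕ Fin m) F := fromBlocks (ν • 1) 0 0 1

theorem simD_mul (ν μ : F) : simD m ν * simD m μ = simD m (ν * μ) := by
  simp [simD, fromBlocks_multiply, smul_smul, mul_comm]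

theorem simD_one : simD m (1 : F) = 1 := by
  simp [simD, fromBlocks_one]

theorem simD_J (ν : F) : simD m ν * Matrix.J (Fin m) F * (simD m ν)ᵀ = ν • Matrix.J (Fin m) F := by
  simp [simD, Matrix.J, fromBlocks_multiply, fromBlocks_transpose, fromBlocks_smul]

theorem sim_mem {ν : F} (hν : ν ≠ 0) {A : Matrix (Fin m ⊕ Fin m) (Fin m ⊕ Fin m) F}
    (hA : A ∈ symplecticGroup (Fin m) F) : simD m ν * A * simD m ν⁻¹ ∈ symplecticGroup (Fin m) F := by
  rw [SymplecticGroup.mem_iff] at hA ⊢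
  calc simD m ν * A * simD m ν⁻¹ * Matrix.J (Fin m) F * (simD m ν * A * simD m ν⁻¹)ᵀ
      = simD m ν * (A * (simD m ν⁻¹ * Matrix.J (Fin m) F * (simD m ν⁻¹)ᵀ) * Aᵀ) * (simD m ν)ᵀ := by
        simp only [transpose_mul, mul_assoc]
    _ = ν⁻¹ • (simD m ν * (A * Matrix.J (Fin m) F * Aᵀ) * (simD m ν)ᵀ) := by
        rw [simD_J]; simp only [Matrix.mul_smul, Matrix.smul_mul]
    _ = Matrix.J (Fin m) F := by
        rw [hA, simD_J, smul_smul, inv_mul_cancel₀ hν, one_smul]

/-- conjugation by a similitude -/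
def spAut {ν : F} (hν : ν ≠ 0) : symplecticGroup (Fin m) F ≃* symplecticGroup (Fin m) F where
  toFun x := ⟨simD m ν * x.1 * simD m ν⁻¹, sim_mem hν x.2⟩
  invFun x := ⟨simD m ν⁻¹ * x.1 * simD m ν, by
    have := sim_mem (m := m) (inv_ne_zero hν) x.2
    rwa [inv_inv] at this⟩
  left_inv x := by
    apply Subtype.ext
    show simD m ν⁻¹ * (simD m ν * x.1 * simD m ν⁻¹) * simD m ν = x.1
    calc simD m ν⁻¹ * (simD m ν * x.1 * simD m ν⁻¹) * simD m ν =
        (simD m ν⁻¹ * simD m ν) * x.1 * (simD m ν⁻¹ * simD m ν) := by simp only [mul_assoc]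
      _ = x.1 := by rw [simD_mul, inv_mul_cancel₀ hν, simD_one, one_mul, mul_one]
  right_inv x := by
    apply Subtype.ext
    show simD m ν * (simD m ν⁻¹ * x.1 * simD m ν) * simD m ν⁻¹ = x.1
    calc simD m ν * (simD m ν⁻¹ * x.1 * simD m ν) * simD m ν⁻¹ =
        (simD m ν * simD m ν⁻¹) * x.1 * (simD m ν * simD m ν⁻¹) := by simp only [mul_assoc]
      _ = x.1 := by rw [simD_mul, mul_inv_cancel₀ hν, simD_one, one_mul, mul_one]
  map_mul' x y := by
    apply Subtype.ext
    show simD m ν * (x.1 * y.1) * simD m ν⁻¹ =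
      (simD m ν * x.1 * simD m ν⁻¹) * (simD m ν * y.1 * simD m ν⁻¹)
    calc simD m ν * (x.1 * y.1) * simD m ν⁻¹ =
        simD m ν * x.1 * 1 * y.1 * simD m ν⁻¹ := by simp only [mul_assoc, one_mul]
      _ = simD m ν * x.1 * (simD m ν⁻¹ * simD m ν) * y.1 * simD m ν⁻¹ := by
          rw [simD_mul, inv_mul_cancel₀ hν, simD_one]
      _ = _ := by simp only [mul_assoc]

/-- a transvection -/
def tvM (m : ℕ) (i : Fin m) (a : F) : Matrix (Fin m ⊕ Fin m) (Fin m ⊕ Fin m) F :=
  fromBlocks 1 (a • diagonal (Pi.single i 1)) 0 1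

theorem tvM_mem (i : Fin m) (a : F) : tvM m i a ∈ symplecticGroup (Fin m) F := by
  rw [SymplecticGroup.mem_iff]
  simp [tvM, Matrix.J, fromBlocks_multiply, fromBlocks_transpose, ← smul_add]

theorem tvM_mul (i : Fin m) (a b : F) : tvM m i a * tvM m i b = tvM m i (a + b) := by
  simp [tvM, fromBlocks_multiply, add_smul, add_comm]

theorem tvM_pow (i : Fin m) (a : F) (k : ℕ) : tvM m i a ^ k = tvM m i (k * a) := by
  induction k with
  | zero => simp [tvM, fromBlocks_one]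
  | succ k ih => rw [pow_succ, ih, tvM_mul]; congr 1; push_cast; ring

theorem sim_tv (i : Fin m) {ν : F} (hν : ν ≠ 0) (a : F) :
    simD m ν * tvM m i a * simD m ν⁻¹ = tvM m i (ν * a) := by
  simp [simD, tvM, fromBlocks_multiply, smul_smul, hν, mul_comm]

theorem quad_tv (i : Fin m) (a : F) (w : Fin m ⊕ Fin m → F) :
    w ⬝ᵥ (Matrix.J (Fin m) F * (tvM m i a - 1)) *ᵥ w = a * (w (Sum.inr i) * w (Sum.inr i)) := by
  have h1 : Matrix.J (Fin m) F * (tvM m i a - 1) =
      fromBlocks 0 0 0 (a • diagonal (Pi.single i 1)) := by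
    rw [← fromBlocks_one, tvM, sub_eq_add_neg, fromBlocks_neg, fromBlocks_add]
    simp [Matrix.J, fromBlocks_multiply]
  rw [h1, fromBlocks_mulVec]
  simp [dotProduct, Fintype.sum_sum_type, Matrix.smul_mulVec, mulVec_diagonal, Pi.single_apply]
  ring

end

/-- `PSp (2m) q`, `q` odd. -/
theorem not_ratl_psp_odd {F : Type} [Field F] [Fintype F] (h2 : (2 : F) ≠ 0) {m : ℕ} (hm : 1 ≤ m) :
    ¬ Ratl (PSp m F) := by
  obtain ⟨ν, hν0, hν⟩ := exists_nonsquare_unit F h2
  let i : Fin m := ⟨0, hm⟩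
  let x : symplecticGroup (Fin m) F := ⟨tvM m i 1, tvM_mem i 1⟩
  refine not_ratl_of_aut (L := symplecticGroup (Fin m) F) (spAut hν0) x ?_
  intro g z hz hgz
  -- `z = 1`
  have hx' : ((spAut hν0 x : symplecticGroup (Fin m) F) : Matrix _ _ F) = tvM m i ν := by
    show simD m ν * tvM m i 1 * simD m ν⁻¹ = _
    rw [sim_tv i hν0, mul_one]
  have hp : (ringChar F).Prime := CharP.char_is_prime F (ringChar F)
  have hxp : x ^ ringChar F = 1 := by
    apply Subtype.ext
    show (tvM m i 1 : Matrix _ _ F) ^ ringChar F = 1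
    rw [tvM_pow, ringChar.Nat.cast_ringChar]
    simp [tvM, fromBlocks_one]
  have hx'p : (spAut hν0 x) ^ ringChar F = 1 := by rw [← map_pow, hxp, map_one]
  have hz1 : z = 1 := by
    have hc : Commute (g * x * g⁻¹) z := (Subgroup.mem_center_iff.1 hz _)
    have h1 : z ^ ringChar F = 1 := by
      have := congrArg (· ^ ringChar F) hgz
      simp only [hc.mul_pow, conj_pow, hxp, mul_one, mul_inv_cancel, one_mul, hx'p] at this
      exact this
    have h3 : z ^ 2 = 1 := by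
      have h4 : Nat.card (Subgroup.center (symplecticGroup (Fin m) F)) ∣ 2 := by
        rw [S0246.result (F := F) rfl m hm]; exact Nat.gcd_dvd_left _ _
      have h5 := pow_card_eq_one' (x := (⟨z, hz⟩ : Subgroup.center (symplecticGroup (Fin m) F)))
      have h6 : z ^ Nat.card (Subgroup.center (symplecticGroup (Fin m) F)) = 1 :=
        congrArg Subtype.val h5
      obtain ⟨k, hk⟩ := h4
      rw [hk, pow_mul, h6, one_pow]
    have hne : ringChar F ≠ 2 := by
      intro h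
      apply h2
      have := ringChar.Nat.cast_ringChar (R := F)
      rw [h] at this
      exact_mod_cast this
    have h7 := Nat.dvd_gcd (orderOf_dvd_of_pow_eq_one h1) (orderOf_dvd_of_pow_eq_one h3)
    rw [((Nat.coprime_primes hp Nat.prime_two).2 hne).gcd_eq_one] at h7
    exact orderOf_eq_one_iff.1 (Nat.dvd_one.1 h7)
  rw [hz1, mul_one] at hgz
  have hgx : g.1 * tvM m i 1 = tvM m i ν * g.1 := by
    have h8 : g * x = spAut hν0 x * g := by rw [← hgz]; group
    have h9 := congrArg Subtype.val h8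
    rw [← hx']
    exact h9
  have hgJ : g.1ᵀ * Matrix.J (Fin m) F * g.1 = Matrix.J (Fin m) F :=
    SymplecticGroup.mem_iff'.1 g.2
  let w : Fin m ⊕ Fin m → F := Pi.single (Sum.inr i) 1
  have q1 := quad_tv i 1 w
  have q2 := quad_tv i ν (g.1 *ᵥ w)
  have key : (g.1 *ᵥ w) ⬝ᵥ (Matrix.J (Fin m) F * (tvM m i ν - 1)) *ᵥ
      (g.1 *ᵥ w) = w ⬝ᵥ (Matrix.J (Fin m) F * (tvM m i 1 - 1)) *ᵥ w := by
    rw [mulVec_mulVec, ← vecMul_transpose, ← dotProduct_mulVec, mulVec_mulVec]
    congr 2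
    have e1 : (tvM m i ν - 1) * g.1 = g.1 * (tvM m i 1 - 1) := by
      rw [sub_mul, mul_sub, hgx, one_mul, mul_one]
    rw [mul_assoc (Matrix.J (Fin m) F), e1, ← mul_assoc, ← mul_assoc, hgJ]
  rw [key, q1] at q2
  apply hν ((g.1 *ᵥ w) (Sum.inr i))⁻¹
  have hw : w (Sum.inr i) = 1 := by simp [w]
  rw [hw] at q2
  set b := (g.1 *ᵥ w) (Sum.inr i)
  have hb : b ≠ 0 := by
    intro hb
    rw [hb] at q2
    simp at q2
  field_simp
  linear_combination q2

end Cfsg.Agent.H689
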