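import Mathlib
import Cfsg.Agent.H689.E7Data
import Cfsg.Agent.H689.Exc1

/-!
# `E₇(2)` has an element which is not rational
-/

set_option autoImplicit false

open Cfsg

namespace Cfsg.Agent.H689.ESeven

open Cfsg.Lie Cfsg.Agent.ChevalleyStructure.SparseAct Cfsg.Agent.J4M.BitMat
  Cfsg.Agent.ChevalleyStructure.Elts

theorem intCast_zmod_two (z : ℤ) : ((z : ℤ) : ZMod 2) = bz (decide (z.natAbs % 2 = 1)) := by
  have h1 : ((z % 2 : ℤ) : ZMod 2) = (z : ZMod 2) := ZMod.intCast_mod z 2
  rw [← h1]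
  rcases Int.emod_two_eq_zero_or_one z with h | h
  · have h2 : z.natAbs % 2 = 0 := by omega
    rw [h, h2]
    rfl
  · have h2 : z.natAbs % 2 = 1 := by omega
    rw [h, h2]
    rfl

theorem bz_colN (i : ℕ) : ∀ L : List (ℕ × ℕ × ℤ), bz ((colN L).testBit i) =
    (L.map fun q => if q.1 = i then ((q.2.2 : ℤ) : ZMod 2) else 0).sum
  | [] => by simp [colN, bz]
  | q :: L => by
    rw [colN, List.map_cons, List.sum_cons, ← bz_colN i L]
    change bz ((_ ^^^ _ : ℕ).testBit i) = _
    rw [Nat.testBit_xor, bz_xor]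
    congr 1
    rw [intCast_zmod_two]
    by_cases h : q.2.2.natAbs % 2 = 1
    · rw [if_pos h, Nat.testBit_two_pow]
      by_cases h2 : q.1 = i
      · simp [h, h2]
      · simp [h2, bz]
    · rw [if_neg h, Nat.zero_testBit]
      by_cases h2 : q.1 = i
      · simp [h, h2]
      · simp [h2, bz]

theorem bz_tr (r : ℕ) {i j : ℕ} (hi : i < 133) (hj : j < 133) :
    bz ((tr r).testBit (133 * j + i)) =
      ((col chevE7 r j).map fun q => if q.1 = i then ((q.2.2 : ℤ) : ZMod 2) else 0).sum := by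
  rw [tr, testBit_dig 133 (by norm_num) _ (fun i => Nat.mod_lt _ (by positivity)), ← bz_colN]
  have h1 : (133 * j + i) / 133 = j := by omega
  have h2 : (133 * j + i) % 133 = i := by omega
  have h3 : 133 * j + i < 133 * 133 := by omega
  rw [h1, h2, Nat.testBit_mod_two_pow]
  simp [h3, hi]

theorem rank_add : chevE7.rank + chevE7.nroots = 133 := by decide

/-- the position of a coordinate -/
def pos (i : chevE7.Idx) : Fin 133 := ⟨code chevE7 i, by
  have := code_lt chevE7 i
  rw [rank_add] at this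
  exact this⟩

theorem pos_bijective : Function.Bijective pos := by
  constructor
  · intro a b hab
    exact code_injective chevE7 (congrArg Fin.val hab)
  · intro j
    obtain ⟨i, hi⟩ := exists_code chevE7 (j := j.val) (by rw [rank_add]; exact j.2)
    exact ⟨i, Fin.ext hi⟩

/-- the coordinates -/
noncomputable def E : chevE7.Idx ≃ Fin 133 := Equiv.ofBijective pos pos_bijective

theorem E_val (i : chevE7.Idx) : (E i : ℕ) = code chevE7 i := rfl

variable {F : Type*} [Field F] [CharP F 2]

/-- the embedding of the prime field -/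
noncomputable def φ (F : Type*) [Field F] [CharP F 2] : ZMod 2 →+* F :=
  ZMod.castHom (dvd_refl 2) F

/-- the matrix over `F` belonging to a packed matrix -/
noncomputable def Psi (F : Type*) [Field F] [CharP F 2] (A : Matrix (Fin 133) (Fin 133) (ZMod 2)) :
    Matrix chevE7.Idx chevE7.Idx F :=
  fun a b => φ F (A (E b) (E a))

theorem Psi_mul (A B : Matrix (Fin 133) (Fin 133) (ZMod 2)) :
    Psi F (A * B) = Psi F B * Psi F A := by
  ext a b
  rw [Matrix.mul_apply]
  change φ F ((A * B) (E b) (E a)) = _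
  rw [Matrix.mul_apply, map_sum, ← Equiv.sum_comp E]
  refine Finset.sum_congr rfl (fun c _ => ?_)
  rw [map_mul, mul_comm]
  rfl

theorem Psi_one : Psi F (1 : Matrix (Fin 133) (Fin 133) (ZMod 2)) = 1 := by
  ext a b
  change φ F ((1 : Matrix (Fin 133) (Fin 133) (ZMod 2)) (E b) (E a)) = _
  rw [Matrix.one_apply, Matrix.one_apply]
  by_cases h : a = b
  · rw [if_pos h, if_pos (by rw [h]), map_one]
  · rw [if_neg h, if_neg (fun h2 => h (E.injective h2).symm), map_zero]

theorem Psi_pow (A : Matrix (Fin 133) (Fin 133) (ZMod 2)) (n : ℕ) :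
    Psi F (A ^ n) = Psi F A ^ n := by
  induction n with
  | zero => rw [pow_zero, pow_zero, Psi_one]
  | succ n ih => rw [pow_succ, Psi_mul, ih, pow_succ']

theorem trace_Psi (A : Matrix (Fin 133) (Fin 133) (ZMod 2)) :
    (Psi F A).trace = φ F A.trace := by
  rw [Matrix.trace, Matrix.trace, map_sum, ← Equiv.sum_comp E]
  rfl

theorem x_eq (r : Fin chevE7.nroots) : chevE7.xMat F r 1 = Psi F (toMat 133 133 (tr r.val)) := by
  ext row c
  rw [xMat_apply]
  change _ = φ F (bz ((tr r.val).testBit (133 * (E c : ℕ) + (E row : ℕ))))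
  rw [bz_tr r.val (E row).2 (E c).2, E_val, E_val, map_list_sum, List.map_map]
  congr 1
  refine List.map_congr_left (fun q _ => ?_)
  simp only [Function.comp, one_pow, mul_one]
  split_ifs
  · rw [map_intCast]
  · rw [map_zero]

theorem trace_toMat (A : ℕ) : (toMat 133 133 A).trace = bz (trN A 133) := by
  have h : ∀ k : ℕ, bz (trN A k) = ∑ i ∈ Finset.range k, bz (A.testBit (134 * i)) := by
    intro k
    induction k with
    | zero => simp [trN, bz]
    | succ k ih =>
      rw [Finset.sum_range_succ, ← ih, ← bz_xor]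
      rfl
  rw [h, Matrix.trace, Finset.sum_range]
  refine Finset.sum_congr rfl (fun i _ => ?_)
  change bz (A.testBit (133 * (i : ℕ) + (i : ℕ))) = _
  congr 2
  ring

theorem inList : InList chevE7 := by simp [InList]

/-- the root element as a matrix -/
theorem coe_x {r : ℕ} (hr : r < chevE7.nroots) {T : ℕ} (hT : tr r = T) :
    ((xG inList r (1 : F) : GL chevE7.Idx F) : Matrix chevE7.Idx chevE7.Idx F) =
      Psi F (toMat 133 133 T) := by
  rw [coe_xG, x_of_lt hr, x_eq, hT]

/-- the element -/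
noncomputable def x0 (F : Type*) [Field F] : GL chevE7.Idx F :=
  xG inList 73 1 * (xG inList 59 1 * (xG inList 52 1 * (xG inList 56 1 * (xG inList 69 1 *
    (xG inList 66 1 * (xG inList 61 1 * (xG inList 64 1 * (xG inList 63 1 *
      xG inList 62 1))))))))

theorem x0_mem : x0 F ∈ chevE7.group F := by
  unfold x0
  repeat' apply Subgroup.mul_mem
  all_goals exact xG_mem_group inList _ _

theorem toMat_eq {A B C : ℕ} (h : bmul 133 133 A B = C) :
    toMat 133 133 A * toMat 133 133 B = toMat 133 133 C := by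
  rw [← toMat_bmul 133 133 (by norm_num), h]

theorem coe_x0 : (x0 F : Matrix chevE7.Idx chevE7.Idx F) = Psi F (toMat 133 133 P9) := by
  unfold x0
  have hn : chevE7.nroots = 126 := rfl
  simp only [Units.val_mul]
  rw [coe_x (by rw [hn]; norm_num) tr_73, coe_x (by rw [hn]; norm_num) tr_59,
    coe_x (by rw [hn]; norm_num) tr_52, coe_x (by rw [hn]; norm_num) tr_56,
    coe_x (by rw [hn]; norm_num) tr_69, coe_x (by rw [hn]; norm_num) tr_66,
    coe_x (by rw [hn]; norm_num) tr_61, coe_x (by rw [hn]; norm_num) tr_64,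
    coe_x (by rw [hn]; norm_num) tr_63, coe_x (by rw [hn]; norm_num) tr_62]
  rw [← Psi_mul, toMat_eq mul_P1, ← Psi_mul, toMat_eq mul_P2, ← Psi_mul, toMat_eq mul_P3,
    ← Psi_mul, toMat_eq mul_P4, ← Psi_mul, toMat_eq mul_P5, ← Psi_mul, toMat_eq mul_P6,
    ← Psi_mul, toMat_eq mul_P7, ← Psi_mul, toMat_eq mul_P8, ← Psi_mul, toMat_eq mul_P9]

theorem pow_eq : toMat 133 133 P9 ^ 23 = toMat 133 133 Q23 := by
  have h : toMat 133 133 P9 ^ 23 =
      ((((toMat 133 133 P9 * toMat 133 133 P9) * (toMat 133 133 P9 * toMat 133 133 P9)) *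
        toMat 133 133 P9) * (((toMat 133 133 P9 * toMat 133 133 P9) *
        (toMat 133 133 P9 * toMat 133 133 P9)) * toMat 133 133 P9) * toMat 133 133 P9) *
      ((((toMat 133 133 P9 * toMat 133 133 P9) * (toMat 133 133 P9 * toMat 133 133 P9)) *
        toMat 133 133 P9) * (((toMat 133 133 P9 * toMat 133 133 P9) *
        (toMat 133 133 P9 * toMat 133 133 P9)) * toMat 133 133 P9) * toMat 133 133 P9) *
      toMat 133 133 P9 := by
    generalize toMat 133 133 P9 = M
    noncomm_ring
  rw [h, toMat_eq mul_Q2, toMat_eq mul_Q4, toMat_eq mul_Q5, toMat_eq mul_Q10, toMat_eq mul_Q11,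
    toMat_eq mul_Q22, toMat_eq mul_Q23]

theorem not_ratl_two {F : Type*} [Field F] [Fintype F] (hF : Fintype.card F = 2) :
    ¬ Ratl (chevE7.group F) := by
  intro h
  have hF2 : CharP F 2 := by
    obtain ⟨p, hp⟩ := CharP.exists F
    have hpp : Fact p.Prime := ⟨CharP.char_is_prime F p⟩
    obtain ⟨n, -, hn⟩ := FiniteField.card F p
    rw [hF] at hn
    have h1 : p ∣ 2 := hn ▸ dvd_pow_self p n.pos.ne'
    have h2 : p = 2 := ((Nat.prime_dvd_prime_iff_eq hpp.out Nat.prime_two).1 h1)
    rwa [h2] at hp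
  have hc := S1064.result (F := F) hF
  have hcop : Nat.Coprime 23 (Nat.card (chevE7.group F)) := by
    refine Nat.Coprime.coprime_dvd_right (Dvd.intro_left _ hc) ?_
    decide +kernel
  obtain ⟨g, hg⟩ := isConj_iff.1 (h.pow ⟨x0 F, x0_mem⟩ 23 hcop)
  have h1 : (g : GL chevE7.Idx F) * x0 F * (g : GL chevE7.Idx F)⁻¹ = x0 F ^ 23 :=
    congrArg Subtype.val hg
  have h2 := congrArg (fun u : GL chevE7.Idx F => (u : Matrix chevE7.Idx chevE7.Idx F).trace) h1
  simp only [Units.val_mul, Units.val_pow_eq_pow_val] at h2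
  rw [Matrix.trace_mul_comm, ← mul_assoc, ← Units.val_mul, inv_mul_cancel, Units.val_one, one_mul,
    coe_x0, ← Psi_pow, pow_eq, trace_Psi, trace_Psi, trace_toMat, trace_toMat, tr_x, tr_y] at h2
  have h3 : bz false = bz true := (φ F).injective h2
  exact absurd (bz_inj h3) (by decide)

end Cfsg.Agent.H689.ESeven

namespace Cfsg.Agent.H689

open Cfsg.Lie in
/-- `E₇(q)` -/
theorem not_ratl_e7 {F : Type*} [Field F] [Fintype F] : ¬ Ratl (chevE7.group F) :=
  fun h => ESeven.not_ratl_two (card_e7 h) h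

end Cfsg.Agent.H689
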