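import Mathlib
import Cfsg.Agent.H689.ExcTE
import Cfsg.Agent.StdG24.Iso6

/-!
# `G₂(4)`
-/

set_option autoImplicit false
set_option linter.unusedSectionVars false

open Cfsg Cfsg.Lie Matrix

namespace Cfsg.Agent.H689

universe u

theorem not_ratl_g2_four {F : Type u} [Field F] [Fintype F] (hF : Fintype.card F = 4) :
    ¬ Ratl (chevG2.group F) := by
  intro h
  obtain ⟨e⟩ := StdG24.Iso6.equiv_chev F hF
  have hfin : Finite StdG24.Mod6.L := Finite.of_equiv _ e.symm.toEquiv
  have h1 : ORat 1 StdG24.Mod6.L := (h.orat 1).of_equiv e.symm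
  refine not_orat_of_inj StdG24.Mod6.L.subtype Subtype.val_injective (r := 13) (by norm_num) ?_ ?_
    (by decide) (Nat.coprime_one_right _) h1
  · refine natCast_ne_zero_of_not_dvd_card (by norm_num) ?_
    decide
  · rw [Nat.card_congr e.toEquiv, S1059.result (F := F) hF]; decide +kernel

/-- `G₂(q)`, `q ≥ 3` -/
theorem not_ratl_g2 {F : Type u} [Field F] [Fintype F] (hF : 3 ≤ Fintype.card F) :
    ¬ Ratl (chevG2.group F) := by
  intro h
  rcases card_g2 h with h1 | h1 | h1
  · omega
  · exact not_ratl_g2_three h1 h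
  · exact not_ratl_g2_four h1 h

end Cfsg.Agent.H689
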