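import Mathlib
import Cfsg.Prelude.Def_Solvable
import Cfsg.Agent.H689.DD
import Cfsg.Agent.S0035
import Cfsg.Agent.S0039
import Cfsg.Agent.S0042
import Cfsg.Agent.S0146
import Cfsg.Agent.S0171
import Cfsg.Agent.Solvable.FpfCyclic

/-!
# Frobenius groups: a small kit

`Frob K H`: `K` is normal, `H` is a complement, both nontrivial, and nonidentity elements of `H`
commute with no nonidentity element of `K`.
-/

set_option autoImplicit false
set_option linter.unusedSectionVars false

open scoped ComplexConjugate Pointwise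
open Cfsg Cfsg.Agent.Characters Cfsg.Agent.H686.CharKit Subgroup

namespace Cfsg.Agent.H689

universe u

variable {G : Type u} [Group G]

/-- `G = K ⋊ H` is a Frobenius group with kernel `K` and complement `H`. -/
structure Frob (K H : Subgroup G) : Prop where
  normal : K.Normal
  compl : K.IsComplement' H
  neK : K ≠ ⊥
  neH : H ≠ ⊥
  fpf : ∀ h ∈ H, h ≠ 1 → ∀ k ∈ K, h * k = k * h → k = 1

variable {K H : Subgroup G}

theorem Frob.card_mul (F : Frob K H) : Nat.card K * Nat.card H = Nat.card G :=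
  F.compl.card_mul_card

variable [Finite G]

theorem Frob.isFC (F : Frob K H) : IsFrobeniusComplement H := by
  have := F.normal
  rw [S0039.result K H F.compl F.neK F.neH]
  intro h hh h1
  rw [eq_bot_iff]
  intro k hk
  rw [mem_inf, mem_centralizer_singleton_iff] at hk
  exact F.fpf h hh h1 k hk.1 hk.2.symm

theorem Frob.kernel (F : Frob K H) : frobeniusKernel H = (K : Set G) := by
  have := F.normal
  obtain ⟨N, hN, hNn, hNc⟩ := S0035.result H F.isFC
  have hle : K ≤ N := by
    intro k hk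
    rw [← SetLike.mem_coe, hN]
    by_cases h1 : k = 1
    · exact Or.inl h1
    · refine Or.inr fun g hg => h1 ?_
      rw [mem_pointwise_smul_iff_inv_smul_mem] at hg
      have h2 : (MulAut.conj g)⁻¹ • k ∈ K := by
        rw [← map_inv, MulAut.smul_def, MulAut.conj_apply]
        exact this.conj_mem k hk g⁻¹
      have h3 : (MulAut.conj g)⁻¹ • k ∈ (K ⊓ H : Subgroup G) := ⟨h2, hg⟩
      rw [F.compl.disjoint.eq_bot, mem_bot] at h3
      have h4 : (MulAut.conj g)⁻¹ • k = (MulAut.conj g)⁻¹ • (1 : G) := by rw [h3, smul_one]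
      exact smul_left_cancel _ h4
  have hcard : Nat.card K = Nat.card N := by
    have h1 := F.compl.card_mul_card
    have h2 := hNc.card_mul_card
    exact Nat.eq_of_mul_eq_mul_right Nat.card_pos (h1.trans h2.symm)
  rw [← hN, Subgroup.eq_of_le_of_card_ge hle hcard.ge]

theorem Frob.nilpotent (F : Frob K H) : Group.IsNilpotent K := by
  obtain ⟨N, hN, -, hNn⟩ := S0042.result H F.isFC
  rw [F.kernel] at hN
  have : N = K := SetLike.coe_injective hN
  rwa [this] at hNn

/-- Elements outside the kernel are conjugate into the complement. -/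
theorem Frob.exists_conj (F : Frob K H) {x : G} (hx : x ∉ K) : ∃ g : G, g⁻¹ * x * g ∈ H := by
  have h1 : x ∉ frobeniusKernel H := by rw [F.kernel]; exact hx
  have h2 : ¬ (x = 1 ∨ ∀ g : G, x ∉ MulAut.conj g • H) := h1
  push Not at h2
  obtain ⟨g, hg⟩ := h2.2
  refine ⟨g, ?_⟩
  rw [mem_pointwise_smul_iff_inv_smul_mem] at hg
  rw [← map_inv, MulAut.smul_def, MulAut.conj_apply, inv_inv] at hg
  exact hg

/-- The centralizer of a nonidentity element of the kernel is in the kernel. -/
theorem Frob.centralizer_le (F : Frob K H) {k : G} (hk : k ∈ K) (h1 : k ≠ 1) :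
    centralizer ({k} : Set G) ≤ K := by
  intro y hy
  by_contra hyK
  obtain ⟨g, hg⟩ := F.exists_conj hyK
  rw [mem_centralizer_singleton_iff] at hy
  have hy1 : g⁻¹ * y * g ≠ 1 := by
    intro h
    apply hyK
    have : y = 1 := by
      have := congrArg (fun z => g * z * g⁻¹) h
      simpa [mul_assoc] using this
    rw [this]; exact one_mem K
  have h2 := F.fpf _ hg hy1 (g⁻¹ * k * g) (by simpa using F.normal.conj_mem k hk g⁻¹) (by
    have : g⁻¹ * y * g * (g⁻¹ * k * g) = g⁻¹ * (y * k) * g := by group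
    rw [this, hy]; group)
  apply h1
  have := congrArg (fun z => g * z * g⁻¹) h2
  simpa [mul_assoc] using this

/-- Passing to a quotient by a normal subgroup properly contained in the kernel. -/
theorem Frob.quotient (F : Frob K H) (M : Subgroup G) [hM : M.Normal] (hMK : M < K) :
    Frob (K.map (QuotientGroup.mk' M)) (H.map (QuotientGroup.mk' M)) where
  normal := F.normal.map _ (QuotientGroup.mk'_surjective M)
  compl := by
    refine isComplement'_of_disjoint_and_mul_eq_univ ?_ ?_
    · rw [disjoint_def]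
      rintro _ ⟨k, hk, rfl⟩ ⟨h, hh, hkh⟩
      have h1 : k⁻¹ * h ∈ M := by
        rw [← QuotientGroup.eq]; exact hkh.symm
      have h2 : h ∈ K := by
        have := K.mul_mem hk (hMK.le h1)
        simpa using this
      have h3 : h ∈ (K ⊓ H : Subgroup G) := ⟨h2, hh⟩
      rw [F.compl.disjoint.eq_bot, mem_bot] at h3
      rw [← hkh, h3, map_one]
    · rw [Set.eq_univ_iff_forall]
      intro y
      obtain ⟨x, rfl⟩ := QuotientGroup.mk'_surjective M y
      obtain ⟨⟨⟨k, hk⟩, ⟨h, hh⟩⟩, hx, -⟩ := F.compl.existsUnique x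
      refine ⟨QuotientGroup.mk' M k, ⟨k, hk, rfl⟩, QuotientGroup.mk' M h, ⟨h, hh, rfl⟩, ?_⟩
      show QuotientGroup.mk' M k * QuotientGroup.mk' M h = QuotientGroup.mk' M x
      rw [← map_mul]
      exact congrArg _ hx
  neK := by
    intro h
    rw [Subgroup.map_eq_bot_iff, QuotientGroup.ker_mk'] at h
    exact hMK.not_ge h
  neH := by
    intro h
    rw [Subgroup.map_eq_bot_iff, QuotientGroup.ker_mk'] at h
    apply F.neH
    rw [eq_bot_iff]
    intro x hx
    have h3 : x ∈ (K ⊓ H : Subgroup G) := ⟨hMK.le (h hx), hx⟩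
    rwa [F.compl.disjoint.eq_bot] at h3
  fpf := by
    rintro _ ⟨h, hh, rfl⟩ hne _ ⟨k, hk, rfl⟩ hcomm
    have h1 : h ≠ 1 := by rintro rfl; exact hne (map_one _)
    -- `m ↦ m⁻¹ * (h * m * h⁻¹)` is injective, hence surjective on `M`
    let f : M → M := fun m => ⟨(m : G)⁻¹ * (h * m * h⁻¹),
      M.mul_mem (M.inv_mem m.2) (hM.conj_mem m m.2 h)⟩
    have key : ∀ a b : G, a ∈ K → b ∈ K → a⁻¹ * (h * a * h⁻¹) = b⁻¹ * (h * b * h⁻¹) → a = b := by
      intro a b ha hb hab
      have h2 : h * (b * a⁻¹) = b * a⁻¹ * h := by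
        have h3 : h * a * h⁻¹ = a * (b⁻¹ * (h * b * h⁻¹)) := by rw [← hab]; group
        have h4 : h * a * h⁻¹ * h * b⁻¹ = a * b⁻¹ * h := by rw [h3]; group
        have h5 : h * (a * b⁻¹) = a * b⁻¹ * h := by rw [← h4]; group
        have h6 : (a * b⁻¹)⁻¹ * (h * (a * b⁻¹)) * (a * b⁻¹)⁻¹ =
          (a * b⁻¹)⁻¹ * (a * b⁻¹ * h) * (a * b⁻¹)⁻¹ := by rw [h5]
        have h7 : (a * b⁻¹)⁻¹ * h = h * (a * b⁻¹)⁻¹ := by
          calc (a * b⁻¹)⁻¹ * h = (a * b⁻¹)⁻¹ * (h * (a * b⁻¹)) * (a * b⁻¹)⁻¹ := by group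
            _ = (a * b⁻¹)⁻¹ * (a * b⁻¹ * h) * (a * b⁻¹)⁻¹ := h6
            _ = h * (a * b⁻¹)⁻¹ := by group
        have h8 : (a * b⁻¹)⁻¹ = b * a⁻¹ := by group
        rw [← h8]; exact h7.symm
      have h3 := F.fpf h hh h1 (b * a⁻¹) (K.mul_mem hb (K.inv_mem ha)) h2
      exact (mul_inv_eq_one.1 h3).symm
    have hinj : Function.Injective f := by
      intro a b hab
      exact Subtype.ext (key a b (hMK.le a.2) (hMK.le b.2) (congrArg Subtype.val hab))
    have hsurj := Finite.surjective_of_injective hinj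
    have h2 : k⁻¹ * (h * k * h⁻¹) ∈ M := by
      rw [← QuotientGroup.ker_mk' M, MonoidHom.mem_ker]
      simp only [map_mul, map_inv]
      rw [hcomm]
      group
    obtain ⟨m, hm⟩ := hsurj ⟨_, h2⟩
    have h3 : (m : G) = k := key m k (hMK.le m.2) hk (congrArg Subtype.val hm)
    rw [← h3]
    exact (QuotientGroup.eq_one_iff (m : G)).2 m.2

/-- An irreducible character of `G` not containing `K` in its kernel is induced from `K`. -/
theorem Frob.exists_ind [Fintype G] (F : Frob K H) (χ : IrrCharacter G) (hχ : ¬ K ≤ chKer χ) :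
    ∃ τ : IrrCharacter K, indFun K (τ : K → ℂ) = (χ : G → ℂ) ∧
      (χ : G → ℂ) 1 = Nat.card H * (τ : K → ℂ) 1 := by
  classical
  have := F.normal
  have : Fintype K := Fintype.ofFinite K
  have := Core.finite_irr (G := K)
  have := Fintype.ofFinite (IrrCharacter K)
  have hres : IsCharacter K (fun k : K => (χ : G → ℂ) k) :=
    Core.isCharacter_comp K.subtype (Core.isIrr_isCharacter χ.2)
  obtain ⟨m, hm⟩ := Core.exists_nat_comb hres
  have hex : ∃ τ : IrrCharacter K, (τ : K → ℂ) ≠ 1 ∧ m τ ≠ 0 := by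
    by_contra hcon
    push Not at hcon
    apply hχ
    intro k hk
    rw [mem_chKer]
    have h1 : ∀ x : K, (χ : G → ℂ) x = ∑ ψ : IrrCharacter K, (m ψ : ℂ) := by
      intro x
      have h0 : (χ : G → ℂ) x = (∑ ψ : IrrCharacter K, m ψ • (ψ : K → ℂ)) x := congrFun hm x
      rw [h0, Finset.sum_apply]
      refine Finset.sum_congr rfl fun ψ _ => ?_
      by_cases hψ : (ψ : K → ℂ) = 1
      · rw [Pi.smul_apply, hψ]; simp
      · rw [hcon ψ hψ]; simp
    have h2 := h1 ⟨k, hk⟩
    have h3 := h1 1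
    rw [← h3] at h2
    exact h2
  obtain ⟨τ, hτ1, hτm⟩ := hex
  have hind : IsIrrCharacter G (indFun K (τ : K → ℂ)) :=
    S0171.result K H F.compl.disjoint.eq_bot F.compl.sup_eq_top F.fpf τ τ.2 hτ1
  have hinner : classInner (indFun K (τ : K → ℂ)) (χ : G → ℂ) ≠ 0 := by
    rw [S0146.result K _ _ (Core.isIrr_isClassFunction χ.2)]
    have h1 : classInner (fun k : K => (χ : G → ℂ) k) (τ : K → ℂ) = m τ := by
      rw [hm, Core.classInner_sum_nsmul_irr]
    rw [← Core.classInner_conj_symm, h1]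
    simpa using hτm
  have heq : indFun K (τ : K → ℂ) = (χ : G → ℂ) := by
    by_contra hne
    exact hinner (Core.classInner_irr_ne hind χ.2 hne)
  refine ⟨τ, heq, ?_⟩
  rw [← heq, Core.indFun_apply]
  have h1 : ∀ x : G, extendByZero K (τ : K → ℂ) (x⁻¹ * 1 * x) = (τ : K → ℂ) 1 := by
    intro x
    have : x⁻¹ * 1 * x = 1 := by group
    rw [this, Core.extendByZero_of_mem K _ (one_mem K)]
    rfl
  simp_rw [h1]
  rw [Finset.sum_const, Finset.card_univ, ← Nat.card_eq_fintype_card, nsmul_eq_mul,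
    ← F.compl.card_mul_card]
  have : (Nat.card K : ℂ) ≠ 0 := Nat.cast_ne_zero.2 Nat.card_pos.ne'
  push_cast
  field_simp

/-- The sum of the squares of the degrees of the irreducible characters of `G` not containing
`N` in the kernel. -/
theorem sum_not_ker [Fintype (IrrCharacter G)] (N : Subgroup G) [N.Normal]
    [DecidablePred fun χ : IrrCharacter G => N ≤ chKer χ] :
    ∑ χ ∈ Finset.univ.filter (fun χ : IrrCharacter G => ¬ N ≤ chKer χ),
      charDegree (χ : G → ℂ) ^ 2 + N.index = Nat.card G := by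
  classical
  have := Core.finite_irr (G := G ⧸ N)
  have := Fintype.ofFinite (IrrCharacter (G ⧸ N))
  rw [← sum_deg_sq (G := G), ← Finset.sum_filter_add_sum_filter_not Finset.univ
    (fun χ : IrrCharacter G => N ≤ chKer χ), add_comm]
  congr 1
  have h1 : N.index = Nat.card (G ⧸ N) := rfl
  rw [h1, ← sum_deg_sq (G := G ⧸ N), Finset.sum_filter]
  rw [← Finset.sum_filter, Finset.sum_subtype (p := fun χ : IrrCharacter G => N ≤ chKer χ)
    (Finset.univ.filter fun χ : IrrCharacter G => N ≤ chKer χ) (by simp)]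
  rw [← Equiv.sum_comp (inflEquiv N)]
  exact Finset.sum_congr rfl fun ψ _ => rfl

end Cfsg.Agent.H689
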