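import Mathlib
import Cfsg.Agent.H689.DD
import Cfsg.Agent.H446.ExtraAct
import Cfsg.Agent.Transfer.TateComplement
import Cfsg.Agent.Transfer.TausskyTwoGroup
import Cfsg.Agent.H669.Basic

/-!
# Groups with distinct nonlinear degrees: Sylow subgroups

* `DD.inf_commutator`: for a prime `p` dividing `|G : G'|`, `P ⊓ G' = P'`;
* `DD.exists_complement`: such a group has a normal `p`-complement (Tate);
* `DD.pGroup`: a `p`-group with the property is commutative or an extraspecial 2-group.
-/

set_option autoImplicit false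

open scoped ComplexConjugate commutatorElement
open Cfsg Cfsg.Agent.Characters Cfsg.Agent.H686.CharKit Subgroup

namespace Cfsg.Agent.H689

universe u

variable {G : Type u} [Group G]

/-- The index of the derived subgroup is at most the order of a centralizer. -/
theorem index_commutator_le {P : Type u} [Group P] [Finite P] (x : P) :
    (commutator P).index ≤ Nat.card (centralizer ({x} : Set P)) := by
  -- the conjugates of `x` lie in `x P'`
  have h1 : (centralizer ({x} : Set P)).index ≤ Nat.card (commutator P) := by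
    have hinj : Function.Injective (fun q : P ⧸ centralizer ({x} : Set P) =>
        (⟨⁅q.out, x⁆, commutator_mem_commutator (mem_top _) (mem_top _)⟩ : commutator P)) := by
      intro a b hab
      have h2 : ⁅a.out, x⁆ = ⁅b.out, x⁆ := congrArg Subtype.val hab
      have h3 : a.out * x * a.out⁻¹ = b.out * x * b.out⁻¹ := by
        have := congrArg (· * x) h2
        simpa [commutatorElement_def] using this
      rw [← a.out_eq, ← b.out_eq, QuotientGroup.eq, mem_centralizer_singleton_iff]
      have h4 : a.out⁻¹ * b.out * x = x * (a.out⁻¹ * b.out) := by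
        have : b.out * x = a.out * x * a.out⁻¹ * b.out := by rw [h3]; group
        rw [mul_assoc, this]; group
      exact h4
    have := Nat.card_le_card_of_injective _ hinj
    rwa [← Subgroup.index_eq_card] at this
  have h2 := (centralizer ({x} : Set P)).card_mul_index
  have h3 := (commutator P).card_mul_index
  have h4 : 0 < Nat.card (commutator P) := Nat.card_pos
  by_contra hlt
  push Not at hlt
  have : Nat.card (centralizer ({x} : Set P)) * (centralizer ({x} : Set P)).index <
      (commutator P).index * Nat.card (commutator P) :=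
    Nat.mul_lt_mul_of_lt_of_le hlt h1 (Nat.pos_of_ne_zero (by positivity))
  rw [h2, mul_comm, h3] at this
  exact lt_irrefl _ this

variable [Finite G]

/-- For a prime `p` dividing `|G : G'|`, `P ⊓ G' = P'` (`P` a Sylow `p`-subgroup). -/
theorem DD.inf_commutator (h : DD G) {p : ℕ} [hp : Fact p.Prime] (hd : p ∣ (commutator G).index)
    (P : Sylow p G) :
    (commutator P).map (P : Subgroup G).subtype = (P : Subgroup G) ⊓ commutator G := by
  have hle : (commutator P).map (P : Subgroup G).subtype ≤ (P : Subgroup G) ⊓ commutator G := by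
    refine le_inf (map_subtype_le _) ?_
    rw [commutator_def, map_commutator]
    exact commutator_mono le_top le_top
  -- an element of `P` outside `G'`
  have hnot : ¬ (P : Subgroup G) ≤ commutator G := by
    intro hc
    have h1 := Subgroup.index_dvd_of_le hc
    exact P.not_dvd_index (hd.trans h1)
  obtain ⟨g, hgP, hg⟩ := SetLike.not_le_iff_exists.1 hnot
  have h1 := h.card_centralizer hg
  -- the centralizer in `P`
  let x : P := ⟨g, hgP⟩
  have h2 : (commutator P).index ≤ Nat.card (centralizer ({x} : Set P)) := index_commutator_le x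
  have hmap : (centralizer ({x} : Set P)).map (P : Subgroup G).subtype ≤
      centralizer ({g} : Set G) := by
    rintro _ ⟨y, hy, rfl⟩
    rw [SetLike.mem_coe, mem_centralizer_singleton_iff] at hy
    rw [mem_centralizer_singleton_iff]
    exact congrArg Subtype.val hy
  have h3 : Nat.card (centralizer ({x} : Set P)) ∣ (commutator G).index := by
    rw [← h1, Nat.card_congr ((centralizer ({x} : Set P)).equivMapOfInjective _
      (P : Subgroup G).subtype_injective).toEquiv]
    exact card_dvd_of_le hmap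
  -- it is a power of `p`
  obtain ⟨k, hk⟩ : ∃ k, Nat.card (centralizer ({x} : Set P)) = p ^ k :=
    (IsPGroup.iff_card.1 (P.isPGroup'.to_subgroup _))
  obtain ⟨n, hn⟩ : ∃ n, Nat.card P = p ^ n := IsPGroup.iff_card.1 P.isPGroup'
  obtain ⟨m, hm⟩ : ∃ m, Nat.card ((P : Subgroup G) ⊓ commutator G : Subgroup G) = p ^ m :=
    IsPGroup.iff_card.1 (P.isPGroup'.to_le inf_le_left)
  obtain ⟨l, hl⟩ : ∃ l, Nat.card (commutator P) = p ^ l :=
    (IsPGroup.iff_card.1 (P.isPGroup'.to_subgroup _))
  have hcard : Nat.card ((commutator P).map (P : Subgroup G).subtype) = p ^ l := by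
    rw [← hl]
    exact (Nat.card_congr ((commutator P).equivMapOfInjective _
      (P : Subgroup G).subtype_injective).toEquiv).symm
  refine Subgroup.eq_of_le_of_card_ge hle ?_
  rw [hcard, hm]
  -- `k + m ≤ n`
  have h4 : p ^ (k + m) ∣ Nat.card G := by
    rw [← (commutator G).card_mul_index, pow_add, mul_comm (p ^ k)]
    refine mul_dvd_mul ?_ (hk ▸ h3)
    rw [← hm]
    exact card_dvd_of_le inf_le_right
  have h5 : k + m ≤ n := by
    have h6 : p ^ (k + m) ∣ Nat.card P := by
      rw [P.card_eq_multiplicity]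
      exact pow_dvd_pow p ((hp.out.pow_dvd_iff_le_factorization Nat.card_pos.ne').1 h4)
    rw [hn] at h6
    exact (Nat.pow_dvd_pow_iff_le_right hp.out.one_lt).1 h6
  have h6 : (commutator P).index * p ^ l = p ^ n := by
    rw [← hl, ← hn, mul_comm]; exact (commutator P).card_mul_index
  rw [hk] at h2
  have h7 : p ^ n ≤ p ^ (k + l) := by
    rw [← h6, pow_add]; exact Nat.mul_le_mul_right _ h2
  have h8 : n ≤ k + l := (Nat.pow_le_pow_iff_right hp.out.one_lt).1 h7
  exact Nat.pow_le_pow_right hp.out.pos (by omega)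

/-- A group with the property has a normal `p`-complement for every prime `p` dividing
`|G : G'|`. -/
theorem DD.exists_complement (h : DD G) {p : ℕ} [hp : Fact p.Prime]
    (hd : p ∣ (commutator G).index) (P : Sylow p G) :
    ∃ K : Subgroup G, K.Normal ∧ K.IsComplement' (P : Subgroup G) := by
  classical
  set k : ℕ := ordCompl[p] (commutator G).index with hk
  have hcop : p.Coprime k := Nat.coprime_ordCompl hp.out (index_ne_zero_of_finite)
  let f : G →* Abelianization G := (powMonoidHom k).comp Abelianization.of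
  have hf : ∀ g, f g = Abelianization.of g ^ k := fun g => rfl
  have hcard : Nat.card (Abelianization G) = (commutator G).index := rfl
  -- the range of `f` is a `p`-group
  have hrange : IsPGroup p f.range := by
    intro y
    obtain ⟨y, g, rfl⟩ := y
    refine ⟨(commutator G).index.factorization p, ?_⟩
    apply Subtype.ext
    show (f g) ^ _ = 1
    rw [hf, ← pow_mul, mul_comm, hk, Nat.ordProj_mul_ordCompl_eq_self, ← hcard]
    exact pow_card_eq_one'
  have hMP : f.ker ⊔ (P : Subgroup G) = ⊤ := by
    obtain ⟨j, hj⟩ := IsPGroup.iff_card.1 hrange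
    have h1 : (f.ker ⊔ (P : Subgroup G)).index ∣ p ^ j := by
      rw [← hj, ← index_ker]
      exact index_dvd_of_le le_sup_left
    obtain ⟨i, -, hi⟩ := (Nat.dvd_prime_pow hp.out).1 h1
    have h2 : (f.ker ⊔ (P : Subgroup G)).index ∣ (P : Subgroup G).index :=
      index_dvd_of_le le_sup_right
    rw [← index_eq_one, hi]
    rcases Nat.eq_zero_or_pos i with h0 | h0
    · rw [h0, pow_zero]
    · exact absurd ((dvd_pow_self p h0.ne').trans (hi ▸ h2)) P.not_dvd_index
  have hδ : ∀ (δ : P →* Multiplicative (ZMod p)) (x : P), (x : G) ∈ f.ker → δ x = 1 := by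
    intro δ x hx
    have h1 : (x : G) ∈ commutator G := by
      rw [← Abelianization.ker_of, MonoidHom.mem_ker]
      have h2 : Abelianization.of (x : G) ^ k = 1 := hx
      obtain ⟨n, hn⟩ := P.isPGroup' x
      have h3 : Abelianization.of (x : G) ^ p ^ n = 1 := by
        rw [← map_pow]
        have : (x : G) ^ p ^ n = 1 := by exact_mod_cast congrArg Subtype.val hn
        rw [this, map_one]
      have h4 := Nat.Coprime.pow_left n hcop
      have h5 := Nat.dvd_gcd (orderOf_dvd_of_pow_eq_one h3) (orderOf_dvd_of_pow_eq_one h2)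
      rw [Nat.Coprime.gcd_eq_one h4] at h5
      exact orderOf_eq_one_iff.1 (Nat.dvd_one.1 h5)
    have h2 : (x : G) ∈ (commutator P).map (P : Subgroup G).subtype := by
      rw [h.inf_commutator hd P]
      exact ⟨x.2, h1⟩
    obtain ⟨y, hy, hyx⟩ := h2
    have h3 : y = x := Subtype.ext hyx
    rw [h3] at hy
    have : commutator P ≤ δ.ker := by
      rw [commutator_def, Subgroup.commutator_le]
      intro a _ b _
      rw [MonoidHom.mem_ker, map_commutatorElement]
      exact commutatorElement_eq_one_iff_mul_comm.2 (mul_comm _ _)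
    exact this hy
  obtain ⟨K, hKn, -, hK⟩ := Transfer.TateComplement.exists_normal_complement P f.ker hMP hδ
  exact ⟨K, hKn, hK⟩

/-- The sum of the squares of the degrees of the nonlinear irreducible characters. -/
theorem sum_nonlinear [Fintype (IrrCharacter G)] :
    ∑ χ ∈ Finset.univ.filter (fun χ : IrrCharacter G => charDegree (χ : G → ℂ) ≠ 1),
      charDegree (χ : G → ℂ) ^ 2 + (commutator G).index = Nat.card G := by
  classical
  rw [← sum_deg_sq (G := G), ← Finset.sum_filter_add_sum_filter_not Finset.univ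
    (fun χ : IrrCharacter G => charDegree (χ : G → ℂ) ≠ 1)]
  congr 1
  rw [← Linear.card_hom_eq_index_commutator G, Nat.card_congr (Linear.linearEquiv G),
    Nat.card_eq_fintype_card, Fintype.card_subtype, Finset.card_eq_sum_ones]
  have : (Finset.univ.filter fun χ : IrrCharacter G => ¬ charDegree (χ : G → ℂ) ≠ 1) =
      Finset.univ.filter fun χ : IrrCharacter G => (χ : G → ℂ) 1 = 1 := by
    ext χ
    simp only [Finset.mem_filter, Finset.mem_univ, true_and, not_not]
    exact charDegree_eq_one_iff χ
  rw [this]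
  refine Finset.sum_congr rfl fun χ hχ => ?_
  rw [(charDegree_eq_one_iff χ).2 (Finset.mem_filter.1 hχ).2, one_pow]

/-- A number-theoretic lemma: powers `p ^ (2 a)` with distinct `a`, summing to `p ^ n - p ^ m`. -/
theorem arith {ι : Type*} [DecidableEq ι] (s : Finset ι) (hs : s.Nonempty) (a : ι → ℕ)
    (ha : Set.InjOn a s) {p n m : ℕ} (hp : p.Prime)
    (h : ∑ i ∈ s, (p ^ a i) ^ 2 + p ^ m = p ^ n) :
    p = 2 ∧ n = m + 1 ∧ s.card = 1 ∧ ∀ i ∈ s, 2 * a i = m := by
  obtain ⟨i₀, hi₀, hmin⟩ := s.exists_min_image a hs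
  have h1 : ∃ t, ∑ i ∈ s, (p ^ a i) ^ 2 = p ^ (2 * a i₀) + p ^ (2 * a i₀ + 2) * t ∧
      (t = 0 → s.card = 1) := by
    have h2 : p ^ (2 * a i₀ + 2) ∣ ∑ i ∈ s.erase i₀, (p ^ a i) ^ 2 := by
      refine Finset.dvd_sum fun i hi => ?_
      rw [Finset.mem_erase] at hi
      rw [← pow_mul]
      refine pow_dvd_pow p ?_
      have := hmin i hi.2
      have h3 : a i ≠ a i₀ := fun h3 => hi.1 (ha hi.2 hi₀ h3)
      omega
    obtain ⟨t, ht⟩ := h2
    refine ⟨t, ?_, ?_⟩
    · rw [← Finset.add_sum_erase s _ hi₀, ht, ← pow_mul, mul_comm (a i₀)]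
    · intro h0
      rw [h0, mul_zero] at ht
      rw [Finset.card_eq_one]
      refine ⟨i₀, Finset.eq_singleton_iff_unique_mem.2 ⟨hi₀, fun i hi => ?_⟩⟩
      by_contra hne
      have h3 := Finset.sum_eq_zero_iff.1 ht i (Finset.mem_erase.2 ⟨hne, hi⟩)
      exact absurd h3 (pow_ne_zero _ (pow_ne_zero _ hp.ne_zero))
  obtain ⟨t, ht, ht0⟩ := h1
  rw [ht] at h
  have hp0 := hp.pos
  have hlt : p ^ m < p ^ n := by
    have : 0 < p ^ (2 * a i₀) := pow_pos hp0 _
    omega
  have hlt2 : p ^ (2 * a i₀) < p ^ n := by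
    have : 0 < p ^ m := pow_pos hp0 _
    omega
  have hmn : m < n := (Nat.pow_lt_pow_iff_right hp.one_lt).1 hlt
  have han : 2 * a i₀ < n := (Nat.pow_lt_pow_iff_right hp.one_lt).1 hlt2
  have hm : m = 2 * a i₀ := by
    rcases lt_trichotomy m (2 * a i₀) with hc | hc | hc
    · exfalso
      have h3 : p ^ (m + 1) ∣ p ^ m := by
        have h4 : p ^ (m + 1) ∣ p ^ (2 * a i₀) + p ^ (2 * a i₀ + 2) * t + p ^ m := by
          rw [h]; exact pow_dvd_pow p (by omega)
        refine (Nat.dvd_add_right ?_).1 h4
        exact dvd_add (pow_dvd_pow p (by omega)) ((pow_dvd_pow p (by omega)).mul_right t)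
      exact absurd ((Nat.pow_dvd_pow_iff_le_right hp.one_lt).1 h3) (by omega)
    · exact hc
    · exfalso
      have h3 : p ^ (2 * a i₀ + 1) ∣ p ^ (2 * a i₀) := by
        have h4 : p ^ (2 * a i₀ + 1) ∣ (p ^ (2 * a i₀ + 2) * t + p ^ m) + p ^ (2 * a i₀) := by
          have : (p ^ (2 * a i₀ + 2) * t + p ^ m) + p ^ (2 * a i₀) = p ^ n := by omega
          rw [this]; exact pow_dvd_pow p (by omega)
        refine (Nat.dvd_add_right ?_).1 h4
        exact dvd_add ((pow_dvd_pow p (by omega)).mul_right t) (pow_dvd_pow p (by omega))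
      exact absurd ((Nat.pow_dvd_pow_iff_le_right hp.one_lt).1 h3) (by omega)
  obtain ⟨d, hd⟩ : ∃ d, n = m + (d + 1) := ⟨n - m - 1, by omega⟩
  have h3 : 2 + p ^ 2 * t = p ^ (d + 1) := by
    have h4 : p ^ m * (2 + p ^ 2 * t) = p ^ m * p ^ (d + 1) := by
      rw [← pow_add p m (d + 1), ← hd, ← h, ← hm]
      ring
    exact Nat.eq_of_mul_eq_mul_left (pow_pos hp0 _) h4
  have h4 : d = 0 := by
    by_contra hne
    obtain ⟨e, he⟩ : ∃ e, d = e + 1 := ⟨d - 1, by omega⟩
    have h5 : p ^ 2 ∣ 2 := by
      have : p ^ 2 ∣ p ^ 2 * t + 2 := by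
        rw [add_comm, h3, he]
        exact pow_dvd_pow p (by omega)
      exact (Nat.dvd_add_right (Dvd.intro t rfl)).1 this
    have h6 := Nat.le_of_dvd (by norm_num) h5
    have h7 := hp.two_le
    nlinarith
  rw [h4, zero_add, pow_one] at h3
  have h5 : t = 0 := by
    by_contra hne
    have h6 : 1 ≤ t := Nat.one_le_iff_ne_zero.2 hne
    have h7 := hp.two_le
    nlinarith [Nat.mul_le_mul_left (p ^ 2) h6]
  have h6 : s.card = 1 := ht0 h5
  refine ⟨by rw [h5] at h3; omega, by omega, h6, ?_⟩
  obtain ⟨j, hj⟩ := Finset.card_eq_one.1 h6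
  intro i hi
  rw [hj, Finset.mem_singleton] at hi hi₀
  rw [hi, ← hi₀, ← hm]

/-- A `p`-group with the property is commutative or an extraspecial 2-group. -/
theorem DD.pGroup (h : DD G) {p : ℕ} [hp : Fact p.Prime] (hG : IsPGroup p G) :
    (∀ a b : G, a * b = b * a) ∨ (p = 2 ∧ IsExtraspecial 2 G) := by
  classical
  have := Fintype.ofFinite G
  have := Core.finite_irr (G := G)
  have := Fintype.ofFinite (IrrCharacter G)
  by_cases hab : ∀ a b : G, a * b = b * a
  · exact Or.inl hab
  right
  obtain ⟨n, hn⟩ := IsPGroup.iff_card.1 hG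
  obtain ⟨l, hl⟩ : ∃ l, Nat.card (commutator G) = p ^ l := IsPGroup.iff_card.1 (hG.to_subgroup _)
  have hmul := (commutator G).card_mul_index
  obtain ⟨m, -, hm⟩ : ∃ m ≤ n, (commutator G).index = p ^ m := by
    refine (Nat.dvd_prime_pow hp.out).1 ?_
    rw [← hn, ← hmul]; exact Dvd.intro_left _ rfl
  set S := Finset.univ.filter (fun χ : IrrCharacter G => charDegree (χ : G → ℂ) ≠ 1) with hS
  have hsum := sum_nonlinear (G := G)
  rw [← hS, hm, hn] at hsum
  -- degrees are powers of `p`
  have hdeg : ∀ χ : IrrCharacter G, ∃ a, charDegree (χ : G → ℂ) = p ^ a := by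
    intro χ
    have h1 : charDegree (χ : G → ℂ) ∣ Nat.card G :=
      H669.Basic.charDegree_dvd_card χ.2
    rw [hn] at h1
    obtain ⟨a, -, ha⟩ := (Nat.dvd_prime_pow hp.out).1 h1
    exact ⟨a, ha⟩
  choose a ha using hdeg
  have hinj : Set.InjOn a (S : Set (IrrCharacter G)) := by
    intro χ hχ ψ hψ hab
    by_contra hne
    have h1 : charDegree (χ : G → ℂ) ≠ 1 := (Finset.mem_filter.1 hχ).2
    exact h χ ψ hne h1 (by rw [ha, ha, hab])
  have hne : S.Nonempty := by
    by_contra hcon
    rw [Finset.not_nonempty_iff_eq_empty] at hcon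
    rw [hcon, Finset.sum_empty, zero_add] at hsum
    have h1 : Nat.card (commutator G) = 1 := by
      rw [hm, hn, hsum] at hmul
      exact Nat.eq_of_mul_eq_mul_right (pow_pos hp.out.pos n) (by rw [hmul, one_mul])
    rw [Subgroup.card_eq_one] at h1
    apply hab
    intro x y
    have h2 : ⁅x, y⁆ ∈ commutator G := commutator_mem_commutator (mem_top _) (mem_top _)
    rw [h1, mem_bot] at h2
    exact commutatorElement_eq_one_iff_mul_comm.1 h2
  have hsum' : ∑ χ ∈ S, (p ^ a χ) ^ 2 + p ^ m = p ^ n := by
    rw [← hsum]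
    congr 1
    exact Finset.sum_congr rfl fun χ _ => by rw [ha]
  obtain ⟨hp2, hnm, hcard, hall⟩ := arith S hne a hinj hp.out hsum'
  obtain ⟨χ, hχ⟩ := Finset.card_eq_one.1 hcard
  have hχS : χ ∈ S := by rw [hχ]; exact Finset.mem_singleton_self χ
  have hχ1 : (χ : G → ℂ) 1 ≠ 1 := by
    rw [Ne, ← charDegree_eq_one_iff]
    exact (Finset.mem_filter.1 hχS).2
  have hcom : Nat.card (commutator G) = p := by
    rw [hm, hn, hnm, pow_succ, mul_comm] at hmul
    exact Nat.eq_of_mul_eq_mul_left (pow_pos hp.out.pos m) hmul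
  -- the derived subgroup is central
  have hcz : commutator G ≤ center G := by
    have h1 : commutator G ≠ ⊥ := by
      intro h0
      rw [h0, card_bot] at hcom
      exact hp.out.one_lt.ne hcom
    obtain ⟨Z, hZ1, hZ2, hZ3⟩ := Transfer.TausskyTwoGroup.exists_central_card_prime_le hG _ h1
    have h5 : Z = commutator G := Subgroup.eq_of_le_of_card_ge hZ1 (by rw [hcom, hZ3])
    rw [← h5]; exact hZ2
  have hzc : center G ≤ commutator G := by
    intro z hz
    by_contra hcon
    have h1 := h.card_centralizer hcon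
    have h2 : centralizer ({z} : Set G) = ⊤ := by
      rw [eq_top_iff]
      intro x _
      rw [mem_centralizer_singleton_iff]
      exact mem_center_iff.1 hz x
    rw [h2, card_top, hn, hm, hnm] at h1
    have := Nat.pow_right_injective hp.out.two_le h1
    omega
  have heq : commutator G = center G := le_antisymm hcz hzc
  subst hp2
  refine ⟨rfl, H446.ExtraAct.isExtraspecial_of hG heq ?_ ?_⟩
  · intro y
    rw [mem_center_iff]
    intro x
    have h1 : ⁅x, y⁆ ∈ commutator G := commutator_mem_commutator (mem_top _) (mem_top _)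
    have h2 : ⁅x, y⁆ * ⁅x, y⁆ = 1 := by
      have := pow_card_eq_one' (x := (⟨⁅x, y⁆, h1⟩ : commutator G))
      rw [hcom] at this
      have h3 := congrArg Subtype.val this
      rw [← pow_two]
      exact h3
    have h3 := mem_center_iff.1 (hcz h1)
    have h4 : x * y * x⁻¹ = ⁅x, y⁆ * y := by rw [commutatorElement_def]; group
    have h5 : x * (y * y) * x⁻¹ = y * y := by
      calc x * (y * y) * x⁻¹ = (x * y * x⁻¹) * (x * y * x⁻¹) := by group
        _ = ⁅x, y⁆ * (y * ⁅x, y⁆) * y := by rw [h4]; group
        _ = (⁅x, y⁆ * ⁅x, y⁆) * (y * y) := by rw [h3 y]; group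
        _ = y * y := by rw [h2, one_mul]
    rw [pow_two]
    exact mul_inv_eq_iff_eq_mul.1 h5
  · rw [← heq, hcom]

end Cfsg.Agent.H689
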