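import Mathlib
import Cfsg.Agent.H689.Frob
import Cfsg.Agent.H689.PPart
import Cfsg.Agent.H678.Codeg

/-!
# Frobenius groups with distinct nonlinear degrees

* `Frob.abelian_kernel`: commutative kernel: `|K| = |H| + 1`, `K` is elementary abelian;
* `Frob.kernel_comm`: the kernel is commutative.
-/

set_option autoImplicit false
set_option linter.unusedSectionVars false

open scoped ComplexConjugate Pointwise commutatorElement
open Cfsg Cfsg.Agent.Characters Cfsg.Agent.H686.CharKit Subgroup

namespace Cfsg.Agent.H689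

universe u

variable {G : Type u} [Group G] {K H : Subgroup G} [Finite G]

theorem Frob.one_lt_card (F : Frob K H) : 1 < Nat.card H := by
  have h1 := F.neH
  rcases Nat.lt_or_ge 1 (Nat.card H) with h | h
  · exact h
  · have : Nat.card H = 1 := le_antisymm h Nat.card_pos
    exact absurd ((Subgroup.card_eq_one).1 this) h1

theorem Frob.index_kernel (F : Frob K H) : K.index = Nat.card H := by
  have h1 := F.card_mul
  rw [← K.card_mul_index] at h1
  exact (Nat.eq_of_mul_eq_mul_left Nat.card_pos h1).symm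

theorem Frob.not_comm_iff (F : Frob K H) {k : G} (hk : k ∈ K) (h1 : k ≠ 1) {h : G} (hh : h ∈ H)
    (hc : h * k = k * h) : h = 1 := by
  by_contra hne
  exact h1 (F.fpf h hh hne k hk hc)

/-- If the kernel is commutative, `|K| = |H| + 1`. -/
theorem Frob.card_eq (F : Frob K H) (h : DD G) (hK : ∀ a ∈ K, ∀ b ∈ K, a * b = b * a) :
    Nat.card K = Nat.card H + 1 := by
  classical
  have := Fintype.ofFinite G
  have := Core.finite_irr (G := G)
  have := Fintype.ofFinite (IrrCharacter G)
  have := F.normal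
  have hsum := sum_not_ker (G := G) K
  set X := Finset.univ.filter (fun χ : IrrCharacter G => ¬ K ≤ chKer χ) with hX
  have hKc : ∀ τ : IrrCharacter K, (τ : K → ℂ) 1 = 1 := by
    intro τ
    have hc : charDegree (τ : K → ℂ) ^ 2 ≤ (center K).index :=
      H678.Codeg.sq_charDegree_le_index_center τ
    have htop : center K = ⊤ := by
      rw [eq_top_iff]
      intro x _
      rw [mem_center_iff]
      intro y
      exact Subtype.ext (hK y y.2 x x.2)
    rw [htop, index_top] at hc
    have h0 := charDegree_pos τ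
    have h1 : charDegree (τ : K → ℂ) = 1 := by nlinarith
    exact (charDegree_eq_one_iff τ).1 h1
  have hdeg : ∀ χ ∈ X, charDegree (χ : G → ℂ) = Nat.card H := by
    intro χ hχ
    obtain ⟨τ, -, hτ⟩ := F.exists_ind χ (Finset.mem_filter.1 hχ).2
    rw [hKc τ, mul_one, ← charDegree_irr] at hτ
    exact_mod_cast hτ
  have hone : X.card ≤ 1 := by
    rw [Finset.card_le_one]
    intro χ hχ ψ hψ
    by_contra hne
    refine h χ ψ hne ?_ ?_
    · rw [hdeg χ hχ]; exact F.one_lt_card.ne'
    · rw [hdeg χ hχ, hdeg ψ hψ]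
  have h1 : ∑ χ ∈ X, charDegree (χ : G → ℂ) ^ 2 = X.card * Nat.card H ^ 2 := by
    rw [Finset.sum_congr rfl fun χ hχ => by rw [hdeg χ hχ], Finset.sum_const, smul_eq_mul]
  rw [h1, F.index_kernel, ← F.card_mul] at hsum
  have h2 : X.card * Nat.card H + 1 = Nat.card K := by
    have h3 : (X.card * Nat.card H + 1) * Nat.card H = Nat.card K * Nat.card H := by
      rw [← hsum]; ring
    exact Nat.eq_of_mul_eq_mul_right Nat.card_pos h3
  have h3 : 1 < Nat.card K := by
    rcases Nat.lt_or_ge 1 (Nat.card K) with h | h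
    · exact h
    · exact absurd ((Subgroup.card_eq_one).1 (le_antisymm h Nat.card_pos)) F.neK
  have h4 : X.card = 1 := by
    rcases Nat.eq_zero_or_pos X.card with h0 | h0
    · rw [h0] at h2; omega
    · omega
  rw [h4, one_mul] at h2
  exact h2.symm

/-- If `|K| = |H| + 1`, the complement is transitive on the nonidentity elements of the kernel. -/
theorem Frob.transitive (F : Frob K H) (hc : Nat.card K = Nat.card H + 1) {a b : G} (ha : a ∈ K)
    (hb : b ∈ K) (ha1 : a ≠ 1) (hb1 : b ≠ 1) : ∃ h ∈ H, h * a * h⁻¹ = b := by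
  classical
  have := Fintype.ofFinite G
  let f : H → {k : K // k ≠ 1} := fun h => ⟨⟨h * a * (h : G)⁻¹, F.normal.conj_mem a ha h⟩, by
    intro h1
    apply ha1
    have h2 : (h : G) * a * (h : G)⁻¹ = 1 := congrArg Subtype.val h1
    simpa using h2⟩
  have hinj : Function.Injective f := by
    intro x y hxy
    have h1 : (x : G) * a * (x : G)⁻¹ = y * a * (y : G)⁻¹ :=
      congrArg (fun z => ((z.1 : K) : G)) hxy
    have h2 : ((y : G)⁻¹ * x) * a = a * ((y : G)⁻¹ * x) := by
      calc ((y : G)⁻¹ * x) * a = (y : G)⁻¹ * (x * a * (x : G)⁻¹) * x := by group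
        _ = (y : G)⁻¹ * (y * a * (y : G)⁻¹) * x := by rw [h1]
        _ = a * ((y : G)⁻¹ * x) := by group
    have h3 := F.not_comm_iff ha ha1 (H.mul_mem (H.inv_mem y.2) x.2) h2
    exact Subtype.ext (inv_mul_eq_one.1 h3).symm
  have hcard : Nat.card H = Nat.card {k : K // k ≠ 1} := by
    have h1 : Nat.card {k : K // k ≠ 1} = Nat.card K - 1 := by
      rw [Nat.card_eq_fintype_card, Nat.card_eq_fintype_card, Fintype.card_subtype_compl,
        Fintype.card_subtype_eq]
    rw [h1, hc]; rfl
  have hsurj : Function.Surjective f :=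
    (Function.Injective.bijective_of_nat_card_le hinj hcard.ge).2
  obtain ⟨h, hh⟩ := hsurj ⟨⟨b, hb⟩, fun h => hb1 (congrArg Subtype.val h)⟩
  exact ⟨h, h.2, congrArg (fun z => ((z.1 : K) : G)) hh⟩

/-- If `|K| = |H| + 1` then all elements of the kernel have order dividing one prime `q`, and `|K|`
is a power of `q`. -/
theorem Frob.exists_prime (F : Frob K H) (hc : Nat.card K = Nat.card H + 1) :
    ∃ q n : ℕ, q.Prime ∧ (∀ k ∈ K, k ^ q = 1) ∧ Nat.card K = q ^ n := by
  have h1 : Nat.card K ≠ 1 := by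
    have := F.one_lt_card
    omega
  obtain ⟨q, hq, hqd⟩ := Nat.exists_prime_and_dvd h1
  haveI : Fact q.Prime := ⟨hq⟩
  obtain ⟨x, hx⟩ := exists_prime_orderOf_dvd_card' q hqd
  have hx1 : (x : G) ≠ 1 := by
    intro h
    have : x = 1 := Subtype.ext h
    rw [this, orderOf_one] at hx
    exact hq.one_lt.ne hx
  have hxq : (x : G) ^ q = 1 := by
    have := pow_orderOf_eq_one x
    rw [hx] at this
    exact congrArg Subtype.val this
  have hall : ∀ k ∈ K, k ^ q = 1 := by
    intro k hk
    by_cases hk1 : k = 1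
    · rw [hk1, one_pow]
    obtain ⟨h, -, hh⟩ := F.transitive hc x.2 hk hx1 hk1
    rw [← hh, conj_pow, hxq]; group
  have hp : IsPGroup q K := by
    intro k
    refine ⟨1, ?_⟩
    rw [pow_one]
    exact Subtype.ext (hall k k.2)
  obtain ⟨n, hn⟩ := IsPGroup.iff_card.1 hp
  exact ⟨q, n, hq, hall, hn⟩

end Cfsg.Agent.H689
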