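import Mathlib
import Cfsg.Agent.H689.FrobMain

/-!
# Frobenius groups with distinct nonlinear degrees have a commutative kernel
-/

set_option autoImplicit false
set_option linter.unusedSectionVars false

open scoped ComplexConjugate Pointwise commutatorElement
open Cfsg Cfsg.Agent.Characters Cfsg.Agent.H686.CharKit Subgroup

namespace Cfsg.Agent.H689

universe u

/-- Sums of distinct powers. -/
theorem sum_pow_lt {ι : Type*} [DecidableEq ι] (s : Finset ι) (a : ι → ℕ) (ha : Set.InjOn a s)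
    {b M : ℕ} (hb : 2 ≤ b) (hM : ∀ i ∈ s, a i < M) : (b - 1) * ∑ i ∈ s, b ^ a i < b ^ M := by
  have h1 : ∑ i ∈ s, b ^ a i = ∑ j ∈ s.image a, b ^ j :=
    (Finset.sum_image (fun x hx y hy hxy => ha hx hy hxy)).symm
  have h2 : s.image a ⊆ Finset.range M := by
    intro j hj
    obtain ⟨i, hi, rfl⟩ := Finset.mem_image.1 hj
    exact Finset.mem_range.2 (hM i hi)
  have h3 : ∑ j ∈ s.image a, b ^ j ≤ ∑ j ∈ Finset.range M, b ^ j :=
    Finset.sum_le_sum_of_subset h2
  have h4 : (b - 1) * ∑ j ∈ Finset.range M, b ^ j = b ^ M - 1 := by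
    rw [mul_comm]; exact Nat.geomSum_eq hb M ▸ Nat.div_mul_cancel (by
      have := Nat.sub_dvd_pow_sub_pow b 1 M
      simpa using this)
  have h5 : 0 < b ^ M := pow_pos (by omega) M
  rw [h1]
  calc (b - 1) * ∑ j ∈ s.image a, b ^ j ≤ (b - 1) * ∑ j ∈ Finset.range M, b ^ j :=
        Nat.mul_le_mul_left _ h3
    _ = b ^ M - 1 := h4
    _ < b ^ M := by omega

/-- The arithmetic of the degrees over the derived subgroup of the kernel. -/
theorem arith_core {ι : Type*} [DecidableEq ι] (s : Finset ι) (a : ι → ℕ) (ha : Set.InjOn a s)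
    {q n l : ℕ} (hq : 2 ≤ q) (hn : 1 ≤ n) (hl : 1 ≤ l) (hbd : ∀ i ∈ s, 2 * a i ≤ n)
    (h : (q ^ n - 1) * ∑ i ∈ s, (q ^ a i) ^ 2 + q ^ n = q ^ (n + l)) :
    n ≤ l ∧ ∃ i, s = {i} := by
  have hqn : 2 ≤ q ^ n := le_trans hq (Nat.le_self_pow (by omega) q)
  have hql : 2 ≤ q ^ l := le_trans hq (Nat.le_self_pow (by omega) q)
  set T := ∑ i ∈ s, (q ^ a i) ^ 2 with hT
  have hTb : T = ∑ i ∈ s, (q ^ 2) ^ a i := by
    rw [hT]; refine Finset.sum_congr rfl fun i _ => ?_
    rw [← pow_mul, ← pow_mul, mul_comm]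
  have hb : 2 ≤ q ^ 2 := by nlinarith
  -- the equation in the form `(q^n - 1) T = q^n (q^l - 1)`
  have heq : (q ^ n - 1) * T = q ^ n * (q ^ l - 1) := by
    rw [Nat.mul_sub, mul_one, ← pow_add]
    omega
  have hdvd : q ^ n - 1 ∣ q ^ l - 1 := by
    have h1 : q ^ n - 1 ∣ q ^ n * (q ^ l - 1) := ⟨T, heq.symm⟩
    refine (Nat.Coprime.dvd_of_dvd_mul_left ?_ h1)
    have : (q ^ n - 1 + 1).Coprime (q ^ n - 1) := by simp
    rw [Nat.sub_add_cancel (by omega)] at this
    exact this.symm
  have hle : n ≤ l := by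
    have h1 := Nat.le_of_dvd (by omega) hdvd
    by_contra hlt
    push Not at hlt
    have := Nat.pow_lt_pow_right (by omega : 1 < q) hlt
    omega
  refine ⟨hle, ?_⟩
  have hTn : q ^ n ≤ T := by
    have h1 : q ^ n - 1 ≤ q ^ l - 1 := Nat.le_of_dvd (by omega) hdvd
    have h2 : (q ^ n - 1) * q ^ n ≤ (q ^ n - 1) * T := by
      rw [heq, mul_comm]
      exact Nat.mul_le_mul_left _ h1
    exact Nat.le_of_mul_le_mul_left h2 (by omega)
  -- `n` is even and the largest possible exponent occurs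
  have hex : ∃ i ∈ s, 2 * a i = n := by
    by_contra hcon
    push Not at hcon
    -- all `a i < M` where `2 M = n` or `2 M = n + 1`
    rcases Nat.even_or_odd' n with ⟨m, hm | hm⟩
    · have h1 := sum_pow_lt s a ha hb (M := m) (fun i hi => by
        have := hbd i hi
        have := hcon i hi
        omega)
      rw [← hTb, ← pow_mul, ← hm] at h1
      have h2 : 1 * q ^ n ≤ (q ^ 2 - 1) * T :=
        Nat.mul_le_mul (by omega) hTn
      omega
    · have h1 := sum_pow_lt s a ha hb (M := m + 1) (fun i hi => by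
        have := hbd i hi
        omega)
      have h3 : (q ^ 2) ^ (m + 1) = q ^ n * q := by
        rw [← pow_mul, hm, ← pow_succ]; congr 1
      rw [← hTb, h3] at h1
      have h2 : q ^ n * q ≤ (q ^ 2 - 1) * T := by
        rw [mul_comm]
        refine Nat.mul_le_mul ?_ hTn
        have : q + 1 ≤ q ^ 2 := by nlinarith
        omega
      omega
  obtain ⟨i₀, hi₀, hi⟩ := hex
  set T' := ∑ i ∈ s.erase i₀, (q ^ 2) ^ a i with hT'
  have hTT : T = q ^ n + T' := by
    rw [hTb, ← Finset.add_sum_erase s _ hi₀, ← hT', ← pow_mul, hi]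
  have hT'lt : T' < q ^ n := by
    have h1 := sum_pow_lt (s.erase i₀) a (ha.mono (Finset.coe_subset.2 (Finset.erase_subset _ _))) hb
      (M := a i₀) (fun i hi' => by
        rw [Finset.mem_erase] at hi'
        have h2 := hbd i hi'.2
        have h3 : a i ≠ a i₀ := fun h => hi'.1 (ha hi'.2 hi₀ h)
        omega)
    rw [← hT', ← pow_mul, hi] at h1
    have h2 : 1 * T' ≤ (q ^ 2 - 1) * T' := Nat.mul_le_mul_right _ (by omega)
    omega
  have hln : l = n := by
    by_contra hne
    have h1 : n + 1 ≤ l := by omega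
    have h2 : q ^ n * 2 ≤ q ^ l := by
      calc q ^ n * 2 ≤ q ^ n * q := Nat.mul_le_mul_left _ hq
        _ = q ^ (n + 1) := (pow_succ q n).symm
        _ ≤ q ^ l := Nat.pow_le_pow_right (by omega) h1
    have h3 : q ^ n * (q ^ n * 2 - 1) ≤ (q ^ n - 1) * T := by
      rw [heq]; exact Nat.mul_le_mul_left _ (by omega)
    have h4 : (q ^ n - 1) * T ≤ (q ^ n - 1) * (q ^ n * 2) := Nat.mul_le_mul_left _ (by omega)
    obtain ⟨c, hc⟩ : ∃ c, q ^ n = c + 1 := ⟨q ^ n - 1, by omega⟩
    rw [hc] at h3 h4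
    have h5 := h3.trans h4
    have h6 : (c + 1) * 2 - 1 = 2 * c + 1 := by omega
    have h7 : c + 1 - 1 = c := by omega
    rw [h6, h7] at h5
    nlinarith
  have hT0 : T' = 0 := by
    rw [hln, mul_comm (q ^ n)] at heq
    have := Nat.eq_of_mul_eq_mul_left (by omega) heq
    omega
  refine ⟨i₀, Finset.eq_singleton_iff_unique_mem.2 ⟨hi₀, fun i hi' => ?_⟩⟩
  by_contra hne
  have h3 := Finset.sum_eq_zero_iff.1 hT0 i (Finset.mem_erase.2 ⟨hne, hi'⟩)
  exact absurd h3 (pow_ne_zero _ (by positivity))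

variable {G : Type u} [Group G] {K H : Subgroup G} [Finite G]

/-- Sums over the irreducible characters with `N` in the kernel. -/
theorem sum_ker [Fintype (IrrCharacter G)] (N : Subgroup G) [N.Normal]
    [Fintype (IrrCharacter (G ⧸ N))]
    [DecidablePred fun χ : IrrCharacter G => N ≤ chKer χ] {R : Type*} [AddCommMonoid R]
    (F : IrrCharacter G → R) :
    ∑ χ ∈ Finset.univ.filter (fun χ : IrrCharacter G => N ≤ chKer χ), F χ =
      ∑ ψ : IrrCharacter (G ⧸ N), F (infl N ψ) := by
  classical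
  rw [Finset.sum_subtype (p := fun χ : IrrCharacter G => N ≤ chKer χ)
    (Finset.univ.filter fun χ : IrrCharacter G => N ≤ chKer χ) (by simp)]
  rw [← Equiv.sum_comp (inflEquiv N)]
  exact Finset.sum_congr rfl fun ψ _ => rfl

/-- If exactly one irreducible character does not contain `N` in the kernel, the centralizers of the
elements `x` outside `N` are as small as in the quotient. -/
theorem card_centralizer_of_singleton (N : Subgroup G) [N.Normal] (χ₀ : IrrCharacter G)
    (h : ∀ χ : IrrCharacter G, ¬ N ≤ chKer χ ↔ χ = χ₀) {x : G} (hx : x ∉ N) :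
    Nat.card (centralizer ({x} : Set G)) =
      Nat.card (centralizer ({(x : G ⧸ N)} : Set (G ⧸ N))) := by
  classical
  have := Fintype.ofFinite G
  have := Core.finite_irr (G := G)
  have := Fintype.ofFinite (IrrCharacter G)
  have := Core.finite_irr (G := G ⧸ N)
  have := Fintype.ofFinite (IrrCharacter (G ⧸ N))
  have hx1 : x ≠ 1 := fun h => hx (h ▸ one_mem N)
  have hxN : (x : G ⧸ N) ≠ 1 := fun h => hx ((QuotientGroup.eq_one_iff x).1 h)
  have hfil : Finset.univ.filter (fun χ : IrrCharacter G => ¬ N ≤ chKer χ) = {χ₀} := by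
    ext χ
    simp only [Finset.mem_filter, Finset.mem_univ, true_and, Finset.mem_singleton]
    exact h χ
  -- `χ₀ x = 0`
  have h0 : (χ₀ : G → ℂ) x = 0 := by
    have h1 := col_orth (G := G) x 1
    rw [if_neg (by rw [isConj_one_left]; exact hx1),
      ← Finset.sum_filter_add_sum_filter_not Finset.univ
      (fun χ : IrrCharacter G => N ≤ chKer χ), hfil, Finset.sum_singleton, sum_ker N] at h1
    have h2 := col_orth (G := G ⧸ N) (x : G ⧸ N) 1
    rw [if_neg (by rw [isConj_one_left]; exact hxN)] at h2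
    have h3 : ∑ ψ : IrrCharacter (G ⧸ N), (infl N ψ : G → ℂ) x * conj ((infl N ψ : G → ℂ) 1) = 0 := by
      rw [← h2]
      exact Finset.sum_congr rfl fun ψ _ => rfl
    rw [h3, zero_add] at h1
    rcases mul_eq_zero.1 h1 with h4 | h4
    · exact h4
    · rw [map_eq_zero] at h4
      exact absurd h4 (Core.isIrr_apply_one_ne_zero χ₀.2)
  have h1 := sum_normSq (G := G) x
  have h2 := sum_normSq (G := G ⧸ N) (x : G ⧸ N)
  rw [← Finset.sum_filter_add_sum_filter_not Finset.univ
      (fun χ : IrrCharacter G => N ≤ chKer χ), hfil, Finset.sum_singleton, sum_ker N, h0, map_zero,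
      add_zero] at h1
  have h3 : (Nat.card (centralizer ({x} : Set G)) : ℝ) =
      Nat.card (centralizer ({(x : G ⧸ N)} : Set (G ⧸ N))) := by
    rw [← h1, ← h2]
    exact Finset.sum_congr rfl fun ψ _ => rfl
  exact_mod_cast h3

/-- The core case: `⁅K, K⁆` a minimal normal subgroup. -/
theorem Frob.core (F : Frob K H) (h : DD G) (hne : ⁅K, K⁆ ≠ ⊥)
    (hmin : ∀ N : Subgroup G, N.Normal → N ≤ ⁅K, K⁆ → N = ⊥ ∨ N = ⁅K, K⁆) : False := by
  classical
  have := Fintype.ofFinite G
  have := Core.finite_irr (G := G)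
  have := Fintype.ofFinite (IrrCharacter G)
  have hKn := F.normal
  have hnil := F.nilpotent
  set L : Subgroup G := ⁅K, K⁆ with hL
  have hLn : L.Normal := commutator_normal K K
  have hLK : L ≤ K := commutator_le_left K K
  -- commutators inside the nilpotent group `K`
  have hcom : ∀ Q : Subgroup G, Q.Normal → Q ≤ K → Q ≠ ⊥ → ⁅Q, K⁆ < Q := by
    intro Q hQ hQK hQ1
    have h1 : (Q.subgroupOf K).Normal := inferInstance
    have h2 : Q.subgroupOf K ≠ ⊥ := by
      rw [Ne, subgroupOf_eq_bot, disjoint_iff, inf_eq_left.2 hQK]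
      exact hQ1
    have h3 := Transfer.TateComplement.commutator_top_lt_of_isNilpotent (Q.subgroupOf K) h2
    have h4 : (⁅Q.subgroupOf K, (⊤ : Subgroup K)⁆).map K.subtype = ⁅Q, K⁆ := by
      rw [map_commutator, map_subgroupOf_eq_of_le hQK, ← MonoidHom.range_eq_map, K.range_subtype]
    have h5 : (Q.subgroupOf K).map K.subtype = Q := map_subgroupOf_eq_of_le hQK
    rw [← h4]
    conv_rhs => rw [← h5]
    exact (map_lt_map_iff_of_injective K.subtype_injective).2 h3
  have hLlt : L < K := hcom K hKn le_rfl F.neK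
  -- `L` is centralized by `K`
  have hLK1 : ⁅L, K⁆ = ⊥ := by
    have h1 := hcom L hLn hLK hne
    rcases hmin ⁅L, K⁆ (commutator_normal L K) h1.le with h2 | h2
    · exact h2
    · exact absurd h2 h1.ne
  have hcen : ∀ x ∈ L, ∀ y ∈ K, x * y = y * x := by
    intro x hx y hy
    have h1 : ⁅x, y⁆ ∈ ⁅L, K⁆ := commutator_mem_commutator hx hy
    rw [hLK1, mem_bot] at h1
    exact commutatorElement_eq_one_iff_mul_comm.1 h1
  -- the quotient
  have FQ := F.quotient L hLlt
  have hDQ : DD (G ⧸ L) := h.quotient L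
  have hKQ : ∀ a ∈ K.map (QuotientGroup.mk' L), ∀ b ∈ K.map (QuotientGroup.mk' L),
      a * b = b * a := by
    rintro _ ⟨a, ha, rfl⟩ _ ⟨b, hb, rfl⟩
    rw [← map_mul, ← map_mul]
    apply QuotientGroup.eq.2
    have : (a * b)⁻¹ * (b * a) = ⁅b⁻¹, a⁻¹⁆ := by rw [commutatorElement_def]; group
    rw [this]
    exact commutator_mem_commutator (K.inv_mem hb) (K.inv_mem ha)
  have hcQ := FQ.card_eq hDQ hKQ
  obtain ⟨q, n, hq, hqpow, hqn⟩ := FQ.exists_prime hcQ
  have : Fact q.Prime := ⟨hq⟩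
  -- orders
  have hH : Nat.card (H.map (QuotientGroup.mk' L)) = Nat.card H := by
    rw [← FQ.index_kernel, ← F.index_kernel]
    exact index_map_eq K (QuotientGroup.mk'_surjective L)
      (by rw [QuotientGroup.ker_mk']; exact hLK) 
  have hGL : L.index = q ^ n * Nat.card H := by
    have h1 := FQ.card_mul
    rw [hqn, hH] at h1
    rw [h1]; rfl
  have hHq : Nat.card H = q ^ n - 1 := by
    rw [hH, hqn] at hcQ
    omega
  have hn1 : 1 ≤ n := by
    rcases Nat.eq_zero_or_pos n with h0 | h0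
    · rw [h0, pow_zero] at hHq
      have := F.one_lt_card
      omega
    · exact h0
  -- `L` is a `q`-group
  have hLab : ∀ x ∈ L, ∀ y ∈ L, x * y = y * x := fun x hx y hy => hcen x hx y (hLK hy)
  have hcomq : ∀ a ∈ K, ∀ b ∈ K, ⁅a, b⁆ ^ q = 1 := by
    intro a ha b hb
    have hc : ⁅a, b⁆ ∈ L := commutator_mem_commutator ha hb
    have h1 : ∀ k : ℕ, a ^ k * b * (a ^ k)⁻¹ = ⁅a, b⁆ ^ k * b := by
      intro k
      induction k with
      | zero => simp
      | succ k ih =>
        have h2 : a * ⁅a, b⁆ ^ k * a⁻¹ = ⁅a, b⁆ ^ k := by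
          rw [← hcen _ (L.pow_mem hc k) a ha]; group
        calc a ^ (k + 1) * b * (a ^ (k + 1))⁻¹ = a * (a ^ k * b * (a ^ k)⁻¹) * a⁻¹ := by
              rw [pow_succ']; group
          _ = (a * ⁅a, b⁆ ^ k * a⁻¹) * (a * b * a⁻¹) := by rw [ih]; group
          _ = ⁅a, b⁆ ^ k * (⁅a, b⁆ * b) := by rw [h2, commutatorElement_def]; group
          _ = ⁅a, b⁆ ^ (k + 1) * b := by rw [pow_succ]; group
    have h2 : a ^ q ∈ L := by
      rw [← QuotientGroup.eq_one_iff]
      exact hqpow _ ⟨a, ha, rfl⟩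
    have h3 := h1 q
    rw [hcen _ h2 b hb, mul_assoc, mul_inv_cancel, mul_one] at h3
    exact (mul_eq_right.1 h3.symm)
  have hLq : ∀ x ∈ L, x ^ q = 1 := by
    -- the set of `x ∈ L` with `x ^ q = 1` is a normal subgroup containing the commutators
    let N : Subgroup G :=
      { carrier := {x | x ∈ L ∧ x ^ q = 1}
        one_mem' := ⟨one_mem L, one_pow q⟩
        mul_mem' := by
          rintro x y ⟨hx, hxq⟩ ⟨hy, hyq⟩
          refine ⟨L.mul_mem hx hy, ?_⟩
          rw [(show Commute x y from hLab x hx y hy).mul_pow, hxq, hyq, one_mul]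
        inv_mem' := by
          rintro x ⟨hx, hxq⟩
          exact ⟨L.inv_mem hx, by rw [inv_pow, hxq, inv_one]⟩ }
    have hle : L ≤ N := by
      rw [hL, Subgroup.commutator_le]
      intro a ha b hb
      exact ⟨commutator_mem_commutator ha hb, hcomq a ha b hb⟩
    intro x hx
    exact (hle hx).2
  have hLp : IsPGroup q L := by
    intro x
    refine ⟨1, ?_⟩
    rw [pow_one]
    exact Subtype.ext (hLq x x.2)
  obtain ⟨l, hl⟩ := IsPGroup.iff_card.1 hLp
  have hl1 : 1 ≤ l := by
    rcases Nat.eq_zero_or_pos l with h0 | h0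
    · rw [h0, pow_zero, Subgroup.card_eq_one] at hl
      exact absurd hl hne
    · exact h0
  have hKcard : Nat.card K = q ^ (n + l) := by
    have h1 := L.card_mul_index
    rw [hGL, hl, ← F.card_mul] at h1
    have h2 : q ^ (n + l) * Nat.card H = Nat.card K * Nat.card H := by
      rw [← h1, pow_add]; ring
    exact (Nat.eq_of_mul_eq_mul_right Nat.card_pos h2).symm
  have hGcard : Nat.card G = q ^ (n + l) * Nat.card H := by rw [← F.card_mul, hKcard]
  -- degrees
  have hindex : (center K).index ≤ q ^ n := by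
    have h1 : L.subgroupOf K ≤ center K := by
      intro x hx
      rw [mem_center_iff]
      intro y
      exact Subtype.ext (hcen x hx y y.2).symm
    have h2 : (L.subgroupOf K).index = q ^ n := by
      have h3 := (L.subgroupOf K).card_mul_index
      have h4 : Nat.card (L.subgroupOf K) = q ^ l := by
        rw [← hl]; exact Nat.card_congr (subgroupOfEquivOfLe hLK).toEquiv
      rw [h4, hKcard, pow_add, mul_comm] at h3
      exact Nat.eq_of_mul_eq_mul_right (pow_pos hq.pos l) h3
    rw [← h2]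
    exact Nat.le_of_dvd (Nat.pos_of_ne_zero index_ne_zero_of_finite) (index_dvd_of_le h1)
  have hdeg : ∀ χ : IrrCharacter G, ∃ a, ¬ L ≤ chKer χ →
      charDegree (χ : G → ℂ) = Nat.card H * q ^ a ∧ 2 * a ≤ n := by
    intro χ
    by_cases hχ : L ≤ chKer χ
    · exact ⟨0, fun hc => absurd hχ hc⟩
    obtain ⟨τ, -, hτ⟩ := F.exists_ind χ (fun hc => hχ (hLK.trans hc))
    have h1 : charDegree (τ : K → ℂ) ∣ Nat.card K := H669.Basic.charDegree_dvd_card τ.2
    rw [hKcard] at h1
    obtain ⟨a, -, ha⟩ := (Nat.dvd_prime_pow hq).1 h1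
    refine ⟨a, fun _ => ⟨?_, ?_⟩⟩
    · rw [← charDegree_irr, ← charDegree_irr, ha] at hτ
      exact_mod_cast hτ
    · have h2 := (H678.Codeg.sq_charDegree_le_index_center τ).trans hindex
      rw [ha, ← pow_mul, mul_comm] at h2
      exact (Nat.pow_le_pow_iff_right hq.one_lt).1 h2
  choose a ha using hdeg
  set Y := Finset.univ.filter (fun χ : IrrCharacter G => ¬ L ≤ chKer χ) with hY
  have hinj : Set.InjOn a (Y : Set (IrrCharacter G)) := by
    intro χ hχ ψ hψ hab
    by_contra hne'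
    have h1 := ha χ (Finset.mem_filter.1 hχ).2
    have h2 := ha ψ (Finset.mem_filter.1 hψ).2
    refine h χ ψ hne' ?_ (by rw [h1.1, h2.1, hab])
    rw [h1.1]
    have h3 := F.one_lt_card
    have h4 : 0 < q ^ a χ := pow_pos hq.pos _
    nlinarith
  have hsum := sum_not_ker (G := G) L
  rw [← hY, hGL, hGcard] at hsum
  have hsum2 : (q ^ n - 1) * ∑ χ ∈ Y, (q ^ a χ) ^ 2 + q ^ n = q ^ (n + l) := by
    have h1 : ∑ χ ∈ Y, charDegree (χ : G → ℂ) ^ 2 =
        Nat.card H * (Nat.card H * ∑ χ ∈ Y, (q ^ a χ) ^ 2) := by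
      rw [Finset.mul_sum, Finset.mul_sum]
      refine Finset.sum_congr rfl fun χ hχ => ?_
      rw [(ha χ (Finset.mem_filter.1 hχ).2).1]; ring
    rw [h1] at hsum
    have h2 : Nat.card H * (Nat.card H * ∑ χ ∈ Y, (q ^ a χ) ^ 2 + q ^ n) =
        Nat.card H * q ^ (n + l) := by rw [mul_comm _ (q ^ (n + l)), ← hsum]; ring
    rw [← hHq]
    exact Nat.eq_of_mul_eq_mul_left Nat.card_pos h2
  obtain ⟨hnl, χ₀, hχ₀⟩ := arith_core Y a hinj hq.two_le hn1 hl1
    (fun χ hχ => (ha χ (Finset.mem_filter.1 hχ).2).2) hsum2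
  -- the contradiction
  obtain ⟨x, hxK, hxL⟩ := SetLike.exists_of_lt hLlt
  have h1 := card_centralizer_of_singleton L χ₀ (fun χ => by
    have : χ ∈ Y ↔ χ = χ₀ := by rw [hχ₀, Finset.mem_singleton]
    rw [← this, hY, Finset.mem_filter]
    exact ⟨fun h => ⟨Finset.mem_univ _, h⟩, fun h => h.2⟩) hxL
  have hxL1 : (x : G ⧸ L) ≠ 1 := fun h => hxL ((QuotientGroup.eq_one_iff x).1 h)
  have h2 : Nat.card (centralizer ({(x : G ⧸ L)} : Set (G ⧸ L))) ≤ q ^ n := by
    rw [← hqn]
    exact card_le_of_le (FQ.centralizer_le ⟨x, hxK, rfl⟩ hxL1)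
  have h3 : L < centralizer ({x} : Set G) := by
    refine lt_of_le_of_ne ?_ ?_
    · intro y hy
      rw [mem_centralizer_singleton_iff]
      exact hcen y hy x hxK
    · intro heq
      apply hxL
      rw [heq, mem_centralizer_singleton_iff]
  have h4 : Nat.card L < Nat.card (centralizer ({x} : Set G)) := by
    by_contra hcon
    push Not at hcon
    exact h3.ne (Subgroup.eq_of_le_of_card_ge h3.le hcon)
  rw [h1, hl] at h4
  have h5 := Nat.pow_le_pow_right hq.pos hnl
  omega

/-- The kernel of a Frobenius group with distinct nonlinear degrees is commutative. -/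
theorem Frob.kernel_comm (F : Frob K H) (h : DD G) : ∀ a ∈ K, ∀ b ∈ K, a * b = b * a := by
  by_contra hcon
  have hKn := F.normal
  have hne : ⁅K, K⁆ ≠ ⊥ := by
    intro h0
    apply hcon
    intro a ha b hb
    have h1 : ⁅a, b⁆ ∈ ⁅K, K⁆ := commutator_mem_commutator ha hb
    rw [h0, mem_bot] at h1
    exact commutatorElement_eq_one_iff_mul_comm.1 h1
  have hLn : (⁅K, K⁆ : Subgroup G).Normal := commutator_normal K K
  have hLK : ⁅K, K⁆ ≤ K := commutator_le_left K K
  -- a normal subgroup maximal among those properly contained in `⁅K, K⁆`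
  obtain ⟨M, hM⟩ := (Set.toFinite {M : Subgroup G | M.Normal ∧ M < ⁅K, K⁆}).exists_maximal
    ⟨⊥, inferInstance, bot_lt_iff_ne_bot.2 hne⟩
  have hMn : M.Normal := hM.prop.1
  have hMlt : M < ⁅K, K⁆ := hM.prop.2
  have hMK : M < K := lt_of_lt_of_le hMlt hLK
  have FQ := F.quotient M hMK
  have hmap : ⁅K.map (QuotientGroup.mk' M), K.map (QuotientGroup.mk' M)⁆ =
      (⁅K, K⁆ : Subgroup G).map (QuotientGroup.mk' M) := (map_commutator K K _).symm
  refine FQ.core (h.quotient M) ?_ ?_
  · rw [hmap]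
    intro h0
    rw [Subgroup.map_eq_bot_iff, QuotientGroup.ker_mk'] at h0
    exact hMlt.not_ge h0
  · intro N hN hNle
    rw [hmap] at hNle ⊢
    have h1 : (N.comap (QuotientGroup.mk' M)).Normal := hN.comap _
    have h2 : M ≤ N.comap (QuotientGroup.mk' M) := by
      intro x hx
      rw [mem_comap, QuotientGroup.mk'_apply, (QuotientGroup.eq_one_iff x).2 hx]
      exact one_mem N
    have h3 : N.comap (QuotientGroup.mk' M) ≤ ⁅K, K⁆ := by
      intro x hx
      obtain ⟨y, hy, hyx⟩ := hNle hx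
      have : y⁻¹ * x ∈ M := QuotientGroup.eq.1 hyx
      have := (⁅K, K⁆ : Subgroup G).mul_mem hy (hMlt.le this)
      simpa using this
    have h4 : (N.comap (QuotientGroup.mk' M)).map (QuotientGroup.mk' M) = N :=
      map_comap_eq_self_of_surjective (QuotientGroup.mk'_surjective M) N
    rcases eq_or_lt_of_le h3 with h5 | h5
    · right
      rw [← h4, h5]
    · left
      have h6 : N.comap (QuotientGroup.mk' M) ≤ M := hM.le_of_ge ⟨h1, h5⟩ h2
      rw [← h4, Subgroup.map_eq_bot_iff, QuotientGroup.ker_mk']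
      exact h6

end Cfsg.Agent.H689
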