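import Mathlib
import Cfsg.Agent.H689.SporTwo
import Cfsg.Agent.SporadicStructure.DodecadM12
import Cfsg.Agent.Schreier.MTwelve

/-!
# `M₁₂`, `M₂₄`, `J₁`
-/

set_option autoImplicit false
set_option linter.unusedSectionVars false

open Cfsg

namespace Cfsg.Agent.H689

universe u

/-- The centralizer of an element of prime order `r` in a group of permutations of at most
`r + 1` points. -/
theorem mem_zpowers_of_comm {Ω : Type*} [Fintype Ω] {r : ℕ} (hr : r.Prime)
    (hΩ : Fintype.card Ω ≤ r + 1) {x c : Equiv.Perm Ω} (hx : orderOf x = r) (hc : x * c = c * x) :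
    c ∈ Subgroup.zpowers x := by
  classical
  obtain ⟨a, ha⟩ : ∃ a, x a ≠ a := by
    by_contra h
    push Not at h
    have : x = 1 := Equiv.ext h
    rw [this, orderOf_one] at hx
    exact hr.one_lt.ne hx
  -- the orbit of a moved point
  have horb : ∀ b, x b ≠ b → Function.Injective (fun i : Fin r => (x ^ (i : ℕ)) b) := by
    intro b hb i j hij
    by_contra hne
    wlog hlt : (i : ℕ) < j generalizing i j
    · exact this hij.symm (Ne.symm hne)
        (lt_of_le_of_ne (not_lt.1 hlt) (fun h => hne (Fin.ext h.symm)))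
    have h1 : (x ^ ((j : ℕ) - i)) b = b := by
      have h2 : (x ^ (i : ℕ)) ((x ^ ((j : ℕ) - i)) b) = (x ^ (i : ℕ)) b := by
        rw [← Equiv.Perm.mul_apply, ← pow_add, Nat.add_sub_cancel' hlt.le]
        exact hij.symm
      exact (x ^ (i : ℕ)).injective h2
    have h3 : ((j : ℕ) - i).Coprime (orderOf x) := by
      rw [hx, Nat.coprime_comm, hr.coprime_iff_not_dvd]
      intro h4
      have := Nat.le_of_dvd (by omega) h4
      have := j.2
      omega
    have h4 : x ∈ Subgroup.zpowers (x ^ ((j : ℕ) - i)) := mem_zpowers_pow_iff.2 h3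
    obtain ⟨k, hk⟩ := h4
    change (x ^ ((j : ℕ) - i)) ^ k = x at hk
    apply hb
    have h5 : ((x ^ ((j : ℕ) - i)) ^ k) b = b := by
      have h6 : x ^ ((j : ℕ) - i) ∈ MulAction.stabilizer (Equiv.Perm Ω) b := h1
      exact Subgroup.zpow_mem _ h6 k
    rwa [hk] at h5
  have hcomm : ∀ (i : ℕ) (b : Ω), c ((x ^ i) b) = (x ^ i) (c b) := by
    intro i b
    have h1 : x ^ i * c = c * x ^ i := ((show Commute x c from hc).pow_left i).eq
    rw [← Equiv.Perm.mul_apply, ← Equiv.Perm.mul_apply, h1]
  have hca : x (c a) ≠ c a := by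
    intro h1
    have h2 := hcomm 1 a
    rw [pow_one, h1] at h2
    exact ha (c.injective h2)
  -- all moved points are in one orbit
  have hmov : ∀ b, x b ≠ b → ∃ i : ℕ, b = (x ^ i) a := by
    intro b hb
    by_contra hno
    push Not at hno
    have hinj : Function.Injective (Sum.elim (fun i : Fin r => (x ^ (i : ℕ)) a)
        (fun i : Fin r => (x ^ (i : ℕ)) b)) := by
      rintro (i | i) (j | j) hij
      · exact congrArg Sum.inl (horb a ha hij)
      · exfalso
        simp only [Sum.elim_inl, Sum.elim_inr] at hij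
        apply hno ((r - j) + i)
        rw [pow_add, Equiv.Perm.mul_apply, hij, ← Equiv.Perm.mul_apply, ← pow_add,
          Nat.sub_add_cancel j.2.le, ← hx, pow_orderOf_eq_one]
        rfl
      · exfalso
        simp only [Sum.elim_inl, Sum.elim_inr] at hij
        apply hno ((r - i) + j)
        rw [pow_add, Equiv.Perm.mul_apply, ← hij, ← Equiv.Perm.mul_apply, ← pow_add,
          Nat.sub_add_cancel i.2.le, ← hx, pow_orderOf_eq_one]
        rfl
      · exact congrArg Sum.inr (horb b hb hij)
    have h1 := Fintype.card_le_of_injective _ hinj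
    rw [Fintype.card_sum, Fintype.card_fin] at h1
    have := hr.two_le
    omega
  obtain ⟨i, hi⟩ := hmov (c a) hca
  -- `c = x ^ i`
  have hmoved : ∀ b, x b ≠ b → c b = (x ^ i) b := by
    intro b hb
    obtain ⟨j, rfl⟩ := hmov b hb
    rw [hcomm, hi, ← Equiv.Perm.mul_apply, ← Equiv.Perm.mul_apply, ← pow_add, ← pow_add, add_comm]
  have hfix : ∀ b, x b = b → c b = (x ^ i) b := by
    intro b hb
    have hb' : (x ^ i) b = b := by
      have h6 : x ∈ MulAction.stabilizer (Equiv.Perm Ω) b := hb
      exact Subgroup.pow_mem _ h6 i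
    rw [hb']
    by_contra hne
    -- two fixed points and a full orbit
    have hcb : x (c b) = c b := by
      have := hcomm 1 b
      rw [pow_one, hb] at this
      exact this.symm
    have hinj : Function.Injective (Sum.elim (fun i : Fin r => (x ^ (i : ℕ)) a)
        (fun j : Fin 2 => if j = 0 then b else c b)) := by
      have hfx : ∀ y, x y = y → ∀ i : ℕ, (x ^ i) a ≠ y := by
        intro y hy i h1
        have h2 : x ((x ^ i) a) = (x ^ i) a := by rw [h1, hy]
        rw [← Equiv.Perm.mul_apply, ← pow_succ', pow_succ, Equiv.Perm.mul_apply] at h2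
        exact ha ((x ^ i).injective h2)
      rintro (i | i) (j | j) hij
      · exact congrArg Sum.inl (horb a ha hij)
      · exfalso
        simp only [Sum.elim_inl, Sum.elim_inr] at hij
        split_ifs at hij
        · exact hfx b hb _ hij
        · exact hfx _ hcb _ hij
      · exfalso
        simp only [Sum.elim_inl, Sum.elim_inr] at hij
        split_ifs at hij
        · exact hfx b hb _ hij.symm
        · exact hfx _ hcb _ hij.symm
      · simp only [Sum.elim_inr] at hij
        congr 1
        have hne' : b ≠ c b := fun h => hne h.symm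
        fin_cases i <;> fin_cases j <;> simp_all
    have h1 := Fintype.card_le_of_injective _ hinj
    rw [Fintype.card_sum, Fintype.card_fin, Fintype.card_fin] at h1
    omega
  refine ⟨i, ?_⟩
  change x ^ (i : ℤ) = c
  rw [zpow_natCast]
  ext b
  by_cases hb : x b = b
  · exact (hfix b hb).symm
  · exact (hmoved b hb).symm

theorem not_ratl_of_perm {G : Type u} [Group G] [Finite G] {Ω : Type*} [Fintype Ω]
    (φ : G →* Equiv.Perm Ω) (hφ : Function.Injective φ) (r N : ℕ) (hr : r.Prime)
    (hΩ : Fintype.card Ω ≤ r + 1) (hN : Nat.card G = r * N) (hrN : ¬ r ∣ N)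
    (h1 : (1 + N) % r ≠ 0) : ¬ Ratl G := by
  intro h
  obtain ⟨x, hx, k, s, hk, hs, hs1⟩ := sylow_arith (h.orat 1) hr (Nat.coprime_one_right r)
    (by rw [hN]; exact dvd_mul_right _ _)
    (by
      rw [hN]
      intro h1
      exact hrN (Nat.dvd_of_mul_dvd_mul_left hr.pos h1))
  have hx' : orderOf (φ x) = r := by rw [orderOf_injective φ hφ, hx]
  have hC : Subgroup.centralizer ({x} : Set G) = Subgroup.zpowers x := by
    apply le_antisymm
    · intro c hc
      rw [Subgroup.mem_centralizer_singleton_iff] at hc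
      obtain ⟨i, hi⟩ := mem_zpowers_of_comm hr hΩ hx' (c := φ c) (by
        rw [← map_mul, ← map_mul, hc])
      refine ⟨i, hφ ?_⟩
      change φ (x ^ i) = φ c
      rw [map_zpow]
      exact hi
    · rw [Subgroup.zpowers_le, Subgroup.mem_centralizer_singleton_iff]
  rw [hC, Nat.card_zpowers, hx] at hk
  have hk1 : k = 1 := by
    have : r * 1 = r * k := by rw [mul_one]; exact hk
    exact (Nat.eq_of_mul_eq_mul_left hr.pos this).symm
  subst hk1
  have h2 : N = s * (r - 1) := by
    rw [hN] at hs
    refine Nat.eq_of_mul_eq_mul_left hr.pos ?_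
    rw [hs]; ring
  apply h1
  have h3 : 1 + N ≡ 1 + 1 * (r - 1) [MOD r] := by
    rw [h2]
    exact (hs1.mul_right _).add_left 1
  have h4 : 1 + 1 * (r - 1) = r := by have := hr.two_le; omega
  rw [h4] at h3
  have h5 : (1 + N) % r = r % r := h3
  rw [h5, Nat.mod_self]

theorem not_ratl_m24 {G : Type u} [Group G] [Finite G] (h : Spor.IsoM24 G) : ¬ Ratl G := by
  have hc := NotCT.Orders.m24 h
  obtain ⟨e⟩ := h
  exact not_ratl_of_perm (M24.subtype.comp e.toMonoidHom)
    (Subtype.val_injective.comp e.injective) 23 10644480 (by norm_num) (by decide)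
    (by rw [hc]) (by norm_num) (by norm_num)

open scoped Pointwise in
theorem mem_dodecad_iff {g : Equiv.Perm GolayPt} (hg : g ∈ Spor.M12) (x : GolayPt) :
    g x ∈ Spor.squareDodecad ↔ x ∈ Spor.squareDodecad := by
  have h : g • Spor.squareDodecad = Spor.squareDodecad := hg.2
  constructor
  · intro h1
    rw [← h] at h1
    rw [Finset.mem_smul_finset] at h1
    obtain ⟨y, hy, hyx⟩ := h1
    have : y = x := g.injective hyx
    exact this ▸ hy
  · intro h1
    rw [← h, Finset.mem_smul_finset]
    exact ⟨x, h1, rfl⟩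

/-- The action on the dodecad. -/
def dodHom : Spor.M12 →* Equiv.Perm {x : GolayPt // x ∈ Spor.squareDodecad} where
  toFun g := (g : Equiv.Perm GolayPt).subtypePerm (fun x => mem_dodecad_iff g.2 x)
  map_one' := by ext x; rfl
  map_mul' a b := by ext x; rfl

theorem card_sqD : Spor.squareDodecad.card = 12 := by decide +kernel

open scoped Pointwise in
theorem dodHom_injective : Function.Injective dodHom := by
  rw [injective_iff_map_eq_one]
  intro g hg
  have hfix : ∀ x ∈ Spor.squareDodecad, (g : Equiv.Perm GolayPt) x = x := by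
    intro x hx
    have h1 := congrArg (fun p : Equiv.Perm {x : GolayPt // x ∈ Spor.squareDodecad} =>
      ((p ⟨x, hx⟩ : {x : GolayPt // x ∈ Spor.squareDodecad}) : GolayPt)) hg
    exact h1
  obtain ⟨T, hT, hTc⟩ := Finset.exists_subset_card_eq (s := Spor.squareDodecad) (n := 5)
    (by rw [card_sqD]; norm_num)
  let a : Fin 5 → GolayPt := fun i => (T.equivFinOfCardEq hTc).symm i
  have ha : Function.Injective a := Subtype.val_injective.comp (Equiv.injective _)
  have hat : ∀ i, a i ∈ Spor.squareDodecad := fun i => hT ((T.equivFinOfCardEq hTc).symm i).2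
  obtain ⟨k, -, hk⟩ := SporadicStructure.DodecadM12.exists_unique_dodecad_map _ _
    Schreier.MTwelve.squareDodecad_mem Schreier.MTwelve.squareDodecad_mem a a ha ha hat hat
  have h1 := hk (g : Equiv.Perm GolayPt) ⟨g.2.1, g.2.2, fun i => hfix _ (hat i)⟩
  have h2 := hk 1 ⟨one_mem _, one_smul _ _, fun i => rfl⟩
  exact Subtype.ext (h1.trans h2.symm)

theorem not_ratl_m12 {G : Type u} [Group G] [Finite G] (h : Spor.IsoM12 G) : ¬ Ratl G := by
  have hc := NotCT.Orders.m12 h
  obtain ⟨e⟩ := h
  exact not_ratl_of_perm (dodHom.comp e.toMonoidHom)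
    (dodHom_injective.comp e.injective) 11 8640 (by norm_num)
    (by rw [Fintype.card_coe, card_sqD])
    (by rw [hc]) (by norm_num) (by norm_num)

theorem not_ratl_j1 {G : Type u} [Group G] [Finite G] (h : Spor.IsoJ1 G) : ¬ Ratl G := by
  have hc := NotCT.Orders.j1 h
  intro hR
  obtain ⟨x, hx, k, s, hk, hs, hs1⟩ := sylow_arith (r := 19) (hR.orat 1) (by norm_num)
    (Nat.coprime_one_right _) (by rw [hc]; norm_num) (by rw [hc]; norm_num)
  rw [hc] at hs
  have h1 : 18 ∣ 175560 := by
    refine ⟨s * (19 * k), ?_⟩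
    rw [hs]; ring
  norm_num at h1

end Cfsg.Agent.H689
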