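import Mathlib
import Cfsg.Agent.H689.PPart
import Cfsg.Agent.H689.FrobCore
import Cfsg.Agent.S0068
import Cfsg.Agent.SmallSimple.OrderEight

/-!
# Non-perfect groups with distinct nonlinear degrees
-/

set_option autoImplicit false
set_option linter.unusedSectionVars false

open scoped ComplexConjugate commutatorElement
open Cfsg Cfsg.Agent.Characters Cfsg.Agent.H686.CharKit Subgroup

namespace Cfsg.Agent.H689

universe u

variable {G : Type u} [Group G] [Finite G] {K H : Subgroup G}

/-- A commutative Frobenius complement is cyclic. -/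
theorem Frob.isCyclic_of_comm (F : Frob K H) (hc : ∀ a ∈ H, ∀ b ∈ H, a * b = b * a) :
    IsCyclic H := by
  have := F.normal
  have : Nontrivial K := (nontrivial_iff_ne_bot K).2 F.neK
  have := F.nilpotent
  let φ : H →* MulAut K := (MulAut.conjNormal (H := K)).comp H.subtype
  refine Solvable.FpfCyclic.isCyclic_of_fpf_nilpotent
    (fun a b => Subtype.ext (hc a a.2 b b.2)) φ ?_
  intro a ha v hv
  have h1 : (a : G) * v * (a : G)⁻¹ = v := congrArg Subtype.val hv
  exact Subtype.ext (F.fpf a a.2 (fun h => ha (Subtype.ext h)) v v.2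
    (mul_inv_eq_iff_eq_mul.1 h1))

/-- Case 1: all relevant Sylow subgroups are commutative. -/
theorem DD.case1 (h : DD G) (hnc : ¬ ∀ a b : G, a * b = b * a) (hnp : commutator G ≠ ⊤)
    (hab : ∀ p : ℕ, p.Prime → p ∣ (commutator G).index →
      ∀ P : Sylow p G, ∀ a b : P, a * b = b * a) :
    ∃ K H : Subgroup G, Frob K H ∧ IsCyclic H := by
  have hcop : (Nat.card (commutator G)).Coprime (commutator G).index := by
    by_contra hcon
    obtain ⟨p, hp, h1, h2⟩ := Nat.Prime.not_coprime_iff_dvd.1 hcon
    have : Fact p.Prime := ⟨hp⟩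
    obtain ⟨x, hx⟩ := exists_prime_orderOf_dvd_card' (G := commutator G) p h1
    have hx' : orderOf (x : G) = p := by rw [Subgroup.orderOf_coe]; exact hx
    have hpg : IsPGroup p (zpowers (x : G)) := by
      rw [IsPGroup.iff_card]
      exact ⟨1, by rw [pow_one, Nat.card_zpowers, hx']⟩
    obtain ⟨P, hP⟩ := hpg.exists_le_sylow
    have h3 := h.inf_commutator h2 P
    have h4 : commutator P = ⊥ := by
      rw [eq_bot_iff, commutator_def, Subgroup.commutator_le]
      intro a _ b _
      rw [mem_bot]
      exact commutatorElement_eq_one_iff_mul_comm.2 (hab p hp h2 P a b)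
    rw [h4, Subgroup.map_bot] at h3
    have h5 : (x : G) ∈ (P : Subgroup G) ⊓ commutator G := ⟨hP (mem_zpowers _), x.2⟩
    rw [← h3, mem_bot] at h5
    rw [h5, orderOf_one] at hx'
    exact hp.one_lt.ne hx'
  obtain ⟨A, hA⟩ := exists_right_complement'_of_coprime hcop
  have hcard : Nat.card A = (commutator G).index := hA.symm.index_eq_card.symm
  have hcomm : ∀ a ∈ A, ∀ b ∈ A, a * b = b * a := by
    intro a ha b hb
    have h1 : ⁅a, b⁆ ∈ commutator G ⊓ A :=
      ⟨commutator_mem_commutator (mem_top _) (mem_top _), by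
        rw [commutatorElement_def]
        exact A.mul_mem (A.mul_mem (A.mul_mem ha hb) (A.inv_mem ha)) (A.inv_mem hb)⟩
    rw [hA.disjoint.eq_bot, mem_bot] at h1
    exact commutatorElement_eq_one_iff_mul_comm.1 h1
  have hF : Frob (commutator G) A := by
    refine ⟨inferInstance, hA, ?_, ?_, ?_⟩
    · intro h0
      apply hnc
      intro a b
      have h1 : ⁅a, b⁆ ∈ commutator G := commutator_mem_commutator (mem_top _) (mem_top _)
      rw [h0, mem_bot] at h1
      exact commutatorElement_eq_one_iff_mul_comm.1 h1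
    · intro h0
      rw [h0, card_bot] at hcard
      exact hnp (index_eq_one.1 hcard.symm)
    · intro a ha ha1 k hk hak
      have h1 : a ∉ commutator G := by
        intro hc
        have h2 : a ∈ commutator G ⊓ A := ⟨hc, ha⟩
        rw [hA.disjoint.eq_bot, mem_bot] at h2
        exact ha1 h2
      have h2 := h.card_centralizer h1
      have h3 : A ≤ centralizer ({a} : Set G) := by
        intro b hb
        rw [mem_centralizer_singleton_iff]
        exact hcomm b hb a ha
      have h4 : A = centralizer ({a} : Set G) :=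
        Subgroup.eq_of_le_of_card_ge h3 (by rw [h2, hcard])
      have h6 : k ∈ centralizer ({a} : Set G) := mem_centralizer_singleton_iff.2 hak.symm
      rw [← h4] at h6
      have h5 : k ∈ commutator G ⊓ A := ⟨hk, h6⟩
      rw [hA.disjoint.eq_bot, mem_bot] at h5
      exact h5
  exact ⟨_, _, hF, hF.isCyclic_of_comm hcomm⟩

/-- A fixed-point-free map whose square is trivial inverts. -/
theorem inverts (C : Subgroup G) (x : G) (hx : ∀ c ∈ C, x * c * x⁻¹ ∈ C)
    (h2 : ∀ c ∈ C, x * (x * c * x⁻¹) * x⁻¹ = c) (hfpf : ∀ c ∈ C, x * c = c * x → c = 1) :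
    ∀ c ∈ C, x * c * x⁻¹ = c⁻¹ := by
  let φ : C →* C :=
    { toFun := fun c => ⟨x * c * x⁻¹, hx c c.2⟩
      map_one' := by ext; simp
      map_mul' := by intro a b; ext; simp [mul_assoc] }
  have hφ : MonoidHom.FixedPointFree φ := by
    intro c hc
    have h1 : x * (c : G) * x⁻¹ = c := congrArg Subtype.val hc
    exact Subtype.ext (hfpf c c.2 (mul_inv_eq_iff_eq_mul.1 h1))
  have hinv : Function.Involutive φ := fun c => Subtype.ext (h2 c c.2)
  intro c hc
  exact congrArg Subtype.val (congrFun (hφ.coe_eq_inv_of_involutive hinv) ⟨c, hc⟩)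

/-- The core of case 2. -/
theorem case2_core (K P : Subgroup G) (hKn : K.Normal) (hK : K.IsComplement' P) (hK1 : K ≠ ⊥)
    (hodd : ∀ k ∈ K, ∀ m : ℕ, k ^ 2 ^ m = 1 → k = 1) (hcom : commutator P = center P)
    (hcen : Nat.card (center P) = 2) (hP : ¬ ∀ a b : P, a * b = b * a)
    (hnon : ∀ x : P, x ∉ center P → ∀ k ∈ K, (x : G) * k = k * x → k = 1) :
    Frob K P ∧ Nonempty (P ≃* QuaternionGroup 2) := by
  classical
  have hsq : ∀ x : P, x * x ∈ center P := by
    intro y
    rw [mem_center_iff]
    intro x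
    have h1 : ⁅x, y⁆ ∈ commutator P := commutator_mem_commutator (mem_top _) (mem_top _)
    have h1' : ⁅x, y⁆ ∈ center P := by rw [← hcom]; exact h1
    have h2 : ⁅x, y⁆ * ⁅x, y⁆ = 1 := by
      have := pow_card_eq_one' (x := (⟨⁅x, y⁆, h1'⟩ : center P))
      rw [hcen] at this
      have h3 := congrArg Subtype.val this
      rw [← pow_two]
      exact h3
    have h3 := mem_center_iff.1 h1'
    have h4 : x * y * x⁻¹ = ⁅x, y⁆ * y := by rw [commutatorElement_def]; group
    have h5 : x * (y * y) * x⁻¹ = y * y := by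
      calc x * (y * y) * x⁻¹ = (x * y * x⁻¹) * (x * y * x⁻¹) := by group
        _ = ⁅x, y⁆ * (y * ⁅x, y⁆) * y := by rw [h4]; group
        _ = (⁅x, y⁆ * ⁅x, y⁆) * (y * y) := by rw [h3 y]; group
        _ = y * y := by rw [h2, one_mul]
    exact mul_inv_eq_iff_eq_mul.1 h5
  have htwo : ∀ x ∈ center P, ∀ y ∈ center P, x ≠ 1 → y = 1 ∨ y = x := by
    intro x hx y hy hx1
    by_contra hcon
    push Not at hcon
    have h1 : ({1, ⟨x, hx⟩, ⟨y, hy⟩} : Finset (center P)).card = 3 := by
      rw [Finset.card_insert_of_notMem, Finset.card_insert_of_notMem, Finset.card_singleton]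
      · rw [Finset.mem_singleton]
        exact fun h => hcon.2 (congrArg Subtype.val h).symm
      · rw [Finset.mem_insert, Finset.mem_singleton]
        rintro (h | h)
        · exact hx1 (congrArg Subtype.val h).symm
        · exact hcon.1 (congrArg Subtype.val h).symm
    have := Fintype.ofFinite (center P)
    have h2 := Finset.card_le_univ ({1, ⟨x, hx⟩, ⟨y, hy⟩} : Finset (center P))
    rw [h1, ← Nat.card_eq_fintype_card, hcen] at h2
    omega
  have hF : Frob K P := by
    refine ⟨hKn, hK, hK1, ?_, ?_⟩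
    · intro h0
      apply hP
      intro a b
      have ha : (a : G) = 1 := mem_bot.1 (h0.le a.2)
      have hb : (b : G) = 1 := mem_bot.1 (h0.le b.2)
      exact Subtype.ext (by simp [ha, hb])
    · intro x hx hx1 k hk hxk
      by_cases hxc : (⟨x, hx⟩ : P) ∈ center P
      swap
      · exact hnon ⟨x, hx⟩ hxc k hk hxk
      let C : Subgroup G := K ⊓ centralizer ({x} : Set G)
      have hkC : k ∈ C := ⟨hk, mem_centralizer_singleton_iff.2 hxk.symm⟩
      have hnorm : ∀ y : P, ∀ c ∈ C, (y : G) * c * (y : G)⁻¹ ∈ C := by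
        rintro y c ⟨hc, hcx⟩
        refine ⟨hKn.conj_mem c hc y, mem_centralizer_singleton_iff.2 ?_⟩
        have h1 : (y : G) * x = x * y := congrArg Subtype.val (mem_center_iff.1 hxc y)
        have h2 := mem_centralizer_singleton_iff.1 hcx
        have h3 : (y : G)⁻¹ * x = x * (y : G)⁻¹ := by
          rw [inv_mul_eq_iff_eq_mul, ← mul_assoc, h1]; group
        calc (y : G) * c * (y : G)⁻¹ * x = y * (c * ((y : G)⁻¹ * x)) := by group
          _ = y * (c * x) * (y : G)⁻¹ := by rw [h3]; group
          _ = (y * x) * c * (y : G)⁻¹ := by rw [h2]; group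
          _ = x * (y * c * (y : G)⁻¹) := by rw [h1]; group
      have hinv : ∀ y : P, y ∉ center P → ∀ c ∈ C, (y : G) * c * (y : G)⁻¹ = c⁻¹ := by
        intro y hy
        refine inverts C y (hnorm y) ?_ ?_
        · rintro c ⟨hc, hcx⟩
          have h2 := mem_centralizer_singleton_iff.1 hcx
          have h1 : ((y : G) * y) * c = c * (y * y) := by
            rcases htwo _ hxc _ (hsq y) (fun h => hx1 (congrArg Subtype.val h)) with h3 | h3
            · have h4 : (y : G) * y = 1 := congrArg Subtype.val h3
              rw [h4, one_mul, mul_one]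
            · have h4 : (y : G) * y = x := congrArg Subtype.val h3
              rw [h4, h2]
          calc (y : G) * (y * c * (y : G)⁻¹) * (y : G)⁻¹ = ((y : G) * y) * c * ((y : G) * y)⁻¹ := by
                group
            _ = c := by rw [h1]; group
        · rintro c ⟨hc, -⟩ hcy
          exact hnon y hy c hc hcy
      -- two noncommuting elements
      push Not at hP
      obtain ⟨a, b, hab⟩ := hP
      have ha : a ∉ center P := fun h => hab (mem_center_iff.1 h b).symm
      have hb : b ∉ center P := fun h => hab (mem_center_iff.1 h a)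
      have hab' : a * b ∉ center P := by
        intro h
        apply hab
        have := mem_center_iff.1 h a
        have h2 : a * (a * b) = a * (b * a) := by rw [this]; group
        exact mul_left_cancel h2
      have h1 := hinv _ hab' k hkC
      have h2 := hinv b hb k hkC
      have h3 := hinv a ha k⁻¹ (C.inv_mem hkC)
      have h4 : k = k⁻¹ := by
        calc k = (a : G) * k⁻¹ * (a : G)⁻¹ := by rw [h3, inv_inv]
          _ = (a : G) * (b * k * (b : G)⁻¹) * (a : G)⁻¹ := by rw [h2]
          _ = ((a * b : P) : G) * k * ((a * b : P) : G)⁻¹ := by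
              rw [Subgroup.coe_mul]; group
          _ = k⁻¹ := h1
      refine hodd k hk 1 ?_
      rw [pow_one, pow_two]
      nth_rewrite 2 [h4]
      exact mul_inv_cancel k
  refine ⟨hF, ?_⟩
  -- the unique involution
  have h2P : 2 ∣ Nat.card P := by rw [← hcen]; exact card_subgroup_dvd_card _
  obtain ⟨⟨s, hsP, hs2, hsu, -⟩, -⟩ := S0068.result K P hK hF.neK (by
    intro x hx hx1
    rw [eq_bot_iff]
    rintro k ⟨hk, hkx⟩
    exact hF.fpf x hx hx1 k hk (mem_centralizer_singleton_iff.1 hkx).symm) h2P
  have hs1 : s ≠ 1 := by rintro rfl; rw [orderOf_one] at hs2; omega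
  have hinv : ∀ x : P, x * x = 1 → x = 1 ∨ (x : G) = s := by
    intro x hx
    by_cases hx1 : x = 1
    · exact Or.inl hx1
    · refine Or.inr (hsu x x.2 ?_)
      rw [Subgroup.orderOf_coe]
      exact orderOf_eq_prime (by rw [pow_two]; exact hx) hx1
  have hsc : (⟨s, hsP⟩ : P) ∈ center P := by
    obtain ⟨t, ht⟩ := exists_prime_orderOf_dvd_card' (G := center P) 2 (by rw [hcen])
    have h1 : orderOf ((t : P) : G) = 2 := by
      rw [Subgroup.orderOf_coe, Subgroup.orderOf_coe]; exact ht
    have h2 := hsu _ (t : P).2 h1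
    have h3 : (⟨s, hsP⟩ : P) = t := Subtype.ext h2.symm
    rw [h3]; exact t.2
  have hcard : Nat.card P = 8 := by
    push Not at hP
    obtain ⟨a, b, hab⟩ := hP
    have ha : a ∉ center P := fun h => hab (mem_center_iff.1 h b).symm
    have hs1' : (⟨s, hsP⟩ : P) ≠ 1 := fun h => hs1 (congrArg Subtype.val h)
    have hss : (⟨s, hsP⟩ : P) * ⟨s, hsP⟩ = 1 := by
      have := pow_orderOf_eq_one s
      rw [hs2, pow_two] at this
      exact Subtype.ext this
    have haa : a * a = ⟨s, hsP⟩ := by
      rcases htwo _ hsc _ (hsq a) hs1' with h1 | h1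
      · exfalso
        rcases hinv a h1 with h2 | h2
        · exact ha (h2 ▸ one_mem _)
        · have h3 : a = ⟨s, hsP⟩ := Subtype.ext h2
          exact ha (h3 ▸ hsc)
      · exact h1
    have hsub : ∀ y : P, y ∈ centralizer ({a} : Set P) →
        y ∈ ({1, ⟨s, hsP⟩, a⁻¹, ⟨s, hsP⟩ * a⁻¹} : Set P) := by
      intro y hy
      rw [mem_centralizer_singleton_iff] at hy
      rcases htwo _ hsc _ (hsq y) hs1' with h1 | h1
      · rcases hinv y h1 with h2 | h2
        · exact Or.inl h2
        · exact Or.inr (Or.inl (Subtype.ext h2))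
      · have h2 : (y * a) * (y * a) = 1 := by
          calc (y * a) * (y * a) = y * (a * y) * a := by group
            _ = (y * y) * (a * a) := by rw [← hy]; group
            _ = 1 := by rw [h1, haa, hss]
        rcases hinv _ h2 with h3 | h3
        · exact Or.inr (Or.inr (Or.inl (eq_inv_of_mul_eq_one_left h3)))
        · refine Or.inr (Or.inr (Or.inr ?_))
          have h4 : y * a = ⟨s, hsP⟩ := Subtype.ext h3
          rw [Set.mem_singleton_iff, ← h4]; group
    have hle : Nat.card (centralizer ({a} : Set P)) ≤ 4 := by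
      have h1 : (centralizer ({a} : Set P) : Set P) ⊆
          ((({1, ⟨s, hsP⟩, a⁻¹, ⟨s, hsP⟩ * a⁻¹} : Finset P)) : Set P) := by
        intro y hy
        have := hsub y hy
        simpa using this
      have h2 := Set.ncard_le_ncard h1 (Finset.finite_toSet _)
      rw [Set.ncard_coe_finset] at h2
      exact h2.trans Finset.card_le_four
    have h1 := (index_commutator_le a).trans hle
    have h2 := (commutator P).card_mul_index
    rw [hcom, hcen, ← hcom] at h2
    have h4 : 4 ∣ Nat.card (centralizer ({a} : Set P)) := by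
      have h5 : orderOf a = 2 ^ 2 := by
        refine orderOf_eq_prime_pow ?_ ?_
        · rw [pow_one, pow_two, haa]; exact hs1'
        · rw [pow_succ, pow_one, pow_mul, pow_two a, haa, pow_two, hss]
      have h6 : zpowers a ≤ centralizer ({a} : Set P) := by
        rw [zpowers_le, mem_centralizer_singleton_iff]
      have h7 := card_dvd_of_le h6
      rw [Nat.card_zpowers, h5] at h7
      exact h7
    have h5 : centralizer ({a} : Set P) ≠ ⊤ := by
      intro h6
      have h7 : b ∈ centralizer ({a} : Set P) := by rw [h6]; exact mem_top _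
      rw [mem_centralizer_singleton_iff] at h7
      exact hab h7.symm
    have h6 := (centralizer ({a} : Set P)).card_mul_index
    have h7 : 1 < (centralizer ({a} : Set P)).index := by
      have h8 : (centralizer ({a} : Set P)).index ≠ 0 := index_ne_zero_of_finite
      have h9 : (centralizer ({a} : Set P)).index ≠ 1 := fun h => h5 (index_eq_one.1 h)
      omega
    have h8 : 4 ≤ Nat.card (centralizer ({a} : Set P)) := Nat.le_of_dvd Nat.card_pos h4
    have h9 : 8 ≤ Nat.card P := by rw [← h6]; nlinarith
    omega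
  rcases SmallSimple.OrderEight.dihedral_or_quaternion_of_card_eight hcard (by
    intro h1; exact hP (fun a b => h1.is_comm.comm a b)) with ⟨⟨f⟩⟩ | h1
  · exfalso
    have h1 : ∀ d : DihedralGroup 4, d * d = 1 → d ≠ 1 → f.symm d = ⟨s, hsP⟩ := by
      intro d hd hd1
      rcases hinv (f.symm d) (by rw [← map_mul, hd, map_one]) with h2 | h2
      · exact absurd (f.symm.injective (h2.trans (map_one f.symm).symm)) hd1
      · exact Subtype.ext h2
    have h2 := (h1 (DihedralGroup.r 2) (by decide) (by decide)).trans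
      (h1 (DihedralGroup.sr 0) (by decide) (by decide)).symm
    exact absurd (f.symm.injective h2) (by decide)
  · exact h1

/-- Case 2: some relevant Sylow subgroup is not commutative. -/
theorem DD.case2 (h : DD G) {p : ℕ} [hp : Fact p.Prime] (hd : p ∣ (commutator G).index)
    (P : Sylow p G) (hP : ¬ ∀ a b : P, a * b = b * a) :
    IsExtraspecial 2 G ∨
      ∃ K H : Subgroup G, Frob K H ∧ Nonempty (H ≃* QuaternionGroup 2) := by
  obtain ⟨K, hKn, hK⟩ := h.exists_complement hd P
  let e : G ⧸ K ≃* P := hK.symm.QuotientMulEquiv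
  have hDP : DD (P : Subgroup G) :=
    h.of_surjective (e.toMonoidHom.comp (QuotientGroup.mk' K))
      (e.surjective.comp (QuotientGroup.mk'_surjective K))
  rcases hDP.pGroup P.isPGroup' with h1 | ⟨rfl, hext⟩
  · exact absurd h1 hP
  have hKc : K ≤ commutator G := h.le_commutator K (by
    intro h2
    apply hP
    intro a b
    have := h2 (e.symm a) (e.symm b)
    rw [← map_mul, ← map_mul] at this
    exact e.symm.injective this)
  -- the index of the derived subgroup
  have hidx : (commutator G).index = (commutator P).index := by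
    have h2 : (commutator (G ⧸ K)).index = (commutator G).index := by
      have h3 : (commutator G).map (QuotientGroup.mk' K) = commutator (G ⧸ K) := by
        rw [commutator_def, commutator_def, map_commutator, ← MonoidHom.range_eq_map,
          (MonoidHom.range_eq_top).2 (QuotientGroup.mk'_surjective K)]
      rw [← h3]
      exact index_map_eq _ (QuotientGroup.mk'_surjective K) (by
        rw [QuotientGroup.ker_mk']; exact hKc)
    rw [← h2]
    have h4 : (commutator (G ⧸ K)).map (e : (G ⧸ K) →* P) = commutator P := by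
      rw [commutator_def, commutator_def, map_commutator, ← MonoidHom.range_eq_map,
        (MonoidHom.range_eq_top).2 e.surjective]
    rw [← h4, index_map_equiv]
  by_cases hK1 : K = ⊥
  · left
    subst hK1
    exact H446.ExtraAct.isExtraspecial_of_equiv
      (e.symm.trans (QuotientGroup.quotientBot)) hext
  right
  obtain ⟨⟨-, -, hcom⟩, hcen⟩ := hext
  obtain ⟨n, hn⟩ := IsPGroup.iff_card.1 P.isPGroup'
  have hodd : ∀ k ∈ K, ∀ m : ℕ, k ^ 2 ^ m = 1 → k = 1 := by
    intro k hk m hm
    have h2 : Nat.card K = (P : Subgroup G).index := hK.index_eq_card.symm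
    have h3 : ¬ 2 ∣ Nat.card K := by rw [h2]; exact P.not_dvd_index
    have h4 : orderOf k ∣ 2 ^ m := orderOf_dvd_of_pow_eq_one hm
    have h5 : orderOf k ∣ Nat.card K := by
      rw [show k = ((⟨k, hk⟩ : K) : G) from rfl, Subgroup.orderOf_coe]
      exact orderOf_dvd_natCard _
    obtain ⟨i, -, hi⟩ := (Nat.dvd_prime_pow Nat.prime_two).1 h4
    rcases Nat.eq_zero_or_pos i with h0 | h0
    · rw [h0, pow_zero] at hi
      exact orderOf_eq_one_iff.1 hi
    · exact absurd ((dvd_pow_self 2 h0.ne').trans (hi ▸ h5)) h3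
  have hinf := h.inf_commutator hd P
  -- noncentral elements of `P` act fixed point freely
  have hnon : ∀ x : P, x ∉ center P → ∀ k ∈ K, (x : G) * k = k * x → k = 1 := by
    intro x hx k hk hxk
    have h1 : (x : G) ∉ commutator G := by
      intro hc
      have h2 : (x : G) ∈ (commutator P).map (P : Subgroup G).subtype := by
        rw [hinf]; exact ⟨x.2, hc⟩
      obtain ⟨y, hy, hyx⟩ := h2
      have h3 : y = x := Subtype.ext hyx
      rw [h3, hcom] at hy
      exact hx hy
    have h2 := h.card_centralizer h1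
    have h3 : (commutator P).index ∣ 2 ^ n := by
      rw [← hn]; exact index_dvd_card _
    obtain ⟨i, -, hi⟩ := (Nat.dvd_prime_pow Nat.prime_two).1 h3
    rw [hidx, hi] at h2
    have h4 : k ∈ centralizer ({(x : G)} : Set G) := mem_centralizer_singleton_iff.2 hxk.symm
    have h5 : (⟨k, h4⟩ : centralizer ({(x : G)} : Set G)) ^ 2 ^ i = 1 := by
      rw [← h2]; exact pow_card_eq_one'
    exact hodd k hk i (congrArg Subtype.val h5)
  obtain ⟨h1, h2⟩ := case2_core K (P : Subgroup G) hKn hK hK1 hodd hcom hcen hP hnon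
  exact ⟨K, P, h1, h2⟩

/-- Non-perfect groups with distinct nonlinear degrees. -/
theorem DD.nonperfect (h : DD G) (hnc : ¬ ∀ a b : G, a * b = b * a) (hnp : commutator G ≠ ⊤) :
    IsExtraspecial 2 G ∨
      ∃ K H : Subgroup G, Frob K H ∧ (Nonempty (H ≃* QuaternionGroup 2) ∨ IsCyclic H) := by
  by_cases hab : ∀ p : ℕ, p.Prime → p ∣ (commutator G).index →
      ∀ P : Sylow p G, ∀ a b : P, a * b = b * a
  · obtain ⟨K, H, hF, hc⟩ := h.case1 hnc hnp hab
    exact Or.inr ⟨K, H, hF, Or.inr hc⟩
  · push Not at hab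
    obtain ⟨p, hp, hd, P, a, b, hab⟩ := hab
    have : Fact p.Prime := ⟨hp⟩
    rcases h.case2 hd P (fun hc => hab (hc a b)) with h1 | ⟨K, H, hF, hc⟩
    · exact Or.inl h1
    · exact Or.inr ⟨K, H, hF, Or.inl hc⟩

/-- The form of the statement. -/
theorem DD.nonperfect' (h : DD G) (hnp : commutator G ≠ ⊤) :
    (IsMulCommutative G ∨ IsExtraspecial 2 G ∨
        ∃ (H K : Subgroup G) (q n : ℕ), q.Prime ∧ IsFrobeniusComplement H ∧
          frobeniusKernel H = (K : Set G) ∧ K.Normal ∧
          IsElementaryAbelian q K ∧ Nat.card K = q ^ n ∧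
          ((Nonempty (H ≃* QuaternionGroup 2) ∧ q ^ n = 9) ∨
            (IsCyclic H ∧ Nat.card H = q ^ n - 1))) := by
  by_cases hc : ∀ a b : G, a * b = b * a
  · exact Or.inl ⟨⟨hc⟩⟩
  rcases h.nonperfect hc hnp with h1 | ⟨K, H, F, h1⟩
  · exact Or.inr (Or.inl h1)
  refine Or.inr (Or.inr ?_)
  have hK := F.kernel_comm h
  have hcard := F.card_eq h hK
  obtain ⟨q, n, hq, hpow, hn⟩ := F.exists_prime hcard
  refine ⟨H, K, q, n, hq, F.isFC, F.kernel, F.normal,
    ⟨⟨⟨fun a b => Subtype.ext (hK a a.2 b b.2)⟩⟩, hpow⟩, hn, ?_⟩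
  rcases h1 with h1 | h1
  · left
    refine ⟨h1, ?_⟩
    obtain ⟨e⟩ := h1
    rw [← hn, hcard, Nat.card_congr e.toEquiv, Nat.card_eq_fintype_card, QuaternionGroup.card]
  · right
    exact ⟨h1, by omega⟩

end Cfsg.Agent.H689
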