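import Mathlib
import Cfsg.Agent.H689.ClaOrth
import Cfsg.Agent.ClassicalGeometry.IsoTransfer
import Cfsg.Agent.ClassicalGeometry.OrthDickson

/-!
# `Ω⁺ 8 2` has an automorphism which does not preserve the classes
-/

set_option autoImplicit false
set_option linter.unusedSectionVars false

open Cfsg Matrix Polynomial

namespace Cfsg.Agent.H689

universe u

theorem not_ratl_of_index_two {Γ : Type u} [Group Γ] [Finite Γ] (Ω : Subgroup Γ) [Ω.Normal]
    (hidx : Ω.index = 2) (hZ : Nat.card (Subgroup.center Ω) = 1) (g : Γ) {m : ℕ} (hm : Odd m)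
    (hg : g ^ m = 1) (hC : ∀ c : Γ, c * g = g * c → c ^ m = 1) :
    ¬ Ratl (Ω ⧸ Subgroup.center Ω) := by
  intro h
  have hbot : Subgroup.center Ω = ⊥ := Subgroup.card_eq_one.1 hZ
  have h1 : Ratl Ω := h.of_equiv
    ((QuotientGroup.quotientMulEquivOfEq hbot).trans QuotientGroup.quotientBot)
  have hodd : ∀ c : Γ, c ^ m = 1 → c ∈ Ω := by
    intro c hc
    obtain ⟨k, hk⟩ := hm
    have h2 : c ^ 2 ∈ Ω := by
      have := Ω.pow_index_mem c
      rwa [hidx] at this
    have h3 : c * (c ^ 2) ^ k = 1 := by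
      rw [← pow_mul, ← pow_succ', ← hk, hc]
    have h4 : c = ((c ^ 2) ^ k)⁻¹ := eq_inv_of_mul_eq_one_left h3
    rw [h4]
    exact Ω.inv_mem (Ω.pow_mem h2 k)
  obtain ⟨r, hr⟩ : ∃ r : Γ, r ∉ Ω := by
    by_contra hno
    push Not at hno
    have : Ω = ⊤ := eq_top_iff.2 (fun x _ => hno x)
    rw [this, Subgroup.index_top] at hidx
    norm_num at hidx
  have hgΩ : g ∈ Ω := hodd g hg
  obtain ⟨t, ht⟩ := isConj_iff.1 (h1.aut (MulAut.conjNormal r) ⟨g, hgΩ⟩)
  have h2 : (t : Γ) * g * (t : Γ)⁻¹ = r * g * r⁻¹ := by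
    have h3 := congrArg Subtype.val ht
    rw [MulAut.conjNormal_apply] at h3
    exact h3
  apply hr
  have h3 : (r⁻¹ * t) * g = g * (r⁻¹ * t) := by
    calc (r⁻¹ * t) * g = r⁻¹ * (t * g * (t : Γ)⁻¹) * t := by group
      _ = r⁻¹ * (r * g * r⁻¹) * t := by rw [h2]
      _ = g * (r⁻¹ * t) := by group
  have h4 := hodd _ (hC _ h3)
  have h5 : r⁻¹ ∈ Ω := by
    have h6 := Ω.mul_mem h4 (Ω.inv_mem t.2)
    rwa [mul_assoc, mul_inv_cancel, mul_one] at h6
  have h6 := Ω.inv_mem h5
  rwa [inv_inv] at h6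

theorem commute_pow {K : Type*} [Field K] [Fintype K] {ι : Type*} [Fintype ι] [DecidableEq ι]
    (G C : Matrix ι ι K) {k : ℕ} (hG : G ^ (Fintype.card K ^ k) = G) (v : ι → K)
    (hv : ∀ j, ∃ p : K[X], (aeval G p).mulVec v = Pi.single j 1) (hC : C * G = G * C) :
    C ^ (Fintype.card K ^ k) = C := by
  classical
  have hw : ∀ w : ι → K, ∃ p : K[X], (aeval G p).mulVec v = w := by
    intro w
    choose p hp using hv
    refine ⟨∑ j, Polynomial.C (w j) * p j, ?_⟩
    rw [map_sum, Matrix.sum_mulVec]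
    have h1 : ∀ j, (aeval G (Polynomial.C (w j) * p j)).mulVec v = w j • Pi.single j (1 : K) := by
      intro j
      rw [map_mul, aeval_C, ← Matrix.mulVec_mulVec, hp, Algebra.algebraMap_eq_smul_one,
        Matrix.smul_mulVec, Matrix.one_mulVec]
    rw [Finset.sum_congr rfl (fun j _ => h1 j)]
    ext i
    simp [Finset.sum_apply, Pi.single_apply]
  obtain ⟨p, hp⟩ := hw (C.mulVec v)
  have hcomm : ∀ s : K[X], C * aeval G s = aeval G s * C := by
    intro s
    induction s using Polynomial.induction_on' with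
    | add a b ha hb => rw [map_add, mul_add, ha, hb, add_mul]
    | monomial n a =>
      rw [aeval_monomial]
      have h1 : C * G ^ n = G ^ n * C := ((show Commute C G from hC).pow_right n).eq
      rw [← mul_assoc, (Algebra.commutes a C).symm, mul_assoc, h1, mul_assoc]
  have hCp : C = aeval G p := by
    apply Matrix.toLin'.injective
    refine LinearMap.ext (fun w => ?_)
    obtain ⟨s, rfl⟩ := hw w
    rw [Matrix.toLin'_apply, Matrix.toLin'_apply, Matrix.mulVec_mulVec, hcomm,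
      ← Matrix.mulVec_mulVec, ← hp, Matrix.mulVec_mulVec, Matrix.mulVec_mulVec, ← map_mul,
      ← map_mul, mul_comm]
  have hexp : ∀ j : ℕ, p ^ (Fintype.card K ^ j) = expand K (Fintype.card K ^ j) p := by
    intro j
    induction j with
    | zero => rw [pow_zero, pow_one, expand_one]
    | succ j ih =>
      rw [pow_succ, pow_mul, ih, ← FiniteField.expand_card, expand_expand, mul_comm]
  rw [hCp, ← map_pow, hexp, expand_aeval, hG]

namespace OEight

/-- Bool to `ZMod 2` -/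
def bz (b : Bool) : ZMod 2 := cond b 1 0

/-- the position of a coordinate -/
def cd : Fin 4 ⊕ Fin 4 → ℕ
  | Sum.inl i => i
  | Sum.inr i => 4 + i

/-- the matrix with the given bits -/
def mt (A : ℕ) : Matrix (Fin 4 ⊕ Fin 4) (Fin 4 ⊕ Fin 4) (ZMod 2) :=
  Matrix.of fun i j => bz (A.testBit (8 * cd i + cd j))

theorem sq0 : mt 0x4020109004020908 * mt 0x4020109004020908 = mt 0x201090d002090c04 := by
  decide +kernel

theorem sq1 : mt 0x201090d002090c04 * mt 0x201090d002090c04 = mt 0x90d0f0e00c060b09 := by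
  decide +kernel

theorem sq2 : mt 0x90d0f0e00c060b09 * mt 0x90d0f0e00c060b09 = mt 0x70a050b00a0d0e05 := by
  decide +kernel

theorem sq3 : mt 0x70a050b00a0d0e05 * mt 0x70a050b00a0d0e05 = mt 0x4020109004020908 := by
  decide +kernel

/-- the element of order 15 -/
def G : Matrix (Fin 4 ⊕ Fin 4) (Fin 4 ⊕ Fin 4) (ZMod 2) := mt 0x4020109004020908

theorem G_pow : G ^ (2 ^ 4) = G := by
  have h1 : ∀ M : Matrix (Fin 4 ⊕ Fin 4) (Fin 4 ⊕ Fin 4) (ZMod 2),
      M ^ (2 ^ 4) = (((M ^ 2) ^ 2) ^ 2) ^ 2 := by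
    intro M
    rw [← pow_mul, ← pow_mul, ← pow_mul]
    congr 1
  rw [h1, pow_two, pow_two, pow_two, pow_two, G, sq0, sq1, sq2, sq3]

/-- the inverse -/
def H : Matrix (Fin 4 ⊕ Fin 4) (Fin 4 ⊕ Fin 4) (ZMod 2) := mt 0x3080402001080403

theorem G_mul_H : G * H = 1 := by decide +kernel

theorem H_mul_G : H * G = 1 := by decide +kernel

/-- Krylov vectors -/
def kv (i : ℕ) : Fin 4 ⊕ Fin 4 → ZMod 2 := fun a => bz ((0xebfc763318844221).testBit (8 * i + cd a))

/-- coefficients -/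
def cf (j : Fin 4 ⊕ Fin 4) (i : ℕ) : ZMod 2 := bz ((0x79e1adf2fa7de3ac).testBit (8 * cd j + i))

theorem kv_succ : ∀ i < 7, G.mulVec (kv i) = kv (i + 1) := by decide +kernel

theorem kv_sum : ∀ j : Fin 4 ⊕ Fin 4, ∑ i : Fin 8, cf j i • kv i = Pi.single j 1 := by
  decide +kernel

theorem kv_eq : ∀ i < 8, (G ^ i).mulVec (kv 0) = kv i := by
  intro i
  induction i with
  | zero => intro _; rw [pow_zero, Matrix.one_mulVec]
  | succ i ih =>
    intro h
    rw [pow_succ', ← Matrix.mulVec_mulVec, ih (by omega), kv_succ i (by omega)]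

theorem exists_poly (j : Fin 4 ⊕ Fin 4) :
    ∃ p : (ZMod 2)[X], (aeval G p).mulVec (kv 0) = Pi.single j 1 := by
  refine ⟨∑ i : Fin 8, Polynomial.C (cf j i) * X ^ (i : ℕ), ?_⟩
  rw [← kv_sum j, map_sum, Matrix.sum_mulVec]
  refine Finset.sum_congr rfl (fun i _ => ?_)
  rw [map_mul, aeval_C, map_pow, aeval_X, ← Matrix.mulVec_mulVec, kv_eq i i.2,
    Algebra.algebraMap_eq_smul_one, Matrix.smul_mulVec, Matrix.one_mulVec]

theorem G_isom : ∀ v : Fin 4 ⊕ Fin 4 → ZMod 2,
    quadFormPlus 4 (ZMod 2) (G.mulVec v) = quadFormPlus 4 (ZMod 2) v := by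
  intro v
  have h1 : ∀ i j : Fin 4, (∑ k : Fin 4, G (Sum.inl k) (Sum.inl i) * G (Sum.inr k) (Sum.inr j)) =
      if i = j then 1 else 0 := by decide +kernel
  have h2 : ∀ k i : Fin 4, G (Sum.inl k) (Sum.inr i) = 0 := by decide +kernel
  have h3 : ∀ k i : Fin 4, G (Sum.inr k) (Sum.inl i) = 0 := by decide +kernel
  have h4 : ∀ k, G.mulVec v (Sum.inl k) = ∑ i, G (Sum.inl k) (Sum.inl i) * v (Sum.inl i) := by
    intro k
    simp [Matrix.mulVec, dotProduct, Fintype.sum_sum_type, h2]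
  have h5 : ∀ k, G.mulVec v (Sum.inr k) = ∑ i, G (Sum.inr k) (Sum.inr i) * v (Sum.inr i) := by
    intro k
    simp [Matrix.mulVec, dotProduct, Fintype.sum_sum_type, h3]
  unfold quadFormPlus
  have h6 : ∀ k, G.mulVec v (Sum.inl k) * G.mulVec v (Sum.inr k) =
      ∑ i, ∑ j, (v (Sum.inl i) * v (Sum.inr j)) *
        (G (Sum.inl k) (Sum.inl i) * G (Sum.inr k) (Sum.inr j)) := by
    intro k
    rw [h4, h5, Finset.sum_mul_sum]
    refine Finset.sum_congr rfl (fun i _ => Finset.sum_congr rfl (fun j _ => ?_))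
    ring
  rw [Finset.sum_congr rfl (fun k _ => h6 k), Finset.sum_comm]
  refine Finset.sum_congr rfl (fun i _ => ?_)
  rw [Finset.sum_comm]
  have h7 : ∀ j, ∑ k, (v (Sum.inl i) * v (Sum.inr j)) *
      (G (Sum.inl k) (Sum.inl i) * G (Sum.inr k) (Sum.inr j)) =
      if i = j then v (Sum.inl i) * v (Sum.inr j) else 0 := by
    intro j
    rw [← Finset.mul_sum, h1]
    split_ifs <;> simp
  rw [Finset.sum_congr rfl (fun j _ => h7 j)]
  simp

end OEight

open QuadraticMap Cfsg.Agent.LieClassical.OmegaReindex Cfsg.Agent.LieClassical.OmegaCenter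
  Cfsg.Agent.ClassicalGeometry.IsoTransfer in
theorem not_ratl_oplus_eight {F : Type} [Field F] [Fintype F] (hF : Fintype.card F = 2) :
    ¬ Ratl (POmega F (quadFormPlus 4 F)) := by
  classical
  have h20 : (2 : F) = 0 := by
    have h1 : ((Fintype.card F : ℕ) : F) = 0 := FiniteField.cast_card_eq_zero F
    rw [hF] at h1
    exact_mod_cast h1
  have hcard : Fintype.card (Fin 4 ⊕ Fin 4) = 8 := by simp
  -- the element over the prime field
  let g2 : isometryGroup (ZMod 2) (quadFormPlus 4 (ZMod 2)) :=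
    ⟨⟨OEight.G, OEight.H, OEight.G_mul_H, OEight.H_mul_G⟩,
      mem_isometryGroup_iff.2 OEight.G_isom⟩
  have hpow : ∀ c : isometryGroup (ZMod 2) (quadFormPlus 4 (ZMod 2)), c * g2 = g2 * c →
      c ^ 15 = 1 := by
    intro c hc
    have h1 : ((c : GL (Fin 4 ⊕ Fin 4) (ZMod 2)) : Matrix (Fin 4 ⊕ Fin 4) (Fin 4 ⊕ Fin 4) (ZMod 2)) *
        OEight.G = OEight.G *
        ((c : GL (Fin 4 ⊕ Fin 4) (ZMod 2)) : Matrix (Fin 4 ⊕ Fin 4) (Fin 4 ⊕ Fin 4) (ZMod 2)) :=
      congrArg (fun u : isometryGroup (ZMod 2) (quadFormPlus 4 (ZMod 2)) =>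
        ((u : GL (Fin 4 ⊕ Fin 4) (ZMod 2)) :
          Matrix (Fin 4 ⊕ Fin 4) (Fin 4 ⊕ Fin 4) (ZMod 2))) hc
    have h2 := commute_pow (k := 4) OEight.G _ (by rw [ZMod.card]; exact OEight.G_pow)
      (OEight.kv 0) OEight.exists_poly h1
    rw [ZMod.card] at h2
    have h3 : c ^ 16 = c := by
      apply Subtype.ext
      apply Units.ext
      exact h2
    have h4 : c ^ 15 * c = 1 * c := by rw [← pow_succ, h3, one_mul]
    exact mul_right_cancel h4
  -- the transfer
  obtain ⟨e⟩ : Nonempty (F ≃+* ZMod 2) := by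
    have h1 : Fintype.card F = Fintype.card (ZMod 2) := by rw [hF, ZMod.card]
    exact ⟨FiniteField.ringEquivOfCardEq h1⟩
  let E := isometryGroupCongr e (quadFormPlus 4 F) (quadFormPlus 4 (ZMod 2)) (by
    intro v
    unfold quadFormPlus
    rw [map_sum]
    simp)
  have hfin : Finite (isometryGroup F (quadFormPlus 4 F)) := inferInstance
  have hidx : (Omega F (quadFormPlus 4 F)).index = 2 := by
    have h1 := ClassicalGeometry.OrthDickson.index_commutator_two (quadPlus 4 F) h20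
      quadPlus_nondegenerate (Or.inr (by rw [hcard]; norm_num))
    rw [coe_quadPlus] at h1
    exact h1
  have hZ : Nat.card (Subgroup.center (Omega F (quadFormPlus 4 F))) = 1 := by
    have h1 := card_center_omega_two h20 (quadPlus 4 F) quadPlus_nondegenerate
      (by rw [hcard]; norm_num) (quadPlus_isotropic (by norm_num))
    rw [coe_quadPlus] at h1
    exact h1
  refine not_ratl_of_index_two (Omega F (quadFormPlus 4 F)) hidx hZ (E.symm g2) (m := 15)
    (by decide) ?_ ?_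
  · rw [← map_pow, hpow g2 rfl, map_one]
  · intro c hc
    apply E.injective
    rw [map_pow, map_one]
    apply hpow
    rw [← E.apply_symm_apply g2, ← map_mul, hc, map_mul]

end Cfsg.Agent.H689
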