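import Mathlib
import Cfsg.Agent.H689.ClaLin

/-!
# `PSU 4 2`
-/

set_option autoImplicit false
set_option linter.unusedSectionVars false

open Cfsg Matrix

namespace Cfsg.Agent.H689

universe u

theorem not_orat_psu_four {F : Type} [Field F] [Fintype F] (hF : Fintype.card F = 2 ^ 2) :
    ¬ ORat 1 (PSU 4 F 2) := by
  classical
  intro h
  -- a primitive cube root of unity
  obtain ⟨w, hw0, hw1⟩ : ∃ w : F, w ≠ 0 ∧ w ≠ 1 := by
    by_contra hno
    push Not at hno
    have h1 : (Finset.univ : Finset F) ⊆ {0, 1} := by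
      intro x _
      rw [Finset.mem_insert, Finset.mem_singleton]
      by_cases hx : x = 0
      · exact Or.inl hx
      · exact Or.inr (hno x hx)
    have h2 := Finset.card_le_card h1
    rw [Finset.card_univ, hF] at h2
    have h3 := Finset.card_insert_le (0 : F) {1}
    rw [Finset.card_singleton] at h3
    omega
  have hw3 : w ^ 3 = 1 := by
    have h1 := FiniteField.pow_card_sub_one_eq_one w hw0
    rw [hF] at h1
    exact h1
  have h20 : (2 : F) = 0 := by
    have h1 : ((Fintype.card F : ℕ) : F) = 0 := FiniteField.cast_card_eq_zero F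
    rw [hF] at h1
    have h2 : (2 : F) * 2 = 0 := by
      rw [← h1]
      push_cast
      norm_num
    rcases mul_eq_zero.1 h2 with h3 | h3 <;> exact h3
  let dv : Fin 4 → F := ![w, w, w, 1]
  have hdv : ∀ i, dv i ^ 3 = 1 := by
    intro i
    fin_cases i <;> simp [dv, hw3]
  have hdet : (Matrix.diagonal dv).det = 1 := by
    rw [Matrix.det_diagonal, Fin.prod_univ_four]
    change w * w * w * 1 = 1
    rw [mul_one, ← hw3]
    ring
  let D0 : SpecialLinearGroup (Fin 4) F := ⟨Matrix.diagonal dv, hdet⟩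
  have hD0 : D0 ∈ SU 4 F 2 := by
    intro u v
    change hermForm 4 F 2 (Matrix.diagonal dv *ᵥ u) (Matrix.diagonal dv *ᵥ v) = _
    unfold hermForm
    refine Finset.sum_congr rfl (fun i _ => ?_)
    rw [Matrix.mulVec_diagonal, Matrix.mulVec_diagonal]
    calc dv i * u i * (dv i * v i) ^ 2 = dv i ^ 3 * (u i * v i ^ 2) := by ring
      _ = u i * v i ^ 2 := by rw [hdv, one_mul]
  let D : SU 4 F 2 := ⟨D0, hD0⟩
  have hD3 : D ^ 3 = 1 := by
    apply Subtype.ext
    apply Subtype.ext
    change (Matrix.diagonal dv) ^ 3 = 1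
    rw [Matrix.diagonal_pow]
    have : dv ^ 3 = fun _ => 1 := funext hdv
    rw [this]
    exact Matrix.diagonal_one
  have ho : orderOf D ∣ 3 := orderOf_dvd_of_pow_eq_one hD3
  have hZ : Nat.card (Subgroup.center (SU 4 F 2)) = 1 := by
    rw [S0279.result hF 4 (by norm_num)]
    norm_num
  have hoq : orderOf (D : PSU 4 F 2) ∣ 3 :=
    (orderOf_map_dvd (QuotientGroup.mk' (Subgroup.center (SU 4 F 2))) D).trans ho
  have h1 := h (D : PSU 4 F 2) (Nat.coprime_one_right _) 2
    ((show Nat.Coprime 2 3 by norm_num).coprime_dvd_right hoq)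
  have h2 : IsConj D (D ^ 2) := isConj_of_quotient (Subgroup.center (SU 4 F 2)) le_rfl
    (by rw [hZ]; exact Nat.coprime_one_right _) h1
  obtain ⟨g, hg⟩ := isConj_iff.1 h2
  let φ : SU 4 F 2 →* Matrix (Fin 4) (Fin 4) F := (slToMat 4 F).comp (SU 4 F 2).subtype
  have h3 : φ g * φ D * φ g⁻¹ = φ D ^ 2 := by
    rw [← map_mul, ← map_mul, ← map_pow, hg]
  have h4 : (φ D).trace = (φ D ^ 2).trace := by
    rw [← h3, Matrix.trace_mul_comm, ← mul_assoc, ← map_mul, inv_mul_cancel, map_one, one_mul]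
  have h5 : φ D = Matrix.diagonal dv := rfl
  rw [h5, Matrix.diagonal_pow, Matrix.trace_diagonal, Matrix.trace_diagonal,
    Fin.sum_univ_four, Fin.sum_univ_four] at h4
  change w + w + w + 1 = w ^ 2 + w ^ 2 + w ^ 2 + 1 ^ 2 at h4
  have h6 : w * (w - 1) = 0 := by
    linear_combination h4 + (2 * w ^ 2 - 2 * w) * h20
  rcases mul_eq_zero.1 h6 with h7 | h7
  · exact hw0 h7
  · exact hw1 (sub_eq_zero.1 h7)

end Cfsg.Agent.H689
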