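import Mathlib
import Cfsg.Prelude.Def_Spor_B
import Cfsg.Agent.H689.SporCo12
import Cfsg.Agent.H689.ExcTE
import Cfsg.Agent.BabyM.Instance
import Cfsg.Agent.BabyM.AbsFinal
import Cfsg.Agent.BM.StageWSurj
import Cfsg.Agent.Schreier.CoTwoStab

/-!
# The Baby Monster
-/

set_option autoImplicit false
set_option linter.unusedSectionVars false

open Cfsg Subgroup

namespace Cfsg.Agent.H689

universe u

open BabyM BabyM.Model in
theorem not_ratl_bmodel {W : Type} [AddCommGroup W] [Module ℚ W] {M : BData W} {K₀ : Type}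
    [Group K₀] (A : BAll M K₀) (e : K₀ ≃* Spor.Co2) : ¬ Ratl M.G := by
  intro h
  have hf := A.finite_G
  have hzG : M.z ∈ M.G := A.C_le_G (A.grp.Q_le A.grp.z_mem)
  let z : M.G := ⟨M.z, hzG⟩
  have hz : orderOf z = 2 := by
    refine orderOf_eq_prime ?_ ?_
    · rw [pow_two]
      exact Subtype.ext A.grp.z_sq
    · intro h1
      exact A.grp.z_ne (congrArg Subtype.val h1)
  have h1 := h.cent hz
  obtain ⟨π, hπ, -⟩ := A.grp.quot
  let j : Subgroup.centralizer ({z} : Set M.G) →* M.C :=
    { toFun := fun g => ⟨((g : M.G) : W ≃ₗ[ℚ] W), A.cent_z _ (g : M.G).2 (by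
        have h2 := Subgroup.mem_centralizer_singleton_iff.1 g.2
        exact congrArg Subtype.val h2)⟩
      map_one' := rfl
      map_mul' := fun _ _ => rfl }
  have hj : Function.Surjective j := by
    intro c
    refine ⟨⟨⟨(c : W ≃ₗ[ℚ] W), A.C_le_G c.2⟩, ?_⟩, rfl⟩
    rw [Subgroup.mem_centralizer_singleton_iff]
    exact Subtype.ext (A.grp.z_comm _ c.2)
  have h2 := h1.of_surjective (π.comp j) (hπ.comp hj)
  have : Finite K₀ := Finite.of_surjective (π.comp j) (hπ.comp hj)
  exact not_orat_co2 ⟨e⟩ h2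

theorem not_ratl_b {G : Type u} [Group G] [Finite G] [hsim : IsSimpleGroup G] (h : Spor.IsoB G) :
    ¬ Ratl G := by
  intro hR
  obtain ⟨e⟩ := h
  have hB : IsSimpleGroup Spor.BabyMonster := e.symm.isSimpleGroup_congr.2 hsim
  have hs : Function.Surjective (BM.StageW.hom BabyM.Instance.all BabyM.Instance.ok) :=
    BM.StageW.hom_surjective BabyM.Instance.all BabyM.Instance.ok
      (BM.StageWSurj.closure_x BabyM.Instance.all BabyM.Instance.ok)
  have hi : Function.Injective (BM.StageW.hom BabyM.Instance.all BabyM.Instance.ok) := by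
    rw [← MonoidHom.ker_eq_bot_iff]
    rcases (inferInstance :
      (BM.StageW.hom BabyM.Instance.all BabyM.Instance.ok).ker.Normal).eq_bot_or_eq_top with h | h
    · exact h
    · exfalso
      have h1 := BabyM.Instance.all.simple
      obtain ⟨x, hx⟩ := exists_ne (1 : BabyM.Inst.M.G)
      obtain ⟨y, rfl⟩ := hs x
      apply hx
      have : y ∈ (BM.StageW.hom BabyM.Instance.all BabyM.Instance.ok).ker := by
        rw [h]; exact Subgroup.mem_top _
      exact this
  have E : G ≃* BabyM.Inst.M.G := e.trans (MulEquiv.ofBijective _ ⟨hi, hs⟩)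
  obtain ⟨e2⟩ := Schreier.CoTwoStab.exists_equiv _ BabyM.GroupInst.dt_l₀
  exact not_ratl_bmodel BabyM.Instance.all e2 (hR.of_equiv E)

end Cfsg.Agent.H689
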