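import Mathlib
import Cfsg.Agent.H689.Arith
import Cfsg.Agent.H689.MathPerm
import Cfsg.Agent.H689.ExcTE
import Cfsg.Agent.SigZero.CoThree
import Cfsg.Agent.SporRec.Co3.Model

/-!
# `Co₃`
-/

set_option autoImplicit false
set_option linter.unusedSectionVars false

open Cfsg Subgroup

namespace Cfsg.Agent.H689

universe u

theorem not_orat_of_perm {G : Type u} [Group G] [Finite G] {Ω : Type*} [Fintype Ω]
    (φ : G →* Equiv.Perm Ω) (hφ : Function.Injective φ) {n : ℕ} (r N : ℕ) (hr : r.Prime)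
    (hrn : r.Coprime n) (hΩ : Fintype.card Ω ≤ r + 1) (hN : Nat.card G = r * N) (hrN : ¬ r ∣ N)
    (h1 : (1 + N) % r ≠ 0) : ¬ ORat n G := by
  refine not_orat_of_self hr hrn hN hrN (fun x hx => ?_) (fun h => h1 h.2)
  have hx' : orderOf (φ x) = r := by rw [orderOf_injective φ hφ, hx]
  have hC : Subgroup.centralizer ({x} : Set G) = Subgroup.zpowers x := by
    apply le_antisymm
    · intro c hc
      rw [Subgroup.mem_centralizer_singleton_iff] at hc
      obtain ⟨i, hi⟩ := mem_zpowers_of_comm hr hΩ hx' (c := φ c) (by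
        rw [← map_mul, ← map_mul, hc])
      refine ⟨i, hφ ?_⟩
      change φ (x ^ i) = φ c
      rw [map_zpow]
      exact hi
    · rw [Subgroup.zpowers_le, Subgroup.mem_centralizer_singleton_iff]
  rw [hC, Nat.card_zpowers, hx]

theorem not_orat_m12 {G : Type u} [Group G] [Finite G] (h : Spor.IsoM12 G) : ¬ ORat 2 G := by
  have hc := NotCT.Orders.m12 h
  obtain ⟨e⟩ := h
  exact not_orat_of_perm (dodHom.comp e.toMonoidHom)
    (dodHom_injective.comp e.injective) 11 8640 (by norm_num) (by norm_num)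
    (by rw [Fintype.card_coe, card_sqD])
    (by rw [hc]) (by norm_num) (by norm_num)

open SigZero in
theorem not_ratl_co3 {G : Type u} [Group G] [Finite G] (h : Spor.IsoCo3 G) : ¬ Ratl G := by
  intro hR
  obtain ⟨e⟩ := h
  obtain ⟨e1⟩ := CoThree.exists_equiv

  have E : G ≃* CoThreeB.K := e.trans (SporRec.Co3.Model.equivCo3.symm.trans e1.symm)
  have : Finite CoThreeB.K := Finite.of_equiv _ E.toEquiv
  have hz : orderOf CoThreeB.wK = 2 :=
    orderOf_eq_prime (by rw [pow_two]; exact CoThreeB.wK_sq) CoThreeB.wK_ne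
  have h1 : ORat 2 CoThreeB.C := (hR.of_equiv E).cent hz
  have h2 := h1.of_surjective CoThreeB.proj CoThreeB.proj_surj
  exact not_orat_m12 ⟨MulEquiv.refl _⟩ h2

end Cfsg.Agent.H689
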