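import Mathlib
import Cfsg.Agent.H689.Arith
import Cfsg.Agent.H689.SporMT
import Cfsg.Agent.KFacts.HN.Cards
import Cfsg.Agent.KFacts.HN.PCard

/-!
# `HN`
-/

set_option autoImplicit false
set_option linter.unusedSectionVars false

open Cfsg Subgroup

namespace Cfsg.Agent.H689

universe u

open Cfsg.Agent.KFacts.HN Cfsg.Agent.HN.XQuot in
theorem orat_a5_of_lq (h : ORat 2 Lq) : ORat 2 (alternatingGroup (Fin 5)) := by
  intro a ha m hm
  have h1 : orderOf (φA a) = orderOf a := orderOf_injective φA φA_inj a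
  obtain ⟨g, hg⟩ := isConj_iff.1 (h (φA a) (by rw [h1]; exact ha) m (by rw [h1]; exact hm))
  rw [← map_pow] at hg
  rcases LL_or g with hL | ⟨y, hy, rfl⟩
  · obtain ⟨c, d, rfl⟩ := mem_LL.1 hL
    refine isConj_iff.2 ⟨c, φA_inj ?_⟩
    rw [← hg, map_mul, map_mul, map_inv]
    have h2 := comm_AB a d
    calc φA c * φA a * (φA c)⁻¹ = φA c * (φA a * φB d) * (φB d)⁻¹ * (φA c)⁻¹ := by group
      _ = φA c * (φB d * φA a) * (φB d)⁻¹ * (φA c)⁻¹ := by rw [h2]
      _ = _ := by group
  · -- the element is conjugate to an element of the second factor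
    obtain ⟨c, d, rfl⟩ := mem_LL.1 hy
    obtain ⟨c', d', h11⟩ := mem_LL.1 e11_mem
    have h2 : e [1] * φA a * (e [1])⁻¹ = e [1, 1] * φB a * (e [1, 1])⁻¹ := by
      rw [φB_apply, show ([1, 1] : List ℕ) = [1] ++ [1] from rfl, e_append]; group
    have hB : ∀ p q b : alternatingGroup (Fin 5), φA p * φB q * φB b * (φA p * φB q)⁻¹ =
        φB (q * b * q⁻¹) := by
      intro p q b
      have h3 := comm_AB p (q * b * q⁻¹)
      rw [map_mul, map_mul, map_inv] at h3
      calc φA p * φB q * φB b * (φA p * φB q)⁻¹ =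
          φA p * (φB q * φB b * (φB q)⁻¹) * (φA p)⁻¹ := by group
        _ = (φB q * φB b * (φB q)⁻¹) * φA p * (φA p)⁻¹ := by rw [h3]
        _ = _ := by rw [map_mul, map_mul, map_inv]; group
    have h3 : φA c * φB d * e [1] * φA a * (φA c * φB d * e [1])⁻¹ =
        φB (d * (d' * a * d'⁻¹) * d⁻¹) := by
      calc φA c * φB d * e [1] * φA a * (φA c * φB d * e [1])⁻¹ =
          (φA c * φB d) * (e [1] * φA a * (e [1])⁻¹) * (φA c * φB d)⁻¹ := by group
        _ = (φA c * φB d) * φB (d' * a * d'⁻¹) * (φA c * φB d)⁻¹ := by rw [h2, ← h11, hB]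
        _ = _ := hB _ _ _
    rw [h3] at hg
    have h4 := (A_inter_B hg.symm).2
    have h5 : a = 1 := by
      have h6 : d' * a * d'⁻¹ = 1 := by
        have := congrArg (fun z => d⁻¹ * z * d) h4
        simpa [mul_assoc] using this
      have := congrArg (fun z => d'⁻¹ * z * d') h6
      simpa [mul_assoc] using this
    rw [h5, one_pow]

open Cfsg.Agent.KFacts.HN Cfsg.Agent.HN.XQuot Cfsg.Agent.HN.XWords in
theorem not_ratl_hn {G : Type u} [Group G] [Finite G] (h : Spor.IsoHN G) : ¬ Ratl G := by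
  intro hR
  obtain ⟨f⟩ := h
  have : Finite Spor.HN := Finite.of_equiv _ f.toEquiv
  have hz : orderOf (W0 : Spor.HN) = 2 :=
    orderOf_eq_prime (by rw [pow_two]; exact W0_sq) W0_ne
  have h1 := (hR.of_equiv f).cent hz
  have h2 : ORat 2 (KK (W0 : Spor.HN)) :=
    h1.of_surjective (QuotientGroup.mk' _) (QuotientGroup.mk'_surjective _)
  have h3 : ORat 2 Lq := h2.of_surjective (QuotientGroup.mk' _) (QuotientGroup.mk'_surjective _)
  exact alt5 (orat_a5_of_lq h3)

end Cfsg.Agent.H689
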