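import Mathlib
import Cfsg.Agent.H689.Arith
import Cfsg.Agent.SporadicRecognition.HSAssemble
import Cfsg.Agent.CoOneType.Thirteen
import Cfsg.Agent.OddHalf.Small.Mathieu
import Cfsg.Agent.NotCT.Orders

/-!
# `HS`
-/

set_option autoImplicit false
set_option linter.unusedSectionVars false

open Cfsg Subgroup

namespace Cfsg.Agent.H689

universe u

section data

open MulAction Cfsg.Agent.Leech.Co0Elts Cfsg.Agent.SporadicRecognition.RankThree
  Cfsg.Agent.SporadicRecognition.TwoEmb Cfsg.Agent.SporadicRecognition.HSRank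
  Cfsg.Agent.SporadicRecognition.HSParam Cfsg.Agent.SporadicRecognition.RankThreeOf
  Cfsg.Agent.SporadicA.Co0Mono

/-- the inclusion in `M24` -/
def incl22 : Spor.M22 →* M24 := Subgroup.inclusion (fun _ h => h.1.1)

theorem incl22_none (σ : Spor.M22) : (incl22 σ : Equiv.Perm GolayPt) none = none := σ.2.1.2

theorem incl22_zero (σ : Spor.M22) : (incl22 σ : Equiv.Perm GolayPt) (some 0) = some 0 := σ.2.2

theorem symm22_none (σ : Spor.M22) (p : GolayPt) :
    ((incl22 σ : Equiv.Perm GolayPt).symm p = none) ↔ p = none := by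
  rw [Equiv.symm_apply_eq, incl22_none]

theorem symm22_zero (σ : Spor.M22) (p : GolayPt) :
    ((incl22 σ : Equiv.Perm GolayPt).symm p = some 0) ↔ p = some 0 := by
  rw [Equiv.symm_apply_eq, incl22_zero]

theorem smul22_V (σ : Spor.M22) : permCo0 (incl22 σ) • Spor.leechV = Spor.leechV := by
  apply Subtype.ext
  funext p
  rw [permCo0_smul, SporadicA.Co0Mono.permMap_apply]
  show (if (incl22 σ : Equiv.Perm GolayPt).symm p = none then (-5 : ℤ) else -1) =
    if p = none then -5 else -1
  by_cases h2 : p = none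
  · rw [if_pos h2, if_pos ((symm22_none σ p).2 h2)]
  · rw [if_neg h2, if_neg (fun h3 => h2 ((symm22_none σ p).1 h3))]

theorem smul22_U (σ : Spor.M22) : permCo0 (incl22 σ) • Spor.leechU = Spor.leechU := by
  apply Subtype.ext
  funext p
  rw [permCo0_smul, SporadicA.Co0Mono.permMap_apply]
  show (if (incl22 σ : Equiv.Perm GolayPt).symm p = none ∨
    (incl22 σ : Equiv.Perm GolayPt).symm p = some 0 then (4 : ℤ)
    else 0) = if p = none ∨ p = some 0 then 4 else 0
  by_cases h2 : p = none ∨ p = some 0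
  · rw [if_pos h2, if_pos (h2.imp (symm22_none σ p).2 (symm22_zero σ p).2)]
  · rw [if_neg h2, if_neg (fun h3 => h2 (h3.imp (symm22_none σ p).1 (symm22_zero σ p).1))]

theorem smul22_U' (σ : Spor.M22) : permCo0 (incl22 σ) • Spor.leechU' = Spor.leechU' := by
  apply Subtype.ext
  funext p
  rw [permCo0_smul, SporadicA.Co0Mono.permMap_apply]
  show (if (incl22 σ : Equiv.Perm GolayPt).symm p = none then (4 : ℤ)
    else if (incl22 σ : Equiv.Perm GolayPt).symm p = some 0 then -4 else 0) =
    if p = none then 4 else if p = some 0 then -4 else 0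
  by_cases h2 : p = none
  · rw [if_pos h2, if_pos ((symm22_none σ p).2 h2)]
  · rw [if_neg h2, if_neg (fun h3 => h2 ((symm22_none σ p).1 h3))]
    by_cases h3 : p = some 0
    · rw [if_pos h3, if_pos ((symm22_zero σ p).2 h3)]
    · rw [if_neg h3, if_neg (fun h4 => h3 ((symm22_zero σ p).1 h4))]

/-- The rank 3 action of the Higman–Sims group, with the Mathieu group as the stabilizer. -/
theorem hs_data : ∃ (H Y : Type) (_ : Group H) (_ : MulAction H Y) (_ : Finite Y) (a b c : Y),
    IsRankThree H a b c 22 77 ∧ Nat.card H = 44352000 ∧ Nonempty (H ≃* Spor.HS) ∧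
    ∃ f : Spor.M22 →* H, Function.Injective f ∧ ∀ σ, f σ • a = a := by
  classical
  obtain ⟨hs, hc⟩ := Cfsg.Agent.S0405.result _ _ norm_v norm_w dot_vw
  obtain ⟨h1, h2⟩ := Cfsg.Agent.S1583.result _ _ norm_v norm_w dot_vw
  set v : ↥leechLattice := Spor.leechV with hv
  set w : ↥leechLattice := -(Spor.leechV + Spor.leechU') with hw
  set X : Set ↥leechLattice := {x : ↥leechLattice | sqNorm (x : GolayPt → ℤ) = 32 ∧
    dotInt (v : GolayPt → ℤ) (x : GolayPt → ℤ) = 24 ∧
    dotInt (w : GolayPt → ℤ) (x : GolayPt → ℤ) = -24} with hXdef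
  have hX : ∀ g ∈ K v w, ∀ x ∈ X, g • x ∈ X := by
    rintro g ⟨hgv, hgw⟩ x ⟨hx1, hx2, hx3⟩
    refine ⟨?_, ?_, ?_⟩
    · rw [Leech.Co0Elts.sqNorm_smul]; exact hx1
    · have := dotInt_smul g v x
      rw [show g • v = v from hgv] at this
      rw [this]; exact hx2
    · have := dotInt_smul g w x
      rw [show g • w = w from hgw] at this
      rw [this]; exact hx3
  obtain ⟨x0, hx0, hx0U⟩ : ∃ x0 ∈ X, x0 = -Spor.leechU := by
    refine ⟨-Spor.leechU, ⟨?_, ?_, ?_⟩, rfl⟩
    · show sqNorm (-Spor.vecU) = 32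
      decide
    · show dotInt Spor.vecV (-Spor.vecU) = 24
      decide
    · show dotInt (-(Spor.vecV + Spor.vecU')) (-Spor.vecU) = -24
      decide
  obtain ⟨h3, h4, h5⟩ := Cfsg.Agent.S1584.result v w x0 norm_v norm_w dot_vw hx0
  let _ := act (K v w) X hX
  obtain ⟨b, c, hr⟩ := exists_isRankThree (K v w) X hX (k := 22) (l := 77) (by rw [h1])
    (by norm_num) (by norm_num)
    (by norm_num) ⟨x0, hx0⟩ (fun y => dotInt (x0 : GolayPt → ℤ) (y : GolayPt → ℤ) = 8)
    (by
      intro x hx x' hx'
      obtain ⟨g, hg1, hg2, hg3⟩ := h2 x hx x' hx'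
      exact ⟨g, ⟨hg1, hg2⟩, hg3⟩)
    (by
      intro g hg hg0 y hy
      have := dotInt_smul g x0 y
      rw [show g • x0 = x0 from hg0] at this
      rw [this]; exact hy)
    (by
      intro h
      have h6 : dotInt (x0 : GolayPt → ℤ) (x0 : GolayPt → ℤ) = 32 := by
        rw [← hx0.1]
        exact Finset.sum_congr rfl fun i _ => (sq _).symm
      have h7 : dotInt (x0 : GolayPt → ℤ) (x0 : GolayPt → ℤ) = 8 := h
      omega)
    h3 h4
    (by
      intro y hy y' hy' hne hne' h
      obtain ⟨g, hg1, hg2, hg3, hg4⟩ := h5 y hy y' hy' hne hne' h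
      exact ⟨g, ⟨hg1, hg2⟩, hg3, hg4⟩)
  have hfinX : X.Finite := Set.finite_of_ncard_pos (by rw [h1]; norm_num)
  have : Finite ↥X := hfinX.to_subtype
  have hK : ∀ σ : Spor.M22, permCo0 (incl22 σ) ∈ K v w := by
    intro σ
    rw [hw, ← k_eq]
    exact ⟨smul22_V σ, smul22_U' σ⟩
  refine ⟨↥(K v w), ↥X, inferInstance, act (K v w) X hX, inferInstance, ⟨x0, hx0⟩, b, c, hr, hc,
    ⟨hsEquiv.symm⟩, (permCo0.comp incl22).codRestrict (K v w) hK, ?_, ?_⟩
  · intro σ τ h
    have h6 : permCo0 (incl22 σ) = permCo0 (incl22 τ) := congrArg Subtype.val h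
    exact Subgroup.inclusion_injective _ (Cfsg.Agent.CoOneType.Thirteen.permCo0_injective h6)
  · intro σ
    apply Subtype.ext
    show permCo0 (incl22 σ) • x0 = x0
    rw [hx0U, smul_neg_co0, smul22_U]

end data

theorem card_centralizer_conj {G : Type*} [Group G] (x g : G) :
    Nat.card (Subgroup.centralizer ({g * x * g⁻¹} : Set G)) =
      Nat.card (Subgroup.centralizer ({x} : Set G)) := by
  refine Nat.card_congr
    { toFun := fun c => ⟨g⁻¹ * c * g, ?_⟩
      invFun := fun c => ⟨g * c * g⁻¹, ?_⟩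
      left_inv := ?_
      right_inv := ?_ }
  · have h := Subgroup.mem_centralizer_singleton_iff.1 c.2
    rw [Subgroup.mem_centralizer_singleton_iff]
    calc g⁻¹ * (c : G) * g * x = g⁻¹ * ((c : G) * (g * x * g⁻¹)) * g := by group
      _ = g⁻¹ * ((g * x * g⁻¹) * (c : G)) * g := by rw [h]
      _ = x * (g⁻¹ * (c : G) * g) := by group
  · have h := Subgroup.mem_centralizer_singleton_iff.1 c.2
    rw [Subgroup.mem_centralizer_singleton_iff]
    calc g * (c : G) * g⁻¹ * (g * x * g⁻¹) = g * ((c : G) * x) * g⁻¹ := by group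
      _ = g * (x * (c : G)) * g⁻¹ := by rw [h]
      _ = (g * x * g⁻¹) * (g * (c : G) * g⁻¹) := by group
  · intro c
    apply Subtype.ext
    change g * (g⁻¹ * (c : G) * g) * g⁻¹ = c
    group
  · intro c
    apply Subtype.ext
    change g⁻¹ * (g * (c : G) * g⁻¹) * g = c
    group

open MulAction Cfsg.Agent.SporadicRecognition.RankThree in
theorem not_orat_of_rank {H Y : Type} [Group H] [MulAction H Y] [Finite Y] {a b c : Y}
    (h : IsRankThree H a b c 22 77) (hcard : Nat.card H = 44352000) (f : Spor.M22 →* H)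
    (hf : Function.Injective f) (hfix : ∀ σ, f σ • a = a) : ¬ ORat 1 H := by
  classical
  intro hR
  have hfin : Finite H := Nat.finite_of_card_ne_zero (by rw [hcard]; norm_num)
  have htr := h.trans
  have hY : Nat.card Y = 100 := h.cardX
  -- the point stabilizer
  have hKcard : Nat.card (stabilizer H a) = 443520 := by
    have h1 := (stabilizer H a).card_mul_index
    rw [MulAction.index_stabilizer, MulAction.orbit_eq_univ, Set.ncard_univ, hY, hcard] at h1
    omega
  have hM : Nat.card Spor.M22 = 443520 := NotCT.Orders.m22 ⟨MulEquiv.refl _⟩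
  have hMfin : Finite Spor.M22 := Nat.finite_of_card_ne_zero (by rw [hM]; norm_num)
  have hct : IsCharacteristicTwoType (stabilizer H a) := by
    refine OddHalf.Small.Mathieu.m22 ⟨(MulEquiv.ofBijective
      (f.codRestrict (stabilizer H a) hfix) ?_).symm⟩
    rw [Nat.bijective_iff_injective_and_card]
    refine ⟨fun s t hst => hf (congrArg Subtype.val hst), by rw [hM, hKcard]⟩
  -- the stabilizers of two points
  have hKb : ¬ 11 ∣ Nat.card (stabilizer (stabilizer H a) b) := by
    have h1 := (stabilizer (stabilizer H a) b).card_mul_index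
    rw [MulAction.index_stabilizer, h.cb, hKcard] at h1
    have h2 : Nat.card (stabilizer (stabilizer H a) b) = 20160 := by omega
    rw [h2]
    norm_num
  have hKc : ¬ 11 ∣ Nat.card (stabilizer (stabilizer H a) c) := by
    have h1 := (stabilizer (stabilizer H a) c).card_mul_index
    rw [MulAction.index_stabilizer, h.cc, hKcard] at h1
    have h2 : Nat.card (stabilizer (stabilizer H a) c) = 5760 := by omega
    rw [h2]
    norm_num
  have hcase : ∀ (x : H) (b' y : Y), orderOf x = 11 → x • a = a → x • y = y →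
      Orb H a b' a y → ¬ 11 ∣ Nat.card (stabilizer (stabilizer H a) b') → False := by
    rintro x b' y hx hxa hxy ⟨g, hga, hgb⟩ hno
    apply hno
    have h1 : g⁻¹ * x * g ∈ stabilizer H a := by
      rw [mem_stabilizer_iff, mul_smul, mul_smul, hga, hxa, inv_smul_eq_iff, hga]
    have h2 : (⟨g⁻¹ * x * g, h1⟩ : stabilizer H a) ∈ stabilizer (stabilizer H a) b' := by
      rw [mem_stabilizer_iff]
      change (g⁻¹ * x * g) • b' = b'
      rw [mul_smul, mul_smul, hgb, hxy, inv_smul_eq_iff, hgb]
    have h3 : orderOf (⟨⟨g⁻¹ * x * g, h1⟩, h2⟩ : stabilizer (stabilizer H a) b') = 11 := by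
      rw [← Subgroup.orderOf_coe, ← Subgroup.orderOf_coe]
      change orderOf (g⁻¹ * x * g) = 11
      rw [← hx]
      have h4 := orderOf_injective (MulAut.conj g⁻¹).toMonoidHom (MulAut.conj g⁻¹).injective x
      rw [← h4]
      change _ = orderOf (g⁻¹ * x * g⁻¹⁻¹)
      rw [inv_inv]
    rw [← h3]
    exact orderOf_dvd_natCard _
  have huniq : ∀ (x : H), orderOf x = 11 → x • a = a → ∀ y : Y, x • y = y → y = a := by
    intro x hx hxa y hxy
    rcases h.cases_base y with h1 | h1 | h1
    · exact h1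
    · exact (hcase x b y hx hxa hxy h1 hKb).elim
    · exact (hcase x c y hx hxa hxy h1 hKc).elim
  have hexists : ∀ x : H, orderOf x = 11 → ∃ y : Y, x • y = y := by
    intro x hx
    have : Fact (Nat.Prime 11) := ⟨by norm_num⟩
    have hp : IsPGroup 11 (Subgroup.zpowers x) := by
      refine IsPGroup.of_card (n := 1) ?_
      rw [Nat.card_zpowers, hx, pow_one]
    have h1 := hp.card_modEq_card_fixedPoints Y
    rw [hY] at h1
    have h2 : Nonempty (fixedPoints (Subgroup.zpowers x) Y) := by
      by_contra hno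
      rw [not_nonempty_iff] at hno
      rw [Nat.card_of_isEmpty] at h1
      exact absurd h1 (by decide)
    obtain ⟨y, hy⟩ := h2
    exact ⟨y, hy ⟨x, Subgroup.mem_zpowers x⟩⟩
  refine not_orat_of_centralizer (G := H) (n := 1) (r := 11) (N := 4032000) (by norm_num)
    (by norm_num) (by rw [hcard]) (by norm_num) (fun k => k ∣ 63) ?_ ?_ hR
  · intro x0 k hx0 hk0
    -- conjugate
    obtain ⟨y, hy⟩ := hexists x0 hx0
    obtain ⟨g, hg⟩ := MulAction.exists_smul_eq H y a
    obtain ⟨x, hx⟩ : ∃ x, x = g * x0 * g⁻¹ := ⟨_, rfl⟩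
    have hxo : orderOf x = 11 := by
      rw [hx, ← hx0]
      exact orderOf_injective (MulAut.conj g).toMonoidHom (MulAut.conj g).injective x0
    have hk : Nat.card (Subgroup.centralizer ({x} : Set H)) = 11 * k := by
      rw [hx, card_centralizer_conj, hk0]
    have hxa : x • a = a := by
      rw [hx, ← hg, mul_smul, mul_smul, inv_smul_smul, hy]
    -- the normalizer
    have hN : Subgroup.normalizer ((Subgroup.zpowers x : Subgroup H) : Set H) ≤
        stabilizer H a := by
      intro n hn
      rw [mem_stabilizer_iff]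
      apply huniq x hxo hxa
      have h1 : n⁻¹ * x * n ∈ Subgroup.zpowers x := by
        have h2 := (Subgroup.mem_normalizer_iff.1 (inv_mem hn) x).1 (Subgroup.mem_zpowers x)
        simpa using h2
      obtain ⟨i, hi⟩ := h1
      have h3 : (n⁻¹ * x * n) • a = a := by
        have h4 : x ^ i ∈ stabilizer H a := Subgroup.zpow_mem _ hxa i
        change x ^ i = n⁻¹ * x * n at hi
        rw [← hi]
        exact h4
      rw [mul_smul, mul_smul, inv_smul_eq_iff] at h3
      exact h3
    have hdvd : k ∣ 4032 := by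
      have h1 := Subgroup.card_dvd_of_le hN
      rw [orat_card_normalizer hR (by norm_num) (by norm_num) hxo, hk, hKcard] at h1
      have h2 : 110 * k ∣ 110 * 4032 := by
        have h3 : (11 - 1) * (11 * k) = 110 * k := by ring
        rw [h3] at h1
        exact h1
      exact Nat.dvd_of_mul_dvd_mul_left (by norm_num) h2
    have hodd : ¬ 2 ∣ k := by
      intro h2
      have : Fact (Nat.Prime 2) := ⟨Nat.prime_two⟩
      obtain ⟨u, hu⟩ := exists_prime_orderOf_dvd_card'
        (G := Subgroup.centralizer ({x} : Set H)) 2 (by rw [hk]; exact h2.mul_left _)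
      have hux : (u : H) * x = x * u := Subgroup.mem_centralizer_singleton_iff.1 u.2
      have hua : (u : H) • a = a := by
        apply huniq x hxo hxa
        rw [← mul_smul, ← hux, mul_smul, hxa]
      obtain ⟨j, hj1, hj2, hj3⟩ := dvd_of_comm hct (x := ⟨x, hxa⟩) (u := ⟨(u : H), hua⟩)
        (r := 11) (a := 7) (by norm_num) (by norm_num)
        (by rw [← Subgroup.orderOf_coe]; exact hxo)
        (by rw [← Subgroup.orderOf_coe]; change orderOf (u : H) = 2; rw [Subgroup.orderOf_coe, hu])
        (Subtype.ext hux.symm) (by rw [hKcard]; norm_num)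
      interval_cases j <;> revert hj3 <;> decide
    have h3 : k ∣ 64 * 63 := hdvd
    refine Nat.Coprime.dvd_of_dvd_mul_left ?_ h3
    have h4 : Nat.Coprime k 2 := (Nat.coprime_comm.1 ((Nat.Prime.coprime_iff_not_dvd
      Nat.prime_two).2 hodd))
    exact h4.pow_right 6
  · intro k hk
    have h1 : ∀ k ∈ Nat.divisors 63, (11 - 1) * k ∣ 4032000 → (k + 4032000) % 11 ≠ 0 := by
      decide +kernel
    exact h1 k (Nat.mem_divisors.2 ⟨hk, by norm_num⟩)

theorem not_ratl_hs {G : Type u} [Group G] [Finite G] (h : Spor.IsoHS G) : ¬ Ratl G := by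
  intro hR
  obtain ⟨e⟩ := h
  obtain ⟨H, Y, _, _, _, a, b, c, h1, h2, ⟨e2⟩, f, hf, hfix⟩ := hs_data
  have hfin : Finite H := Nat.finite_of_card_ne_zero (by rw [h2]; norm_num)
  exact not_orat_of_rank h1 h2 f hf hfix ((hR.of_equiv (e.trans e2.symm)).orat 1)

end Cfsg.Agent.H689
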