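import Mathlib
import Cfsg.Agent.H689.Arith
import Cfsg.Agent.H689.SporMT
import Cfsg.Agent.H689.ClaLin
import Cfsg.Agent.KFacts.He.Cent
import Cfsg.Agent.SporadicRecognition.HeldCard

/-!
# `He`
-/

set_option autoImplicit false
set_option linter.unusedSectionVars false

open Cfsg Subgroup

namespace Cfsg.Agent.H689

universe u

theorem not_orat_sl32 : ¬ ORat 2 (Matrix.SpecialLinearGroup (Fin 3) (ZMod 2)) := by
  intro h
  exact not_orat_psl (F := ZMod 2) 2 (n := 3) le_rfl
    (h.of_surjective (QuotientGroup.mk' _) (QuotientGroup.mk'_surjective _))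

theorem not_ratl_he {G : Type u} [Group G] [Finite G] (h : Spor.IsoHe G) : ¬ Ratl G := by
  intro hR
  obtain ⟨e⟩ := h
  have : Finite Spor.He := Finite.of_equiv _ e.toEquiv
  have hz : orderOf (KFacts.He.Bound.z : Spor.He) = 2 := by
    have : Fact (Nat.Prime 2) := ⟨Nat.prime_two⟩
    refine orderOf_eq_prime ?_ KFacts.He.Hyp.z_ne_one
    rw [pow_two, ← KFacts.He.AutP.zx KFacts.He.Cent.emb]
    exact KFacts.He.AutP.sqp KFacts.He.Cent.emb KFacts.He.AutP.c04 (by decide +kernel)
  have h1 := (hR.of_equiv e).cent hz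
  exact not_orat_sl32 ((h1.of_equiv KFacts.He.Cent.iso.symm).of_surjective
    SporadicRecognition.HeldModel.toL3 SporadicRecognition.HeldModel.toL3_surjective)

end Cfsg.Agent.H689
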