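import Mathlib
import Cfsg.Agent.H689.SporTwo
import Cfsg.Agent.H689.Alt
import Cfsg.Agent.H689.ExcTE
import Cfsg.Agent.KFacts.J2.Facts

/-!
# `J₂`
-/

set_option autoImplicit false
set_option linter.unusedSectionVars false

open Cfsg Subgroup

namespace Cfsg.Agent.H689

universe u

open Cfsg.Agent.J2Type Cfsg.Agent.KFacts.J2.Basic in
theorem not_ratl_j2 {G : Type u} [Group G] [Finite G] (h : Spor.IsoJ2 G) : ¬ Ratl G := by
  intro hR
  obtain ⟨t, u, Q, v, ρ, D⟩ := KFacts.J2.Facts.exists_dat_of h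
  have ht : orderOf t = 2 := orderOf_eq_prime (by rw [pow_two, D.tt]) D.t_ne
  have h1 := hR.cent ht
  let f : centralizer ({t} : Set G) →* alternatingGroup (Fin 5) :=
    { toFun := fun c => ⟨(ρ c).σ, Equiv.Perm.mem_alternatingGroup.2 ((D.M.range _).1 ⟨c, rfl⟩).1⟩
      map_one' := by
        apply Subtype.ext
        change (ρ 1).σ = 1
        rw [map_one]; rfl
      map_mul' := by
        intro a b
        apply Subtype.ext
        change (ρ (a * b)).σ = (ρ a).σ * (ρ b).σ
        rw [map_mul]; rfl }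
  apply alt5
  refine h1.of_surjective f ?_
  rintro ⟨s, hs⟩
  obtain ⟨c, hc⟩ := (D.M.range ⟨s, fun _ => 0⟩).2
    ⟨Equiv.Perm.mem_alternatingGroup.1 hs, by simp⟩
  refine ⟨c, Subtype.ext ?_⟩
  change (ρ c).σ = s
  rw [hc]

end Cfsg.Agent.H689
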