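import Mathlib
import Cfsg.Prelude.Def_Spor_M
import Cfsg.Agent.H689.SporCo12
import Cfsg.Agent.H689.ExcTE
import Cfsg.Agent.Schreier.MonsterIso
import Cfsg.Agent.MonsterX.MainSimple
import Cfsg.Agent.MonsterX.Instance
import Cfsg.Agent.MonsterX.OrbDone
import Cfsg.Agent.MonsterX.KStabSpan
import Cfsg.Agent.MonsterX.KStabDone
import Cfsg.Agent.MonsterP.NodesDone
import Cfsg.Agent.BM.KHAll

/-!
# The Monster
-/

set_option autoImplicit false
set_option linter.unusedSectionVars false

open Cfsg Subgroup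

namespace Cfsg.Agent.H689

universe u

open MonsterX MonsterX.Model MonsterX.MainBasic MonsterX.MainSimple in
theorem not_ratl_mmodel {W : Type} [AddCommGroup W] [Module ℚ W] {M : MData W}
    (hG : MGroup M Spor.Co1) (hR : MRep M) (hL : MLat M) (hO : MOrbit M) (hT : MTrans M) :
    ¬ Ratl M.G := by
  intro h
  have hf := G_finite hO
  have hz : orderOf (zG hG) = 2 := by
    refine orderOf_eq_prime ?_ ?_
    · rw [pow_two]
      exact Subtype.ext hG.z_sq
    · intro h1
      exact hG.z_ne (congrArg Subtype.val h1)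
  have hmem := mem_cent_iff hG hR hL hO hT
  have h1 := h.cent hz
  obtain ⟨π, hs, -⟩ := hG.quot
  let ι : Subgroup.centralizer ({zG hG} : Set M.G) →* M.C :=
    { toFun := fun x => ⟨(x : M.G), (hmem _).1 x.2⟩
      map_one' := rfl
      map_mul' := fun _ _ => rfl }
  have hι : Function.Surjective ι := fun c => ⟨⟨⟨c, C_le c.2⟩, (hmem _).2 c.2⟩, rfl⟩
  have h2 := h1.of_surjective (π.comp ι) (hs.comp hι)
  have : Finite Spor.Co1 := Finite.of_surjective (π.comp ι) (hs.comp hι)
  exact not_orat_co1 ⟨MulEquiv.refl _⟩ h2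

open MonsterX MonsterX.Model in
/-- `MOrbit` for the concrete data. -/
theorem mOrbit : MOrbit InstData.M :=
  MonsterX.Instance.mOrbit OrbDone.closed OrbDone.disjoint KStabSpan.X_span OrbDone.card_X
    OrbDone.card_pairs KStabDone.stab

theorem not_ratl_m {G : Type u} [Group G] [Finite G] [hsim : IsSimpleGroup G] (h : Spor.IsoM G) :
    ¬ Ratl G := by
  intro hR
  obtain ⟨e⟩ := h
  have hM : IsSimpleGroup Spor.Monster := e.symm.isSimpleGroup_congr.2 hsim
  have h1 := MonsterX.MainSimple.isSimple MonsterX.Instance.mGroup MonsterX.Instance.mRep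
    MonsterX.Instance.mLat mOrbit MonsterX.Instance.mTrans
  have : Nontrivial MonsterX.InstData.M.G := h1.toNontrivial
  obtain ⟨e1⟩ := Schreier.MonsterIso.equiv_of_simple (MonsterP.NodesDone.prel mOrbit)
    (MonsterP.NodesDone.zrel mOrbit) (MonsterP.NodesDone.gen mOrbit BM.KHAll.isB)
  exact not_ratl_mmodel MonsterX.Instance.mGroup MonsterX.Instance.mRep
    MonsterX.Instance.mLat mOrbit MonsterX.Instance.mTrans (hR.of_equiv (e.trans e1))

end Cfsg.Agent.H689
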