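import Mathlib
import Cfsg.Agent.H689.Arith
import Cfsg.Agent.H689.SporMT
import Cfsg.Agent.H689.ClaLin
import Cfsg.Agent.GTwoRows.ON
import Cfsg.Agent.S1170

/-!
# `ON`
-/

set_option autoImplicit false
set_option linter.unusedSectionVars false

open Cfsg Subgroup

namespace Cfsg.Agent.H689

universe u

theorem ORat.of_pow {n k : ℕ} {G : Type u} [Group G] (h : ORat (n ^ k) G) : ORat n G :=
  fun x hx m hm => h x (Nat.Coprime.pow_right k hx) m hm

open Cfsg.Agent.KFacts.ON.Words Cfsg.Agent.KFacts.ON.Struct in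
theorem not_ratl_on {G : Type u} [Group G] [Finite G] (h : Spor.IsoON G) : ¬ Ratl G := by
  intro hR
  obtain ⟨e⟩ := h
  have : Finite Spor.ON := Finite.of_equiv _ e.toEquiv
  have hz : orderOf (v : Spor.ON) = 2 ^ 2 := by
    have : Fact (Nat.Prime 2) := ⟨Nat.prime_two⟩
    refine orderOf_eq_prime_pow ?_ ?_
    · rw [pow_one, pow_two, vv]
      exact f_ne_one
    · rw [pow_succ, pow_one, pow_mul, pow_two v, vv, pow_two]
      exact ff
  have h1 : ORat 2 (J : Subgroup Spor.ON) := ((hR.of_equiv e).cent hz).of_pow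
  obtain ⟨F, _, _, hF, ⟨f⟩⟩ := GTwoRows.ONQuot.quot S1170.result
  have hch : CharP F 2 := by
    obtain ⟨p, hp⟩ := CharP.exists F
    have hpp : Fact p.Prime := ⟨CharP.char_is_prime F p⟩
    obtain ⟨n, -, hn⟩ := FiniteField.card F p
    rw [hF] at hn
    have h2 : p ∣ 4 := by
      rw [hn]
      exact dvd_pow_self p n.2.ne'
    have h3 : p ∣ 2 := hpp.out.dvd_of_dvd_pow (show p ∣ 2 ^ 2 from h2)
    have h4 := (Nat.prime_dvd_prime_iff_eq hpp.out Nat.prime_two).1 h3
    subst h4
    exact hp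
  exact not_orat_psl (F := F) 2 (n := 3) le_rfl ((h1.of_surjective (QuotientGroup.mk' _)
    (QuotientGroup.mk'_surjective _)).of_equiv f)

end Cfsg.Agent.H689
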