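import Mathlib
import Cfsg.Agent.H689.Arith
import Cfsg.Agent.H689.SporMT
import Cfsg.Agent.H689.Exc2
import Cfsg.Agent.CTwoTab.Ru

/-!
# `Ru`
-/

set_option autoImplicit false
set_option linter.unusedSectionVars false

open Cfsg Subgroup

namespace Cfsg.Agent.H689

universe u

theorem not_orat_sz8 {L : Type u} [Group L] [Finite L] (h : Lie.IsoSuzuki L)
    (hc : Nat.card L = 29120) : ¬ ORat 2 L := by
  obtain ⟨F, _, _, m, hm, hF, ⟨e⟩⟩ := h
  refine not_orat_of_inj ((Lie.Sz F (2 ^ (m + 1))).subtype.comp e.toMonoidHom)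
    (Subtype.val_injective.comp e.injective) (r := 13) (by norm_num)
    (natCast_ne_zero_of_not_dvd_card (by norm_num) ?_) (by rw [hc]; norm_num)
    (by rw [Fintype.card_fin]; omega) (by norm_num)
  rw [hF]
  intro h1
  have := (Nat.prime_dvd_prime_iff_eq (by norm_num) (by norm_num)).1
    ((by norm_num : Nat.Prime 13).dvd_of_dvd_pow h1)
  omega

theorem not_ratl_ru {G : Type u} [Group G] [Finite G] (h : Spor.IsoRu G) : ¬ Ratl G := by
  intro hR
  obtain ⟨C, hsz, hc⟩ := CTwoTab.Ru.exists_core_sz h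
  have ha : ((1, 0) : RuB.A4) ≠ 0 := by decide
  have hv1 : C.v (1, 0) ≠ 1 := fun h1 => ha (C.v_eq_one h1)
  have hz : orderOf (C.v (1, 0)) = 2 := by
    have : Fact (Nat.Prime 2) := ⟨Nat.prime_two⟩
    exact orderOf_eq_prime (by rw [pow_two]; exact C.v_sq _) hv1
  have h1 := hR.cent hz
  have key : ∀ g : centralizer ({C.v (1, 0)} : Set G), ∃ l : C.L, ∃ b, (g : G) = C.v b * l := by
    intro g
    obtain ⟨b, l, hl, hg⟩ := C.cent _ ha g (Subgroup.mem_centralizer_singleton_iff.1 g.2)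
    exact ⟨⟨l, hl⟩, b, hg⟩
  choose f b hf using key
  have huniq : ∀ (b b' : RuB.A4) (l l' : C.L), C.v b * (l : G) = C.v b' * l' → l = l' := by
    intro b b' l l' h2
    have h3 : C.v (b' + b) = (l' : G) * (l : G)⁻¹ := by
      rw [C.v_add, eq_mul_inv_iff_mul_eq, mul_assoc, h2, ← mul_assoc, C.v_sq, one_mul]
    have h4 : C.v (b' + b) ∈ C.L := by
      rw [h3]
      exact C.L.mul_mem l'.2 (C.L.inv_mem l.2)
    have h5 := C.v_notin _ h4
    rw [h5] at h3
    have h6 : C.v 0 = 1 := by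
      have h7 := C.v_add 0 0
      rw [add_zero] at h7
      exact (mul_eq_left.1 h7.symm)
    rw [h6] at h3
    exact Subtype.ext (mul_inv_eq_one.1 h3.symm).symm
  have hmul : ∀ x y, f (x * y) = f x * f y := by
    intro x y
    refine huniq (b (x * y)) (b x + b y) _ _ ?_
    rw [← hf, C.v_add]
    change (x : G) * (y : G) = C.v (b x) * C.v (b y) * ((f x : G) * (f y : G))
    rw [hf x, hf y]
    have h2 := C.v_comm (b y) (f x) (f x).2
    calc C.v (b x) * (f x : G) * (C.v (b y) * (f y : G)) =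
        C.v (b x) * ((f x : G) * C.v (b y)) * (f y : G) := by group
      _ = C.v (b x) * (C.v (b y) * (f x : G)) * (f y : G) := by rw [h2]
      _ = _ := by group
  let φ : centralizer ({C.v (1, 0)} : Set G) →* C.L := MonoidHom.mk' f hmul
  refine not_orat_sz8 hsz hc (h1.of_surjective φ ?_)
  intro l
  have hl : (l : G) ∈ centralizer ({C.v (1, 0)} : Set G) :=
    Subgroup.mem_centralizer_singleton_iff.2 (C.v_comm _ l l.2).symm
  refine ⟨⟨l, hl⟩, ?_⟩
  refine huniq (b ⟨l, hl⟩) 0 _ _ ?_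
  have h6 : C.v 0 = 1 := by
    have h7 := C.v_add 0 0
    rw [add_zero] at h7
    exact (mul_eq_left.1 h7.symm)
  rw [h6, one_mul]
  exact (hf ⟨l, hl⟩).symm

end Cfsg.Agent.H689
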