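import Mathlib
import Cfsg.Agent.H689.Arith
import Cfsg.Agent.H689.SporMT
import Cfsg.Agent.H689.ClaLin
import Cfsg.Agent.H811.PsuH
import Cfsg.Agent.H811.SuzCov
import Cfsg.Agent.CpAutSuz.Local

/-!
# `Suz`
-/

set_option autoImplicit false
set_option linter.unusedSectionVars false

open Cfsg Subgroup

namespace Cfsg.Agent.H689

universe u

theorem charP_of_card {F : Type} [Field F] [Fintype F] {p k : ℕ} (hp : p.Prime)
    (hF : Fintype.card F = p ^ k) : CharP F p := by
  obtain ⟨r, hr⟩ := CharP.exists F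
  have hrp : Fact r.Prime := ⟨CharP.char_is_prime F r⟩
  obtain ⟨n, -, hn⟩ := FiniteField.card F r
  rw [hF] at hn
  have h2 : r ∣ p ^ k := by
    rw [hn]
    exact dvd_pow_self r n.2.ne'
  have h3 : r ∣ p := hrp.out.dvd_of_dvd_pow h2
  have h4 := (Nat.prime_dvd_prime_iff_eq hrp.out hp).1 h3
  subst h4
  exact hr

theorem not_ratl_suz {G : Type u} [Group G] [Finite G] (h : Spor.IsoSuz G) : ¬ Ratl G := by
  intro hR
  obtain ⟨f⟩ := h
  have : Finite Spor.Suz := Finite.of_equiv _ f.toEquiv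
  have h1 := (hR.of_equiv f).cent CpAutSuz.Local.orderOf_y0
  obtain ⟨g, hg, -⟩ := H811.SuzCov.cov
  obtain ⟨F, _, _, hF, ⟨e⟩⟩ := H811.PsuH.psu
  have hch : CharP F 3 := charP_of_card (k := 2) Nat.prime_three (by rw [hF]; norm_num)
  exact not_orat_psu (F := F) 3 (n := 4) (q := 3) (by rw [hF]; norm_num) (by norm_num) (by norm_num)
    ((h1.of_surjective g hg).of_equiv e)

end Cfsg.Agent.H689
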